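import Cfsg.Agent.Lib.SU4.G3c

/-!
# S5210, `q = 3`: subgroups of `GSp₄(3)` with Sylow `3`-subgroup `T = ⟨τ⟩` (a finite computation)

`PGSp₄(3) = W(E₆)`.  The 72 roots are the matrices `J` with `J² = -1`, `Jᵀ Om J = -Om` (then `Om J` is alternating: 729 cases); `k0M` is a root, and
`W₀ = ⟨τ, k0M⟩` (order 12) is the preimage of `W(A₂)`.  `N = {IsN}` (order 864) is the normalizer of `T` in `GSp₄(3)`; 18 roots lie in `N`.
The other 54 roots form 9 cells of size 6 (orbits of `W₀`; `-1 = k0M²`), the cell `(x, y)` contains `p r₀ p⁻¹` with `p = PM x y (-x)`,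
`r₀ = !![0,2,0,0; 1,0,0,0; 0,2,0,1; 1,0,2,0] = w1M (τ k0M τ⁻¹) w1M⁻¹`.  `N / W₀ = S₃ ≀ 2` (order 72) acts on the grid `ZMod 3 × ZMod 3` of cells
(affine group of the two parallel classes of lines `x ± y = const`; translations from `IsP`, the stabilizer of `(0, 0)` is `T · IsD`).

Let `H3 X`, `B = X ∩ N`, `C` = cells in `X`.
1. `R` = subgroup generated by the `X`-conjugates of `k0M` is normal and contains `τ⁻¹ = ⁅τ, k0M⁆`; Frattini: `X = R B`, so `X = ⟨B, C⟩`, `C ≠ ∅`.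
   An element of `X` of order `3` that normalizes (commutes with) `T` lies in `T`; `B / W₀` is a `2`-group that stabilizes `C`.
2. Words in `τ, k0M` and cell roots show: two cells on a line give the reflection of `N` that swaps them (three cells on a line give an element of
   `IsP` outside `T`: impossible); two cells not on a line give the third cell of their transversal.  So up to `N`: `C` is one cell (`A₃`), two cells on
   a line (`A₄`), a transversal (`D₄`) or a `2 × 2` block with the opposite cell (`D₅`).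
3. Table (checked by computer; `|X|`, `o5`, `no`, `m1`, `|B|`): one cell: `B ≤ T · IsD` arbitrary over `W₀`, `|X| = 4 |B|`, not `o5`, not `no`;
   `A₄`: `(240, +, -, -, 24)`, `(480, +, -, +, 48)`; `D₄`: `(384, -, +, -, 24)`, `(768, -, +, +, 48)`; `D₅`: `(3840, +, +, +, 96)`; each of the last five is
   one orbit under `N`.  In each case `B` lies between `B₀ = ⟨C, W₀⟩ ∩ N` and the stabilizer of `C` (`D₄`: the stabilizer is `S₃ × 2` modulo `W₀`, conjugate by its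
   element of order `3`).  The conjugates of `T` (resp. the planes `g U`, `U = {v 2 = v 3 = 0}`) form explicit lists of sizes `4, 10, 16, 40` closed under the
   generators.  Not `o5`: an element of order `5` fixes a member of a list of size `4` or `16`, but `5 ∤ 864`.  Not `no`: the planes in the lists of size
   `4, 10` are pairwise complementary, and `g U = U` gives `g τ g⁻¹ ∈ IsP ∩ X = T`.
-/

set_option autoImplicit false

namespace Cfsg.Lib.SU4.G3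

open Matrix Subgroup MK Cfsg.Lib.BG
open scoped Cfsg.Lib.Transfer

variable {X Y : Subgroup G4} {n : G4}

attribute [local irreducible] ml3 enc PL DL W0L RL PR TR RC iv

/-- words for `X / B`, one cell -/
def HW1 : List (List ℕ) := [[], [2], [0, 2], [0, 0, 2]]
/-- words for `X / B`, `A₄` -/
def HW2 : List (List ℕ) := [[], [2], [3], [0, 2], [0, 3], [0, 0, 2], [0, 0, 3], [2, 1, 3], [0, 2, 1, 3], [2, 0, 1, 3]]
/-- words for `X / B`, `D₄` -/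
def HW3 : List (List ℕ) := [[], [2], [3], [4], [0, 2], [0, 3], [0, 4], [0, 0, 2], [0, 0, 3], [0, 0, 4], [2, 0, 3], [2, 0, 4],
  [3, 0, 2], [3, 0, 4], [4, 0, 2], [4, 0, 3]]
/-- words for `X / B`, `D₅` -/
def HW4 : List (List ℕ) := [[], [2], [3], [4], [5], [6], [0, 2], [0, 3], [0, 4], [0, 5], [0, 6], [0, 0, 2],
  [0, 0, 3], [0, 0, 4], [0, 0, 5], [0, 0, 6], [2, 0, 3], [2, 0, 6], [2, 1, 4], [2, 1, 5], [3, 0, 2], [3, 0, 4], [3, 0, 5], [3, 0, 6],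
  [4, 0, 3], [4, 0, 5], [4, 1, 6], [5, 0, 3], [5, 0, 4], [5, 1, 6], [6, 0, 2], [6, 0, 3], [0, 2, 1, 4], [0, 2, 1, 5], [0, 4, 1, 6], [0, 5, 1, 6],
  [2, 0, 1, 4], [2, 0, 1, 5], [2, 3, 0, 4], [2, 3, 0, 5]]
/-- the five standard positions -/
def tab : List (List ℕ × List ℕ) := [([0, 4], [0, 67]), ([0, 4], [0, 13, 54, 67]), ([0, 1, 2], [0, 18]), ([0, 1, 2], [0, 18, 9, 27]),
  ([0, 3, 4, 5, 6], [0, 15, 24, 27, 41, 49, 59, 67])]
/-- the value of `m1` -/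
def mB (J : List ℕ) : Bool := forceL ML fun M => (prodL J).any (has M)

theorem d1 : chkD [0] [0, 9, 18, 27, 36, 45, 54, 63] HW1 = true := by kdec
theorem d2 : chkD [0, 4] [0, 13, 54, 67] HW2 = true := by kdec
theorem d3 : chkD [0, 1, 2] [0, 1, 2, 9, 10, 11, 18, 19, 20, 27, 28, 29] HW3 = true := by kdec
theorem d4 : chkD [0, 3, 4, 5, 6] [0, 15, 24, 27, 41, 49, 59, 67] HW4 = true := by kdec

theorem H3.i1 (h : H3 X) (c : cells X [0]) : ¬ o5 X ∧ ¬ no X := ⟨h.not_o5 c d1 (by kdec), h.not_no c d1 (by kdec)⟩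

theorem H3.inv (h : H3 X) {p : List ℕ × List ℕ} (m : p ∈ tab) (s : Std X p.1 p.2) :
    (o5 X ↔ p.1 ≠ [0, 1, 2]) ∧ (no X ↔ p.1 ≠ [0, 4]) ∧ (m1 X ↔ mB p.2 = true) ∧ nb X = 12 * p.2.length := by
  have i2 (c : cells X [0, 4]) : o5 X ∧ ¬ no X := ⟨h.o5_of c d2 [0, 2, 0, 3] (by kdec), h.not_no c d2 (by kdec)⟩
  have i3 (c : cells X [0, 1, 2]) : ¬ o5 X ∧ no X := ⟨h.not_o5 c d3 (by kdec), h.no_of c d3 [2, 0, 3] 1 1 (by kdec)⟩
  have i4 (c : cells X [0, 3, 4, 5, 6]) : o5 X ∧ no X := ⟨h.o5_of c d4 [0, 2, 0, 4] (by kdec), h.no_of c d4 [2, 0, 3] 1 0 (by kdec)⟩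
  obtain ⟨q1, q2⟩ := (by kdec : ∀ p ∈ tab, (prodL p.2).Nodup ∧ (prodL p.2).length = 12 * p.2.length) p m
  refine and_assoc.1 ⟨?_, s.m1 h, (s.nb h q1).trans q2⟩
  simp only [tab, List.mem_cons, List.not_mem_nil, or_false] at m
  rcases m with rfl | rfl | rfl | rfl | rfl
  exacts [by simp [i2 s.1], by simp [i2 s.1], by simp [i3 s.1], by simp [i3 s.1], by simp [i4 s.1]]

/-- `X` is conjugate to a standard position -/
def Cl (X : Subgroup G4) : Prop := ∃ n ∈ NS, ∃ p ∈ tab, Std (n ⋆ X) p.1 p.2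

theorem Cl.of (hn : n ∈ NS) (k : Cl (n ⋆ X)) : Cl X :=
  let ⟨m, hm, p, hp, s⟩ := k; ⟨m * n, mul_mem hm hn, p, hp, Transfer.conj_conj m n X ▸ s⟩

theorem Cl.std {C J : List ℕ} (s : Std X C J) (m : (C, J) ∈ tab) : Cl X := ⟨1, one_mem _, _, m, (Transfer.conj_one X).symm ▸ s⟩

theorem H3.cl2 (h : H3 X) (c : cells X [0, 4]) : Cl X := by
  by_cases j : In X (rl 13)
  · exact .std (h.mkStd c d2 (E := [13]) (F := []) (J := [0, 13, 54, 67]) (JW := [[], [4], [1, 2, 3, 2, 4], [1, 2, 3, 2]])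
      (XW := []) (by simpa using j) (by simp) (by kdec)) (by simp [tab])
  · exact .std (h.mkStd c d2 (E := []) (F := [13]) (J := [0, 67]) (JW := [[], [1, 2, 3, 2]])
      (XW := [[0], [0, 2, 4, 3, 4]]) (by simp) (by simpa using j) (by kdec)) (by simp [tab])

theorem H3.cl3 (h : H3 X) (c : cells X [0, 1, 2]) : Cl X := by
  have k {X : Subgroup G4} (h : H3 X) (c : cells X [0, 1, 2]) (j : In X (rl 9)) : Cl X :=
    .std (h.mkStd c d3 (E := [9]) (F := []) (J := [0, 18, 9, 27]) (JW := [[], [0, 2, 4, 3, 1], [5], [0, 1, 5, 2, 3, 4]])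
      (XW := [[0], [0, 6], [0, 0], [0, 6, 0, 6]]) (by simpa using j) (by simp) (by kdec)) (by simp [tab])
  have k' (a b : ℕ) (j : In X (rl b)) (e : rl a ∈ RL ∧ ml3 (rl a) (iv (rl a)) = one ∧ ml3 (ml3 (rl a) (rl b)) (iv (rl a)) = rl 9 ∧
      ∀ l < 9, ∃ k < 9, act (rl a) k = l ∧ (k ∈ [0, 1, 2] ↔ l ∈ [0, 1, 2])) : Cl X := by
    obtain ⟨n, q, hn⟩ := unitN e.1
    rw [← q] at e
    exact .of hn (k (h.conj hn) (h.cells_conj hn e.1 c e.2.2.2) (e.2.2.1 ▸ j.conj e.2.1))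
  by_cases j : In X (rl 9)
  · exact k h c j
  by_cases j1 : In X (rl 10)
  · exact k' 1 10 j1 (by kdec)
  by_cases j2 : In X (rl 11)
  · exact k' 2 11 j2 (by kdec)
  exact .std (h.mkStd c d3 (E := []) (F := [9, 10, 11]) (J := [0, 18]) (JW := [[], [0, 2, 4, 3, 1]])
      (XW := [[0], [0, 0], [0, 1, 3, 5, 4, 2]]) (by simp) (by simpa using ⟨j, j1, j2⟩) (by kdec)) (by simp [tab])

theorem H3.cl4 (h : H3 X) (c : cells X [0, 3, 4, 5, 6]) : Cl X :=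
  .std (h.mkStd c d4 (E := []) (F := []) (J := [0, 15, 24, 27, 41, 49, 59, 67]) (JW := [[], [1, 2, 5, 4, 2], [0, 3, 5, 4, 1], [0, 2, 6, 3], [0, 2, 3, 5, 6, 1], [0, 2, 3, 4, 6], [5, 2, 5], [1, 2, 4, 2]])
      (XW := []) (by simp) (by simp) (by kdec)) (by simp [tab])

theorem H3.cl (h : H3 X) : (∃ n ∈ NS, IsP n.1 ∧ cells (n ⋆ X) [0]) ∨ Cl X :=
  h.cls.imp_right fun ⟨_, hn, c⟩ => .of hn (c.elim (h.conj hn).cl2 fun c => c.elim (h.conj hn).cl3 (h.conj hn).cl4)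

theorem H3.main (h : H3 X) (e : o5 X ∨ no X) : ∃ n ∈ NS, ∃ p ∈ tab, Std (n ⋆ X) p.1 p.2 ∧
    (o5 X ↔ p.1 ≠ [0, 1, 2]) ∧ (no X ↔ p.1 ≠ [0, 4]) ∧ (m1 X ↔ mB p.2 = true) ∧ nb X = 12 * p.2.length := by
  rcases h.cl with ⟨n, hn, -, c⟩ | ⟨n, hn, p, m, s⟩
  · have := (h.conj hn).i1 c
    rw [o5_conj, no_conj hn] at this
    exact (e.elim this.1 this.2).elim
  · have := (h.conj hn).inv m s
    rw [o5_conj, no_conj hn, m1_conj hn, nb_conj hn] at this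
    exact ⟨n, hn, p, m, s, this⟩

/-- the normalizer of `T` in `GSp₄(3)` -/
theorem isN_iff {g : G4} (h : g.1ᵀ * Om * g.1 = Om ∨ g.1ᵀ * Om * g.1 = -Om) :
    IsN g.1 ↔ ∃ x, g.1 * PM 1 0 1 = PM x 0 x * g.1 := by
  refine ⟨fun n => ?_, fun ⟨_, e⟩ => isN_of h e⟩
  obtain ⟨x, e⟩ := isT_iff.2 ((isN_iff_mem.1 n).2 τ (by rw [enc_τ]; simp [TL]))
  exact ⟨x, by rw [← e, ← Units.val_mul, inv_mul_cancel_right]; rfl⟩

theorem uniq (h : H3 X) (h' : H3 Y) (e : o5 X ∨ no X) (e1 : o5 X ↔ o5 Y) (e2 : no X ↔ no Y) (e3 : m1 X ↔ m1 Y) :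
    ∃ n : G4, IsN n.1 ∧ ∀ g, g ∈ Y ↔ n⁻¹ * g * n ∈ X := by
  obtain ⟨a, ha, p, hp, s, p1, p2, p3, -⟩ := h.main e
  obtain ⟨b, hb, q, hq, s', q1, q2, q3, -⟩ := h'.main (e.imp e1.1 e2.1)
  obtain rfl : p = q := (by kdec : ∀ p ∈ tab, ∀ q ∈ tab, (p.1 ≠ [0, 1, 2] ↔ q.1 ≠ [0, 1, 2]) → (p.1 ≠ [0, 4] ↔ q.1 ≠ [0, 4]) →
    (mB p.2 = true ↔ mB q.2 = true) → p = q) p hp q hq (p1.symm.trans (e1.trans q1)) (p2.symm.trans (e2.trans q2)) (p3.symm.trans (e3.trans q3))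
  have E : a ⋆ X = b ⋆ Y := le_antisymm (s.le (h.conj ha) (h'.conj hb) s') (s'.le (h'.conj hb) (h.conj ha) s)
  refine ⟨b⁻¹ * a, mul_mem (s := NS) (inv_mem hb) ha, fun g => ?_⟩
  rw [cj_iff (n := b), ← E, Transfer.mem_conj]
  simp only [mul_assoc, _root_.mul_inv_rev, inv_inv]

theorem real (h : H3 X) (e1 : ¬ o5 X) (e2 : ¬ no X) : ∃ n : G4, IsP n.1 ∧ (∃ g ∈ X, (n * g * n⁻¹).1 = w1M) ∧
    (∀ g ∈ X, IsN g.1 → ∃ u d, IsT u ∧ IsD d ∧ (n * g * n⁻¹).1 = u * d) ∧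
    ∀ g ∈ X, ∀ g' ∈ X, ¬ IsN g.1 → ¬ IsN g'.1 → ∃ u : G4, IsT u.1 ∧ IsN (g⁻¹ * u * g').1 := by
  rcases h.cl with ⟨n, hn, p, c⟩ | ⟨n, hn, p, m, s⟩
  swap
  · have := (h.conj hn).inv m s
    rw [o5_conj, no_conj hn] at this
    have q1 := not_not.1 (mt this.1.2 e1)
    exact absurd (q1.symm.trans (not_not.1 (mt this.2.1.2 e2))) (by decide)
  have h' := h.conj hn
  have cN' {g : G4} : IsN (n * g * n⁻¹).1 ↔ IsN g.1 := (mul_mem_cancel_right (H := NS) (inv_mem hn)).trans (mul_mem_cancel_left hn)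
  refine ⟨n, p, ?_, fun g m j => ?_, fun g m g' m' j j' => ?_⟩
  · obtain ⟨_, ⟨g, m, rfl⟩, e⟩ := h'.inW' c d1 [0, 0, 2, 0, 1]
    exact ⟨g, m, inj (e.trans (by kdec))⟩
  · obtain ⟨w, hw, s, hs, i, e⟩ := h'.decB (cj_iff.1 m) (cN'.2 j)
    obtain ⟨u, hu, q1, q2⟩ := (by kdec : ∀ w ∈ W0L, ∀ s ∈ [0, 9, 18, 27, 36, 45, 54, 63].map rl, ∃ u ∈ TL,
      has DL (ml3 (iv u) (ml3 w s)) = true ∧ ml3 u (ml3 (iv u) (ml3 w s)) = ml3 w s) w hw s (h'.stab c d1 hs i)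
    obtain ⟨d, e', hd⟩ := valD (has_iff.1 q1)
    obtain ⟨u, rfl, -⟩ := valP ((by kdec : ∀ u ∈ TL, u ∈ PL) u hu)
    exact ⟨u, d, isT_iff.2 hu, hd, inj (by rw [e, ← q2, ← e', enc_mul3])⟩
  · obtain ⟨w, hw, a, -, e, b⟩ := h'.dec c d1 (cj_iff.1 m)
    obtain ⟨w', hw', a', -, e', b'⟩ := h'.dec c d1 (cj_iff.1 m')
    have k {a g : G4} (b : IsN (a⁻¹ * (n * g * n⁻¹)).1) (j : ¬ IsN g.1) : enc a.1 ≠ one := fun q => by
      rw [injU (h := 1) (q.trans enc_one.symm), inv_one, one_mul] at b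
      exact j (cN'.1 b)
    obtain ⟨t, ht, q1, q2⟩ := (by kdec : ∀ a ∈ HW1.map (ev (gs [0])), ∀ a' ∈ HW1.map (ev (gs [0])), a ≠ one → a' ≠ one → ∃ t ∈ TL,
      cN (ml3 (iv a) (ml3 t a')) = true ∧ ml3 a (ml3 (iv a) (ml3 t a')) = ml3 t a') _ (List.mem_map_of_mem hw) _ (List.mem_map_of_mem hw')
      (e ▸ k b j) (e' ▸ k b' j')
    obtain ⟨x, q, hx⟩ := of_cN q1
    obtain ⟨t, rfl, -⟩ := unitW ((by kdec : ∀ u ∈ TL, u ∈ W0L) t ht)
    rw [← q, ← e, ← e', mulU, mulU] at q2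
    refine ⟨n⁻¹ * t * n⁻¹⁻¹, isT_iff.2 ((isN_iff_mem.1 (inv_mem hn : n⁻¹ ∈ NS)).2 t ht), cN'.1 ?_⟩
    rw [show n * (g⁻¹ * (n⁻¹ * t * n⁻¹⁻¹) * g') * n⁻¹ = (a⁻¹ * (n * g * n⁻¹))⁻¹ * (a⁻¹ * (t * a')) * (a'⁻¹ * (n * g' * n⁻¹)) by group,
      ← injU q2, inv_mul_cancel_left]
    exact mul_mem (s := NS) (mul_mem (s := NS) (inv_mem (s := NS) b) hx) b'

theorem t1 (h : H3 X) (e1 : o5 X) (e2 : no X) : m1 X ∧ 96 ≤ nb X := by
  obtain ⟨-, -, p, hp, -, p1, p2, p3, p4⟩ := h.main (.inl e1)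
  rw [p3, p4]
  exact (by kdec : ∀ p ∈ tab, p.1 ≠ [0, 1, 2] → p.1 ≠ [0, 4] → mB p.2 = true ∧ 96 ≤ 12 * p.2.length) p hp (p1.1 e1) (p2.1 e2)

theorem t2 (h : H3 X) (e : o5 X ∨ no X) (e3 : m1 X) : 48 ≤ nb X := by
  obtain ⟨-, -, p, hp, -, -, -, p3, p4⟩ := h.main e
  exact p4 ▸ (by kdec : ∀ p ∈ tab, mB p.2 = true → 48 ≤ 12 * p.2.length) p hp (p3.1 e3)

theorem t3 (h : H3 X) (e : o5 X ∨ no X) (e3 : ¬ m1 X) : nb X ≤ 24 := by
  obtain ⟨-, -, p, hp, -, -, -, p3, p4⟩ := h.main e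
  exact p4 ▸ (by kdec : ∀ p ∈ tab, ¬ mB p.2 = true → 12 * p.2.length ≤ 24) p hp (mt p3.2 e3)

end Cfsg.Lib.SU4.G3
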