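import Cfsg.Agent.Lib.SU4.MK
import Cfsg.Agent.Lib.BG.Hall

/-! # S5210, `q = 3`: definitions and tools for the computation in `GSp₄(3)` (see `SU4/G3`) -/

set_option autoImplicit false

namespace Cfsg.Lib.SU4.G3

open Matrix Subgroup MK Cfsg.Lib.BG
open scoped Cfsg.Lib.Transfer

/-- matrices acting on `(b₀, b₁, t₀, t₁)` -/
abbrev M4 := Matrix (Fin 4) (Fin 4) (ZMod 3)
/-- the general linear group -/
abbrev G4 := GL (Fin 4) (ZMod 3)

/-- the symplectic form -/
def Om : M4 := !![0, 0, 1, 0; 0, 0, 0, 1; -1, 0, 0, 0; 0, -1, 0, 0]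
/-- the unipotent radical of the stabilizer of `U` -/
def PM (x y z : ZMod 3) : M4 := !![1, 0, x, y; 0, 1, y, z; 0, 0, 1, 0; 0, 0, 0, 1]
/-- `t ↦ μ σ t`, `b ↦ n μ σ b` with `μ = m₀ + m₁ i`, `σ i = e i` -/
def DM (m₀ m₁ e n : ZMod 3) : M4 :=
  !![n * m₀, -(n * e * m₁), 0, 0; n * m₁, n * e * m₀, 0, 0; 0, 0, m₀, -(e * m₁); 0, 0, m₁, e * m₀]
/-- `(μ, ν) = (i, -1)` -/
def k0M : M4 := DM 0 1 1 (-1)
/-- `(μ, ν) = (1, -1)`, which inverts `V` -/
def dM : M4 := DM 1 0 1 (-1)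
/-- the Weyl element -/
def w1M : M4 := !![0, 0, -1, 0; 0, 0, 0, -1; 1, 0, 0, 0; 0, 1, 0, 0]

/-- members of `P` -/
def IsP (g : M4) : Prop := ∃ x y z, g = PM x y z
/-- members of `T` -/
def IsT (g : M4) : Prop := ∃ x, g = PM x 0 x
/-- members of `D̂` -/
def IsD (g : M4) : Prop := ∃ m₀ m₁ e n, (m₀ ≠ 0 ∨ m₁ ≠ 0) ∧ e * e = 1 ∧ n * n = 1 ∧ g = DM m₀ m₁ e n
/-- members of `N = P D̂` -/
def IsN (g : M4) : Prop := ∃ u d, IsP u ∧ IsD d ∧ g = u * d

/-- the hypotheses -/
structure H3 (X : Subgroup G4) : Prop where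
  sp : ∀ g ∈ X, g.1ᵀ * Om * g.1 = Om ∨ g.1ᵀ * Om * g.1 = -Om
  tau : ∀ g : G4, IsT g.1 → g ∈ X
  k0 : ∀ g : G4, g.1 = k0M → g ∈ X
  syl : ¬ 9 ∣ Nat.card X
  nn : ∃ g ∈ X, ¬ IsN g.1

/-- elements of order five -/
def o5 (X : Subgroup G4) : Prop := 5 ∣ Nat.card X
/-- two conjugates of `T` that are not opposite -/
def no (X : Subgroup G4) : Prop := ∃ g ∈ X, ¬ IsN g.1 ∧
  ∃ v : Fin 4 → ZMod 3, v ≠ 0 ∧ v 2 = 0 ∧ v 3 = 0 ∧ (g.1 *ᵥ v) 2 = 0 ∧ (g.1 *ᵥ v) 3 = 0
/-- inversion of `V` -/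
def m1 (X : Subgroup G4) : Prop := ∃ g ∈ X, ∃ u, IsP u ∧ g.1 = u * dM
/-- the order of `X ∩ N` -/
noncomputable def nb (X : Subgroup G4) : ℕ := Nat.card {g : X // IsN g.1.1}

variable {X Y : Subgroup G4} {g : G4} {A B : M4} {c d : ℕ}

/-- symplectic similitudes -/
def spM (A : M4) : Prop := Aᵀ * Om * A = Om ∨ Aᵀ * Om * A = -Om

theorem spM.mul (h : spM A) (k : spM B) : spM (A * B) := by
  have e : (A * B)ᵀ * Om * (A * B) = Bᵀ * (Aᵀ * Om * A) * B := by simp only [transpose_mul, Matrix.mul_assoc]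
  rw [spM, e]
  rcases h with h | h <;> rcases k with k | k <;> simp [h, k]

/-- a finite submonoid is a subgroup -/
def sub (S : Submonoid G4) : Subgroup G4 :=
  { S with inv_mem' := fun {g} m => Submonoid.powers_le.2 m (mem_powers_iff_mem_zpowers.2 (inv_mem (mem_zpowers g))) }

/-- `GSp₄(3)` -/
def Sp : Subgroup G4 := sub { carrier := {g | spM g.1}, one_mem' := .inl (by simp), mul_mem' := spM.mul }

/-- the stabilizer of a list of elements under conjugation -/
def KL (l : List ℕ) : Subgroup G4 := sub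
  { carrier := {g | ∀ a : G4, enc a.1 ∈ l → enc (g * a * g⁻¹).1 ∈ l}
    one_mem' := fun a m => by simpa using m
    mul_mem' := fun {g h} p q a m => by simpa only [mul_assoc, _root_.mul_inv_rev] using p _ (q a m) }

/-- the code of `1` -/
def one : ℕ := 0x1000000000100000000010000000001
/-- the code of `τ` -/
def tc : ℕ := 0x1000000000100000100010000010001
/-- the code of `τ²` -/
def tc2 : ℕ := 0x1000000000100000200010000020001
/-- the code of `k0M` -/
def kc : ℕ := 0x10000020000000000000200000100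
/-- the codes of `P` -/
def PL : List ℕ := [0x1000000000100000000010000000001, 0x1000000000100000100010000000001, 0x1000000000100000200010000000001,
  0x1000000000100000001010001000001, 0x1000000000100000101010001000001, 0x1000000000100000201010001000001,
  0x1000000000100000002010002000001, 0x1000000000100000102010002000001, 0x1000000000100000202010002000001,
  0x1000000000100000000010000010001, 0x1000000000100000100010000010001, 0x1000000000100000200010000010001,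
  0x1000000000100000001010001010001, 0x1000000000100000101010001010001, 0x1000000000100000201010001010001,
  0x1000000000100000002010002010001, 0x1000000000100000102010002010001, 0x1000000000100000202010002010001,
  0x1000000000100000000010000020001, 0x1000000000100000100010000020001, 0x1000000000100000200010000020001,
  0x1000000000100000001010001020001, 0x1000000000100000101010001020001, 0x1000000000100000201010001020001,
  0x1000000000100000002010002020001, 0x1000000000100000102010002020001, 0x1000000000100000202010002020001]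
/-- the codes of `T` -/
def TL : List ℕ := [one, tc, tc2]
/-- the codes of `D̂` -/
def DL : List ℕ := [0x10000020000000000000100000200, 0x10000020000000000000200000100, 0x10000010000000000000100000100,
  0x10000010000000000000200000200, 0x20000010000000000000200000100, 0x20000010000000000000100000200,
  0x20000020000000000000200000200, 0x20000020000000000000100000100, 0x1000000000100000000010000000001,
  0x1000000000100000000020000000002, 0x2000000000100000000020000000001, 0x2000000000100000000010000000002,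
  0x1010000020100000000010100000201, 0x1010000020100000000020200000102, 0x2010000010100000000020100000101,
  0x2010000010100000000010200000202, 0x1020000010100000000010200000101, 0x1020000010100000000020100000202,
  0x2020000020100000000020200000201, 0x2020000020100000000010100000102, 0x2000000000200000000020000000002,
  0x2000000000200000000010000000001, 0x1000000000200000000010000000002, 0x1000000000200000000020000000001,
  0x2010000020200000000020100000202, 0x2010000020200000000010200000101, 0x1010000010200000000010100000102,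
  0x1010000010200000000020200000201, 0x2020000010200000000020200000102, 0x2020000010200000000010100000201,
  0x1020000020200000000010200000202, 0x1020000020200000000020100000101]
/-- `c ^ 6` -/
def p6 (c : ℕ) : ℕ := ml3 (ml3 c (ml3 c c)) (ml3 c (ml3 c c))
/-- `c ^ 23` -/
def iv (c : ℕ) : ℕ := ml3 (ml3 (ml3 (p6 c) (p6 c)) (p6 c)) (ml3 (ml3 c c) (ml3 c (ml3 c c)))
/-- decoding -/
def toM (c : ℕ) : M4 := of fun i j => (c / 256 ^ (4 * i.val + j.val) % 256 : ℕ)
/-- evaluation of a word -/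
def ev (gs w : List ℕ) : ℕ := w.foldl (fun a i => ml3 a (gs.getD i one)) one
/-- `c` is the code of an element of `X` -/
def In (X : Subgroup G4) (c : ℕ) : Prop := ∃ g ∈ X, enc g.1 = c
/-- test for `N` -/
def cN (c : ℕ) : Bool :=
  PL.contains (ml3 c (iv (Nat.land c 0xffff0000ffff00000000ffff0000ffff))) && DL.contains (Nat.land c 0xffff0000ffff00000000ffff0000ffff) &&
    ml3 (ml3 c (iv (Nat.land c 0xffff0000ffff00000000ffff0000ffff))) (Nat.land c 0xffff0000ffff00000000ffff0000ffff) == c && ml3 c (iv c) == one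
/-- evaluates `c` first -/
def force (c : ℕ) (f : ℕ → Bool) : Bool := Nat.rec (f 0) (fun n _ => f (Nat.succ n)) c
/-- fast membership test -/
def has (l : List ℕ) (c : ℕ) : Bool := force c fun x => l.any (Nat.beq x)
/-- test for `KL` -/
def chkS (l : List ℕ) (s : ℕ) : Bool := ml3 s (iv s) == one && l.all fun a => has l (ml3 (ml3 s a) (iv s))
/-- test for `P \ T` -/
def bad (c : ℕ) : Bool := PL.contains c && !TL.contains c

attribute [local irreducible] ml3 enc

/-- kernel evaluation -/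
scoped macro "kdec" : tactic => `(tactic| (set_option synthInstance.maxSize 4096 in decide +kernel))

theorem force_eq (c : ℕ) (f : ℕ → Bool) : force c f = f c := by cases c <;> rfl

theorem has_iff {l : List ℕ} : has l c = true ↔ c ∈ l := by simp [has, force_eq]

theorem inj (h : enc A = enc B) : A = B := enc_inj (n := 2) (by decide) h

theorem injU {g h : G4} (e : enc g.1 = enc h.1) : g = h := Units.ext (inj e)

theorem enc_one : enc (1 : M4) = one := by decide +kernel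

theorem mulU (g h : G4) : ml3 (enc g.1) (enc h.1) = enc (g * h).1 := enc_mul3 _ _

theorem enc_iv (A : M4) : iv (enc A) = enc (A ^ 23) := by
  simp only [iv, p6, enc_mul3]
  refine congrArg enc ?_
  simp only [← pow_two, ← pow_succ', ← pow_add, ← pow_mul]

theorem exU (h : ml3 (enc A) (iv (enc A)) = one) : ∃ g : G4, g.1 = A := by
  rw [enc_iv, enc_mul3, ← enc_one] at h
  exact ⟨⟨A, A ^ 23, inj h, mul_eq_one_comm.1 (inj h)⟩, rfl⟩

theorem iv_inv (h : ml3 (enc g.1) (iv (enc g.1)) = one) : iv (enc g.1) = enc g⁻¹.1 := by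
  rw [enc_iv, enc_mul3, ← enc_one] at h
  rw [enc_iv, ← Units.inv_eq_of_mul_eq_one_right (inj h)]

theorem mem_KL {l : List ℕ} (h : chkS l (enc g.1) = true) : g ∈ KL l := fun a m => by
  simp only [chkS, Bool.and_eq_true, beq_iff_eq, List.all_eq_true, has_iff] at h
  have := h.2 _ m
  rwa [iv_inv h.1, mulU, mulU] at this

theorem In.mem (h : In X (enc g.1)) : g ∈ X := let ⟨_, m, e⟩ := h; injU e ▸ m

theorem In.mul (h : In X c) (k : In X d) : In X (ml3 c d) :=
  let ⟨g, m, e⟩ := h; let ⟨g', m', e'⟩ := k; ⟨g * g', mul_mem m m', by rw [← mulU, e, e']⟩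

theorem In.one : In X one := ⟨1, one_mem _, enc_one⟩

theorem In.ev {gs : List ℕ} (h : ∀ c ∈ gs, In X c) (w : List ℕ) : In X (ev gs w) := by
  have k : ∀ a, In X a → In X (w.foldl (fun a i => ml3 a (gs.getD i G3.one)) a) := by
    induction w with
    | nil => exact fun _ m => m
    | cons i w ih =>
      refine fun a m => ih _ (m.mul ?_)
      rw [List.getD_eq_getElem?_getD]
      cases e : gs[i]? with
      | none => exact In.one
      | some b => exact h _ (List.mem_of_getElem? e)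
  exact k _ In.one

theorem isP_iff : IsP A ↔ enc A ∈ PL := by
  refine ⟨?_, fun m => ?_⟩
  · rintro ⟨x, y, z, rfl⟩; revert x y z; decide +kernel
  · obtain ⟨x, y, z, e⟩ := (by decide +kernel : ∀ c ∈ PL, ∃ x y z, c = enc (PM x y z)) _ m
    exact ⟨x, y, z, inj e⟩

theorem isT_iff : IsT A ↔ enc A ∈ TL := by
  refine ⟨?_, fun m => ?_⟩
  · rintro ⟨x, rfl⟩; revert x; decide +kernel
  · obtain ⟨x, e⟩ := (by decide +kernel : ∀ c ∈ TL, ∃ x, c = enc (PM x 0 x)) _ m
    exact ⟨x, inj e⟩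

theorem isD_iff : IsD A ↔ enc A ∈ DL := by
  refine ⟨?_, fun m => ?_⟩
  · rintro ⟨a, b, e, n, h1, h2, h3, rfl⟩; revert a b e n; decide +kernel
  · obtain ⟨a, b, e, n, h1, h2, h3, q⟩ := (by decide +kernel :
      ∀ c ∈ DL, ∃ a b e n, (a ≠ 0 ∨ b ≠ 0) ∧ e * e = 1 ∧ n * n = 1 ∧ c = enc (DM a b e n)) _ m
    exact ⟨a, b, e, n, h1, h2, h3, inj q⟩

theorem valP (h : c ∈ PL) : ∃ A : M4, enc A = c ∧ IsP A :=
  let ⟨x, y, z, e⟩ := (by decide +kernel : ∀ c ∈ PL, ∃ x y z, enc (PM x y z) = c) _ h; ⟨_, e, x, y, z, rfl⟩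

theorem valD (h : c ∈ DL) : ∃ A : M4, enc A = c ∧ IsD A :=
  have e : enc (toM c) = c := (by decide +kernel : ∀ c ∈ DL, enc (toM c) = c) _ h
  ⟨_, e, isD_iff.2 (e.symm ▸ h)⟩

theorem of_cN (h : cN c = true) : ∃ g : G4, enc g.1 = c ∧ IsN g.1 := by
  simp only [cN, Bool.and_eq_true, beq_iff_eq, List.contains_iff_mem] at h
  obtain ⟨⟨⟨h1, h2⟩, h3⟩, h4⟩ := h
  obtain ⟨u, e1, p⟩ := valP h1
  obtain ⟨d, e2, q⟩ := valD h2
  rw [← e1, ← e2, enc_mul3] at h3
  obtain ⟨g, e⟩ := exU (A := u * d) (by rwa [h3])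
  exact ⟨g, e ▸ h3, u, d, p, q, e⟩

theorem IsN.sp (h : IsN A) : spM A := by
  obtain ⟨_, _, ⟨x, y, z, rfl⟩, ⟨a, b, e, n, h1, h2, h3, rfl⟩, rfl⟩ := h
  refine spM.mul ?_ ?_
  · revert x y z; unfold spM; kdec
  · revert a b e n; unfold spM; kdec

theorem IsN.low (h : IsN A) : A 2 0 = 0 ∧ A 2 1 = 0 ∧ A 3 0 = 0 ∧ A 3 1 = 0 := by
  obtain ⟨_, _, ⟨x, y, z, rfl⟩, ⟨a, b, e, n, -, -, -, rfl⟩, rfl⟩ := h
  simp [PM, DM, Matrix.mul_apply, Fin.sum_univ_four]

theorem isN_of (h : spM A) {x : ZMod 3} (e : A * PM 1 0 1 = PM x 0 x * A) : IsN A := by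
  have q := fun i j => congrFun (congrFun e i) j
  have h1 : A 2 0 = 0 := by simpa [PM, Matrix.mul_apply, Fin.sum_univ_four] using q 2 2
  have h2 : A 2 1 = 0 := by simpa [PM, Matrix.mul_apply, Fin.sum_univ_four] using q 2 3
  have h3 : A 3 0 = 0 := by simpa [PM, Matrix.mul_apply, Fin.sum_univ_four] using q 3 2
  have h4 : A 3 1 = 0 := by simpa [PM, Matrix.mul_apply, Fin.sum_univ_four] using q 3 3
  have h5 : A 0 0 = x * A 2 2 := by simpa [PM, Matrix.mul_apply, Fin.sum_univ_four, add_comm (A 0 0)] using q 0 2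
  have h6 : A 0 1 = x * A 2 3 := by simpa [PM, Matrix.mul_apply, Fin.sum_univ_four, add_comm (A 0 1)] using q 0 3
  have h7 : A 1 0 = x * A 3 2 := by simpa [PM, Matrix.mul_apply, Fin.sum_univ_four, add_comm (A 1 0)] using q 1 2
  have h8 : A 1 1 = x * A 3 3 := by simpa [PM, Matrix.mul_apply, Fin.sum_univ_four, add_comm (A 1 1)] using q 1 3
  obtain ⟨ε, hε, k⟩ : ∃ ε : ZMod 3, ε * ε = 1 ∧ Aᵀ * Om * A = ε • Om :=
    h.elim (fun k => ⟨1, by simp, by simpa using k⟩) fun k => ⟨-1, by simp, by simpa using k⟩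
  have s := fun i j => congrFun (congrFun k i) j
  have s1 := s 0 2
  have s2 := s 1 3
  have s3 := s 0 3
  have s4 := s 2 3
  simp [Om, Matrix.mul_apply, Fin.sum_univ_four, h1, h2, h3, h4, h5, h6, h7, h8] at s1 s2 s3 s4
  obtain ⟨e', k1, k2, k3, k4, k5⟩ := (by kdec : ∀ x a b c d ε : ZMod 3, ε * ε = 1 → x * a * a + x * c * c = ε → x * b * b + x * d * d = ε →
    x * a * b + x * c * d = 0 → ∃ e : ZMod 3, e * e = 1 ∧ x * x = 1 ∧ (a ≠ 0 ∨ c ≠ 0) ∧ b = -(e * c) ∧ d = e * a) _ _ _ _ _ _ hε s1 s2 s3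
  rw [k4, k5] at s4
  obtain ⟨x', y', z', l1, l2, l3, l4⟩ : ∃ x' y' z' : ZMod 3, A 0 2 = x' * A 2 2 + y' * A 3 2 ∧ A 0 3 = -(x' * (e' * A 3 2)) + y' * (e' * A 2 2) ∧
      A 1 2 = y' * A 2 2 + z' * A 3 2 ∧ A 1 3 = -(y' * (e' * A 3 2)) + z' * (e' * A 2 2) := by
    refine ⟨(A 2 2 * A 2 2 + A 3 2 * A 3 2) * (A 0 2 * A 2 2 - A 0 3 * e' * A 3 2),
      (A 2 2 * A 2 2 + A 3 2 * A 3 2) * (A 0 2 * A 3 2 + A 0 3 * e' * A 2 2),
      (A 2 2 * A 2 2 + A 3 2 * A 3 2) * (A 1 2 * A 3 2 + A 1 3 * e' * A 2 2), ?_⟩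
    clear k4 k5
    revert k1 k3 s4
    generalize A 2 2 = a, A 3 2 = c, A 0 2 = p, A 0 3 = q, A 1 2 = r, A 1 3 = s
    revert e' a c p q r s
    kdec
  refine ⟨PM x' y' z', DM (A 2 2) (A 3 2) e' x, ⟨_, _, _, rfl⟩, ⟨_, _, _, _, k3, k1, k2, rfl⟩, ?_⟩
  ext i j
  fin_cases i <;> fin_cases j <;>
    simp [PM, DM, Matrix.mul_apply, Fin.sum_univ_four, h1, h2, h3, h4, h5, h6, h7, h8, k4, k5, ← l1, ← l2, ← l3, ← l4, mul_assoc]

/-- the generator of `T` -/
def τ : G4 := ⟨PM 1 0 1, PM 2 0 2, by kdec, by kdec⟩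
/-- the root `k0M` -/
def κ : G4 := ⟨k0M, -k0M, by kdec, by kdec⟩

theorem enc_τ : enc τ.1 = tc := by kdec

theorem enc_κ : enc κ.1 = kc := by kdec

theorem NK {l : List ℕ} (h : (PL ++ DL).all (chkS l) = true) (n : IsN g.1) : g ∈ KL l := by
  obtain ⟨u, d, p, q, e⟩ := n
  have k {A : M4} (m : enc A ∈ PL ++ DL) : ∃ g ∈ KL l, g.1 = A := by
    have c := List.all_eq_true.1 h _ m
    obtain ⟨g, rfl⟩ := exU (A := A) (by simp only [chkS, Bool.and_eq_true, beq_iff_eq] at c; exact c.1)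
    exact ⟨g, mem_KL c, rfl⟩
  obtain ⟨a, ha, rfl⟩ := k (List.mem_append_left _ (isP_iff.1 p))
  obtain ⟨b, hb, rfl⟩ := k (List.mem_append_right _ (isD_iff.1 q))
  exact (Units.ext e : g = a * b) ▸ mul_mem ha hb

theorem isN_of_T (h : spM g.1) (e : IsT (g * τ * g⁻¹).1) : IsN g.1 :=
  let ⟨_, e⟩ := e; isN_of h (by rw [← e, ← Units.val_mul, inv_mul_cancel_right]; rfl)

theorem isN_iff_mem : IsN g.1 ↔ g ∈ Sp ⊓ KL TL :=
  ⟨fun n => ⟨n.sp, NK (by kdec) n⟩, fun m => isN_of_T m.1 (isT_iff.2 (m.2 τ (by rw [enc_τ]; simp [TL])))⟩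

/-- the subgroup `N` -/
def NS : Subgroup G4 := (Sp ⊓ KL TL).copy {g | IsN g.1} (Set.ext fun _ => isN_iff_mem)

theorem mem_NS : g ∈ NS ↔ IsN g.1 := Iff.rfl

theorem card_T : Nat.card (zpowers τ) = 3 := by
  rw [Nat.card_zpowers]
  exact orderOf_eq_prime (Units.ext (by kdec)) fun e => absurd (congrArg Units.val e) (by kdec)

theorem mem_T : g ∈ zpowers τ ↔ IsT g.1 := by
  have t3 : τ ^ 3 = 1 := Units.ext (by kdec)
  refine ⟨fun m => ?_, fun ⟨x, e⟩ => ?_⟩
  · obtain ⟨n, rfl⟩ : ∃ n : ℕ, τ ^ n = g := mem_powers_iff_mem_zpowers.2 m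
    rw [pow_eq_pow_mod n t3]
    exact ⟨(n % 3 : ℕ), (by kdec : ∀ n : ℕ, n < 3 → (τ ^ n).1 = PM n 0 n) _ (Nat.mod_lt n (by decide))⟩
  · rw [(Units.ext (e.trans ((by kdec : ∀ x, PM x 0 x = (τ ^ x.val).1) x)) : g = τ ^ x.val)]
    exact pow_mem (mem_zpowers τ) _

namespace H3

variable (h : H3 X)
include h

theorem TX : zpowers τ ≤ X := fun g m => h.tau g (mem_T.1 m)

theorem inT : In X tc := ⟨τ, h.TX (mem_zpowers τ), enc_τ⟩

theorem inK : In X kc := ⟨κ, h.k0 κ rfl, enc_κ⟩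

theorem sylT : Syl 3 (zpowers τ) X :=
  Syl.mk' h.TX (IsPGroup.of_card (n := 1) card_T) fun ⟨k, e⟩ => h.syl ⟨k, by
    rw [← Transfer.card_mul_relIndex h.TX, card_T, e]; ring⟩

theorem nbad (m : In X c) : bad c = false := by
  obtain ⟨g, m, rfl⟩ := m
  by_contra e
  simp only [bad, Bool.and_eq_false_imp, List.contains_iff_mem, Bool.not_eq_eq_eq_not, Bool.not_false, Classical.not_imp] at e
  obtain ⟨x, y, z, q⟩ := isP_iff.2 e.1
  have g3 : g ^ 3 = 1 := Units.ext (by rw [Units.val_pow_eq_pow_val, q]; exact (by kdec : ∀ x y z, PM x y z ^ 3 = 1) x y z)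
  refine e.2 (isT_iff.1 (mem_T.1 (h.sylT.ge_of_norm_p' (zpowers_le.2 m) (fun ⟨a, ⟨i, ha⟩⟩ => ⟨1, Subtype.ext ?_⟩) ?_ (mem_zpowers g))))
  · change a ^ 3 ^ 1 = 1
    rw [← ha, pow_one, ← _root_.zpow_natCast, ← _root_.zpow_mul, mul_comm, _root_.zpow_mul, _root_.zpow_natCast, g3, _root_.one_zpow]
  · refine zpowers_le.2 (mem_normalizer_fintype fun a ha => mem_T.2 (isT_iff.2 ?_))
    exact (isN_iff_mem.1 ⟨_, 1, ⟨x, y, z, rfl⟩, isD_iff.2 (by kdec), by rw [q, mul_one]⟩).2 a (isT_iff.1 (mem_T.1 ha))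

/-- the Frattini argument -/
theorem gen {K : Subgroup G4} (hB : ∀ g ∈ X, IsN g.1 → g ∈ K)
    (hR : ∀ g ∈ X, g.1 * g.1 = -1 → (Om * g.1)ᵀ = -(Om * g.1) → g ∈ K) : X ≤ K := by
  let R := Subgroup.closure {g | ∃ x ∈ X, x * κ * x⁻¹ = g}
  have kX := h.k0 κ rfl
  have RX : R ≤ X := (closure_le _).2 fun _ ⟨x, m, e⟩ => e ▸ mul_mem (mul_mem m kX) (inv_mem m)
  have nR : X ≤ normalizer (R : Set G4) := fun y m => mem_normalizer_fintype fun a ha =>
    (closure_le (R.comap (MulAut.conj y).toMonoidHom)).2 (by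
      rintro _ ⟨x, m', rfl⟩
      exact Subgroup.subset_closure ⟨y * x, mul_mem m m', by simp [mul_assoc]⟩) ha
  have TR : zpowers τ ≤ R := zpowers_le.2 (by
    rw [show τ = κ * (τ * κ * τ⁻¹)⁻¹ from Units.ext (by kdec)]
    exact mul_mem (Subgroup.subset_closure ⟨1, one_mem _, by simp⟩) (inv_mem (Subgroup.subset_closure ⟨τ, h.TX (mem_zpowers τ), rfl⟩)))
  rw [← Syl.frattini (h.sylT.of_le TR RX) ⟨RX, nR⟩]
  refine sup_le ((closure_le _).2 fun _ ⟨x, m, e⟩ => e ▸ hR _ (mul_mem (mul_mem m kX) (inv_mem m)) ?_ ?_) fun g m =>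
    hB g m.1 (isN_of_T (h.sp g m.1) (mem_T.1 ((mem_normalizer_iff.1 m.2 τ).1 (mem_zpowers τ))))
  · rw [← Units.val_mul, show x * κ * x⁻¹ * (x * κ * x⁻¹) = x * (κ * κ) * x⁻¹ by group, show κ * κ = -1 from Units.ext (by kdec)]
    simp
  · have q : Om * (x * κ * x⁻¹).1 = (x⁻¹.1)ᵀ * (x.1ᵀ * Om * x.1 * k0M) * x⁻¹.1 := by
      simp only [← Matrix.mul_assoc, ← transpose_mul, Units.mul_inv, transpose_one, Matrix.one_mul, Units.val_mul]
      rfl
    have s : (Om * k0M)ᵀ = -(Om * k0M) := by kdec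
    rw [q]
    have s' (C : M4) : (Cᵀ * (Om * k0M) * C)ᵀ = -(Cᵀ * (Om * k0M) * C) := by
      rw [transpose_mul, transpose_mul _ (Om * k0M), s, transpose_transpose]; simp [Matrix.mul_assoc]
    rcases h.sp x m with j | j <;> rw [j]
    · exact s' _
    · simp only [Matrix.neg_mul, Matrix.mul_neg, transpose_neg, s']

end H3

end Cfsg.Lib.SU4.G3
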