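import Cfsg.Agent.Lib.SU4.G3a

/-! # S5210, `q = 3`: roots and cells of `GSp₄(3)` (see `SU4/G3`) -/

set_option autoImplicit false

namespace Cfsg.Lib.SU4.G3

open Matrix Subgroup MK Cfsg.Lib.BG
open scoped Cfsg.Lib.Transfer

variable {X Y : Subgroup G4} {g n : G4} {A B : M4} {c d : ℕ} {C J SL : List ℕ}

attribute [local irreducible] ml3 enc

/-- the codes of `W₀` -/
def W0L : List ℕ := [0x1000000000100000000010000000001, 0x1000000000100000100010000010001, 0x10000020000000000000200000100,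
  0x1000000000100000200010000020001, 0x10000020000000001000202000100, 0x10000020000000002000201000100,
  0x2000000000200000000020000000002, 0x2000000000200000200020000020002, 0x2000000000200000100020000010002,
  0x20000010000000000000100000200, 0x20000010000000002000101000200, 0x20000010000000001000102000200]
/-- words for `W₀` -/
def W0W : List (List ℕ) := [[], [0], [1], [0, 0], [0, 1], [1, 0], [1, 1], [0, 1, 1], [1, 0, 1], [1, 1, 1], [0, 1, 1, 1], [1, 0, 1, 1]]
/-- the cell roots -/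
def RC : List ℕ := [0x20001010002000000000100000200, 0x2020001010102000001020102000201, 0x1020001010202000001010102000202,
  0x10001000002000001000002000100, 0x2010001000102000002020001000101, 0x1010001000202000002010001000102,
  0x1020002000001000202000000, 0x2000001020102000002020201000001, 0x1000001020202000002010201000002]
/-- the root of the cell `k` -/
def r (k : ℕ) : ℕ := RC.getD k one
/-- representatives of `N / W₀` -/
def RL : List ℕ := [0x1000000000100000000010000000001, 0x1000000000100000001010001000001, 0x1000000000100000002010002000001,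
  0x1000000000100000200010000010001, 0x1000000000100000201010001010001, 0x1000000000100000202010002010001,
  0x1000000000100000100010000020001, 0x1000000000100000101010001020001, 0x1000000000100000102010002020001,
  0x1000000000100000000020000000002, 0x1000000000100000001020001000002, 0x1000000000100000002020002000002,
  0x1000000000100000200020000010002, 0x1000000000100000201020001010002, 0x1000000000100000202020002010002,
  0x1000000000100000100020000020002, 0x1000000000100000101020001020002, 0x1000000000100000102020002020002,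
  0x10000010000000000000100000100, 0x10000010000000100000100010100, 0x10000010000000200000100020100,
  0x10000010000000002000101000100, 0x10000010000000102000101010100, 0x10000010000000202000101020100,
  0x10000010000000001000102000100, 0x10000010000000101000102010100, 0x10000010000000201000102020100,
  0x10000010000000000000200000200, 0x10000010000000100000200010200, 0x10000010000000200000200020200,
  0x10000010000000002000201000200, 0x10000010000000102000201010200, 0x10000010000000202000201020200,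
  0x10000010000000001000202000200, 0x10000010000000101000202010200, 0x10000010000000201000202020200,
  0x1010000020100000000010100000201, 0x1010000020100000201010101010201, 0x1010000020100000102010102020201,
  0x1010000020100000202010102010201, 0x1010000020100000100010100020201, 0x1010000020100000001010101000201,
  0x1010000020100000101010101020201, 0x1010000020100000002010102000201, 0x1010000020100000200010100010201,
  0x1010000020100000000020200000102, 0x1010000020100000201020201010102, 0x1010000020100000102020202020102,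
  0x1010000020100000202020202010102, 0x1010000020100000100020200020102, 0x1010000020100000001020201000102,
  0x1010000020100000101020201020102, 0x1010000020100000002020202000102, 0x1010000020100000200020200010102,
  0x2010000010100000000020100000101, 0x2010000010100000101020102010101, 0x2010000010100000202020101020101,
  0x2010000010100000102020101010101, 0x2010000010100000200020100020101, 0x2010000010100000001020102000101,
  0x2010000010100000201020102020101, 0x2010000010100000002020101000101, 0x2010000010100000100020100010101,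
  0x2010000010100000000010200000202, 0x2010000010100000101010202010202, 0x2010000010100000202010201020202,
  0x2010000010100000102010201010202, 0x2010000010100000200010200020202, 0x2010000010100000001010202000202,
  0x2010000010100000201010202020202, 0x2010000010100000002010201000202, 0x2010000010100000100010200010202]
/-- the cell of a root -/
def cellOf (c : ℕ) : ℕ := Nat.mod (Nat.shiftRight 0x500000000200250000008000086008000000020010004000003005007030710000001060000000000700400004002430000000000100006087000060503 (Nat.mul 4 (Nat.mod c 124))) 16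
/-- the action on cells -/
def act (n k : ℕ) : ℕ := cellOf (ml3 (ml3 n (r k)) (iv n))
/-- two cells give a third one -/
def PR : List (ℕ × ℕ × ℕ × List ℕ) := [(1, 2, 0, [0, 2, 1, 3, 0, 2, 1]), (0, 2, 1, [0, 2, 1, 3, 0, 2, 1]), (0, 1, 2, [0, 2, 1, 3, 0, 2, 1]), (4, 5, 3, [0, 2, 1, 3, 0, 2, 1]),
  (3, 5, 4, [0, 2, 1, 3, 0, 2, 1]), (3, 4, 5, [0, 2, 1, 3, 0, 2, 1]), (7, 8, 6, [0, 2, 1, 3, 0, 2, 1]), (6, 8, 7, [0, 2, 1, 3, 0, 2, 1]),
  (6, 7, 8, [0, 2, 1, 3, 0, 2, 1]), (3, 6, 0, [0, 2, 1, 3, 0, 2, 1]), (0, 6, 3, [0, 2, 1, 3, 0, 2, 1]), (0, 3, 6, [0, 2, 1, 3, 0, 2, 1]),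
  (4, 7, 1, [0, 2, 1, 3, 0, 2, 1]), (1, 7, 4, [0, 2, 1, 3, 0, 2, 1]), (1, 4, 7, [0, 2, 1, 3, 0, 2, 1]), (5, 8, 2, [0, 2, 1, 3, 0, 2, 1]),
  (2, 8, 5, [0, 2, 1, 3, 0, 2, 1]), (2, 5, 8, [0, 2, 1, 3, 0, 2, 1])]
/-- three cells on a line are impossible -/
def TR : List (ℕ × ℕ × ℕ × List ℕ) := [(0, 4, 8, [1, 1, 2, 3, 4, 2]), (2, 3, 7, [1, 1, 2, 3, 4, 2]), (1, 5, 6, [1, 1, 2, 3, 4, 2]), (0, 5, 7, [1, 1, 2, 3, 4, 2]),
  (1, 3, 8, [1, 1, 2, 3, 4, 2]), (2, 4, 6, [1, 1, 2, 3, 4, 2])]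
/-- the codes of `P dM` -/
def ML : List ℕ := PL.map (ml3 · 0x1000000000100000000020000000002)
/-- matrices `J` with `Om J` alternating -/
def JM (p q r t s u : ZMod 3) : M4 := !![p, q, 0, s; r, t, -s, 0; 0, u, p, r; -u, 0, q, t]
/-- test for roots -/
def chkJ (c : ℕ) : Bool := !(ml3 c c == 0x2000000000200000000020000000002) || cN c ||
  decide (cellOf c < 9) && W0L.any fun w => ml3 w c == ml3 (r (cellOf c)) w
/-- the cells of `X` -/
def cells (X : Subgroup G4) (C : List ℕ) : Prop := ∀ k < 9, In X (r k) ↔ k ∈ C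
/-- `n` maps the set `f` to `C` -/
def same (f : List Bool) (n : ℕ) (C : List ℕ) : Bool :=
  (List.range 9).all fun l => (List.range 9).any fun k => act n k == l && f.getD k false == C.contains l
/-- the classification of the sets of cells -/
def chkC (f : List Bool) : Bool :=
  !(PR.all fun p => !(f.getD p.1 false && f.getD p.2.1 false) || f.getD p.2.2.1 false) ||
  !(TR.all fun p => !(f.getD p.1 false && f.getD p.2.1 false && f.getD p.2.2.1 false)) || !f.any id ||
  (RL.take 9).any (same f · [0]) || RL.any fun n => same f n [0, 4] || same f n [0, 1, 2] || same f n [0, 3, 4, 5, 6]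

attribute [local irreducible] PL DL W0L RL PR TR RC iv

theorem H3.inW (h : H3 X) (m : c ∈ W0L) : In X c := by
  rw [show W0L = W0W.map (ev [tc, kc]) by kdec] at m
  obtain ⟨w, -, rfl⟩ := List.mem_map.1 m
  exact In.ev (by simp [h.inT, h.inK]) w

theorem unitW (m : c ∈ W0L) : ∃ g : G4, enc g.1 = c ∧ IsN g.1 := of_cN (List.all_eq_true.1 (by kdec : W0L.all cN = true) _ m)

theorem unitN (m : c ∈ RL) : ∃ g : G4, enc g.1 = c ∧ IsN g.1 := of_cN (List.all_eq_true.1 (by kdec : RL.all cN = true) _ m)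

theorem unitR {k : ℕ} (m : k < 9) : ∃ g : G4, enc g.1 = r k := by
  obtain ⟨e, q⟩ := (by kdec : ∀ k < 9, enc (toM (r k)) = r k ∧ ml3 (r k) (iv (r k)) = one) k m
  obtain ⟨g, j⟩ := exU (A := toM (r k)) (by rwa [e])
  exact ⟨g, j ▸ e⟩

theorem decN' : ∀ u ∈ PL, ∀ d ∈ DL, ∃ w ∈ W0L, has RL (ml3 (iv w) (ml3 u d)) = true ∧ ml3 w (ml3 (iv w) (ml3 u d)) = ml3 u d := by kdec

theorem decN (h : IsN g.1) : ∃ w ∈ W0L, ∃ m ∈ RL, enc g.1 = ml3 w m := by
  obtain ⟨u, d, p, q, e⟩ := h
  obtain ⟨w, m, k1, k2⟩ := decN' _ (isP_iff.1 p) _ (isD_iff.1 q)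
  exact ⟨w, m, _, has_iff.1 k1, by rw [k2, enc_mul3, e]⟩

theorem H3.decB (h : H3 X) (hg : g ∈ X) (n : IsN g.1) : ∃ w ∈ W0L, ∃ m ∈ RL, In X m ∧ enc g.1 = ml3 w m := by
  obtain ⟨w, hw, m, hm, e⟩ := decN n
  obtain ⟨a, ha, rfl⟩ := h.inW hw
  obtain ⟨b, rfl, -⟩ := unitN hm
  rw [mulU] at e
  exact ⟨_, hw, _, hm, ⟨b, (mul_mem_cancel_left ha).1 (injU e ▸ hg), rfl⟩, by rw [mulU, e]⟩

theorem actOK : (RL.all fun n => (List.range 9).all fun k => decide (act n k < 9) &&
    W0L.any fun w => ml3 (ml3 w n) (r k) == ml3 (r (act n k)) (ml3 w n)) = true := by kdec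

theorem H3.tr (h : H3 Y) (m : enc n.1 ∈ RL) (e : ∀ g, g ∈ X ↔ n * g * n⁻¹ ∈ Y) {k : ℕ} (hk : k < 9) :
    act (enc n.1) k < 9 ∧ (In X (r k) ↔ In Y (r (act (enc n.1) k))) := by
  have q := List.all_eq_true.1 (List.all_eq_true.1 actOK _ m) _ (List.mem_range.2 hk)
  simp only [List.any_eq_true, Bool.and_eq_true, beq_iff_eq, decide_eq_true_eq] at q
  obtain ⟨l, w, hw, q⟩ := q
  obtain ⟨a, ha, rfl⟩ := h.inW hw
  obtain ⟨b, eb⟩ := unitR hk
  obtain ⟨b', eb'⟩ := unitR l
  rw [← eb, ← eb', mulU, mulU, mulU] at q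
  have j : b' = a * (n * b * n⁻¹) * a⁻¹ := by rw [← mul_inv_cancel_right b' (a * n), ← injU q]; group
  refine ⟨l, ?_⟩
  rw [← eb, ← eb']
  refine ⟨fun p => ⟨b', j ▸ mul_mem (mul_mem ha ((e _).1 p.mem)) (inv_mem ha), rfl⟩, fun p => ⟨b, (e _).2 ?_, rfl⟩⟩
  have := p.mem
  rwa [j, mul_mem_cancel_right (inv_mem ha), mul_mem_cancel_left ha] at this

theorem root (h1 : g.1 * g.1 = -1) (h2 : (Om * g.1)ᵀ = -(Om * g.1)) :
    IsN g.1 ∨ ∃ k < 9, ∃ w ∈ W0L, ml3 w (enc g.1) = ml3 (r k) w := by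
  have e : g.1 = JM (g.1 0 0) (g.1 0 1) (g.1 1 0) (g.1 1 1) (g.1 0 3) (g.1 2 1) := by
    have q := fun i j => congrFun (congrFun h2 i) j
    have z : ∀ x : ZMod 3, x = -x ↔ x = 0 := by decide
    have z' : ∀ x : ZMod 3, -x = x ↔ x = 0 := by decide
    have q1 := q 0 0
    have q2 := q 1 1
    have q3 := q 2 2
    have q4 := q 3 3
    have q5 := q 0 1
    have q6 := q 2 0
    have q7 := q 3 0
    have q8 := q 2 1
    have q9 := q 3 1
    have q0 := q 3 2
    simp [Om, Matrix.mul_apply, vecMul, dotProduct, Fin.sum_univ_four, z, z', neg_eq_iff_eq_neg] at q1 q2 q3 q4 q5 q6 q7 q8 q9 q0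
    ext i j
    fin_cases i <;> fin_cases j <;> simp [JM, *]
  have k : chkJ (enc g.1) = true := e ▸ (by kdec : ∀ p q r t s u, chkJ (enc (JM p q r t s u)) = true) _ _ _ _ _ _
  rw [chkJ, enc_mul3, h1, show enc (-1 : M4) = 0x2000000000200000000020000000002 by kdec] at k
  simp only [beq_self_eq_true, Bool.not_true, Bool.false_or, Bool.or_eq_true, List.any_eq_true, Bool.and_eq_true, beq_iff_eq,
    decide_eq_true_eq] at k
  exact k.imp (fun k => let ⟨_, j, n⟩ := of_cN k; injU j ▸ n) fun k => ⟨_, k⟩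

theorem H3.gen' (h : H3 X) {K : Subgroup G4} (hB : ∀ g ∈ X, IsN g.1 → g ∈ K) (hC : ∀ g ∈ X, ∀ k < 9, enc g.1 = r k → g ∈ K) : X ≤ K :=
  h.gen hB fun g m h1 h2 => (root h1 h2).elim (hB g m) fun ⟨k, hk, w, hw, e⟩ => by
    obtain ⟨a, rfl, n⟩ := unitW hw
    have ha := (h.inW hw).mem
    obtain ⟨b, eb⟩ := unitR hk
    rw [← eb, mulU, mulU] at e
    have j : g = a⁻¹ * b * a := by rw [mul_assoc, ← injU e, inv_mul_cancel_left]
    have hb : b ∈ X := by rwa [j, mul_mem_cancel_right ha, mul_mem_cancel_left (inv_mem ha)] at m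
    exact j ▸ mul_mem (mul_mem (inv_mem (hB a ha n)) (hC b hb k hk eb)) (hB a ha n)

theorem cj_iff : g ∈ X ↔ n * g * n⁻¹ ∈ n ⋆ X := Transfer.conj_mem_conj.symm

theorem H3.conj (h : H3 X) (hn : n ∈ NS) : H3 (n ⋆ X) := by
  have k (a : G4) (m : enc a.1 ∈ W0L) : a ∈ n ⋆ X :=
    Transfer.mem_conj.2 (h.inW (by simpa using NK (l := W0L) (by kdec) (inv_mem hn) a m)).mem
  refine ⟨?_, fun g m => k g ((by kdec : ∀ c ∈ TL, c ∈ W0L) _ (isT_iff.1 m)), fun g m => k g (by rw [m]; kdec),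
    by rw [Transfer.card_conj]; exact h.syl, ?_⟩
  · rintro _ ⟨g, m, rfl⟩
    exact mul_mem (s := Sp) (mul_mem (s := Sp) hn.sp (h.sp g m)) (inv_mem (s := Sp) hn.sp)
  · obtain ⟨g, m, e⟩ := h.nn
    exact ⟨_, cj_iff.1 m, fun j => e ((mul_mem_cancel_left hn).1 ((mul_mem_cancel_right (inv_mem hn)).1 j))⟩

theorem H3.cls (h : H3 X) : (∃ n ∈ NS, IsP n.1 ∧ cells (n ⋆ X) [0]) ∨
    ∃ n ∈ NS, cells (n ⋆ X) [0, 4] ∨ cells (n ⋆ X) [0, 1, 2] ∨ cells (n ⋆ X) [0, 3, 4, 5, 6] := by
  classical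
  obtain ⟨f, hf, k⟩ : ∃ f : List Bool, (∀ k < 9, f.getD k false = true ↔ In X (r k)) ∧ chkC f = true ∧ f.length = 9 :=
    ⟨[decide (In X (r 0)), decide (In X (r 1)), decide (In X (r 2)), decide (In X (r 3)), decide (In X (r 4)), decide (In X (r 5)),
      decide (In X (r 6)), decide (In X (r 7)), decide (In X (r 8))], fun k hk => by interval_cases k <;> simp,
      (by kdec : ∀ a b c d e f g h i : Bool, chkC [a, b, c, d, e, f, g, h, i] = true) _ _ _ _ _ _ _ _ _, rfl⟩
  have sm {m : ℕ} {C : List ℕ} (hm : m ∈ RL) (e : same f m C = true) : ∃ n ∈ NS, enc n.1 = m ∧ cells (n ⋆ X) C := by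
    obtain ⟨n, rfl, hn⟩ := unitN hm
    refine ⟨n, hn, rfl, fun l hl => ?_⟩
    have q := List.all_eq_true.1 e _ (List.mem_range.2 hl)
    simp only [List.any_eq_true, Bool.and_eq_true, beq_iff_eq, List.mem_range] at q
    obtain ⟨k, hk, rfl, q⟩ := q
    rw [← ((h.conj hn).tr hm (fun _ => cj_iff) hk).2, ← hf k hk, q, List.contains_iff_mem]
  have p1 : (PR.all fun p => !(f.getD p.1 false && f.getD p.2.1 false) || f.getD p.2.2.1 false) = true := by
    refine List.all_eq_true.2 fun p m => ?_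
    obtain ⟨a, b, c, e⟩ := (by kdec : ∀ p ∈ PR, p.1 < 9 ∧ p.2.1 < 9 ∧ p.2.2.1 < 9 ∧ ev [tc, kc, r p.1, r p.2.1] p.2.2.2 = r p.2.2.1) p m
    rw [Bool.or_eq_true, Bool.not_eq_true', ← Bool.not_eq_true, ← imp_iff_not_or, Bool.and_eq_true, hf _ a, hf _ b, hf _ c, ← e]
    exact fun j => In.ev (by simp [h.inT, h.inK, j.1, j.2]) _
  have p2 : (TR.all fun p => !(f.getD p.1 false && f.getD p.2.1 false && f.getD p.2.2.1 false)) = true := by
    refine List.all_eq_true.2 fun p m => ?_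
    obtain ⟨a, b, c, e⟩ := (by kdec : ∀ p ∈ TR, p.1 < 9 ∧ p.2.1 < 9 ∧ p.2.2.1 < 9 ∧
      bad (ev [tc, kc, r p.1, r p.2.1, r p.2.2.1] p.2.2.2) = true) p m
    rw [Bool.not_eq_true', ← Bool.not_eq_true, Bool.and_eq_true, Bool.and_eq_true, hf _ a, hf _ b, hf _ c]
    exact fun j => Bool.false_ne_true ((h.nbad (In.ev (by simp [h.inT, h.inK, j.1.1, j.1.2, j.2]) _)).symm.trans e)
  have p3 : f.any id = true := by
    by_contra j
    obtain ⟨g, m, e⟩ := h.nn
    refine e (h.gen' (K := NS) (fun _ _ => id) (fun g m l hl e => (j ?_).elim) m)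
    have := (hf l hl).2 ⟨g, m, e⟩
    rw [List.getD_eq_getElem _ _ (k.2 ▸ hl)] at this
    exact List.any_eq_true.2 ⟨_, List.getElem_mem _, this⟩
  have k' := k.1
  rw [chkC, p1, p2, p3] at k'
  simp only [Bool.not_true, Bool.false_or, Bool.or_eq_true, List.any_eq_true] at k'
  refine k'.imp (fun ⟨m, hm, e⟩ => ?_) fun ⟨m, hm, e⟩ => ?_
  · obtain ⟨n, hn, rfl, j⟩ := sm (List.mem_of_mem_take hm) e
    exact ⟨n, hn, isP_iff.2 ((by kdec : ∀ c ∈ RL.take 9, c ∈ PL) _ hm), j⟩
  · rcases e with (e | e) | e <;> obtain ⟨n, hn, -, j⟩ := sm hm e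
    exacts [⟨n, hn, .inl j⟩, ⟨n, hn, .inr (.inl j)⟩, ⟨n, hn, .inr (.inr j)⟩]

theorem presU (h : IsN n.1) {v : Fin 4 → ZMod 3} (h0 : v ≠ 0) (h2 : v 2 = 0) (h3 : v 3 = 0) :
    n.1 *ᵥ v ≠ 0 ∧ (n.1 *ᵥ v) 2 = 0 ∧ (n.1 *ᵥ v) 3 = 0 :=
  ⟨fun e => h0 (by rw [← one_mulVec v, ← n.inv_mul, ← mulVec_mulVec, e, mulVec_zero]),
    by simp [mulVec, dotProduct, Fin.sum_univ_four, h.low, h2, h3], by simp [mulVec, dotProduct, Fin.sum_univ_four, h.low, h2, h3]⟩

theorem m1_iff : m1 X ↔ ∃ c ∈ ML, In X c := by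
  have e : enc dM = 0x1000000000100000000020000000002 := by kdec
  refine ⟨fun ⟨g, m, u, p, q⟩ => ⟨_, List.mem_map.2 ⟨_, isP_iff.1 p, by rw [← e, enc_mul3, ← q]⟩, g, m, rfl⟩, fun ⟨_, m, g, hg, q⟩ => ?_⟩
  obtain ⟨c, m', rfl⟩ := List.mem_map.1 m
  obtain ⟨u, rfl, p⟩ := valP m'
  exact ⟨g, hg, u, p, inj (by rw [q, ← e, enc_mul3])⟩

theorem o5_conj : o5 (n ⋆ X) ↔ o5 X := by rw [o5, o5, Transfer.card_conj]

theorem conj_back (n : G4) (X : Subgroup G4) : n⁻¹ ⋆ n ⋆ X = X := by ext; simp [Transfer.mem_conj, mul_assoc]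

theorem no_conj (hn : n ∈ NS) : no (n ⋆ X) ↔ no X := by
  have k {n : G4} {X : Subgroup G4} (hn : n ∈ NS) : no X → no (n ⋆ X) := fun ⟨g, m, e, v, h0, h2, h3, j2, j3⟩ => by
    have q : (n * g * n⁻¹).1 *ᵥ (n.1 *ᵥ v) = n.1 *ᵥ (g.1 *ᵥ v) := by
      rw [mulVec_mulVec, mulVec_mulVec, ← Units.val_mul, inv_mul_cancel_right, Units.val_mul]
    have l := IsN.low hn
    refine ⟨_, cj_iff.1 m, fun j => e ((mul_mem_cancel_left hn).1 ((mul_mem_cancel_right (inv_mem hn)).1 j)), n.1 *ᵥ v,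
      (presU hn h0 h2 h3).1, (presU hn h0 h2 h3).2.1, (presU hn h0 h2 h3).2.2, ?_, ?_⟩ <;> rw [q] <;>
      generalize g.1 *ᵥ v = w at j2 j3 <;> simp [mulVec, dotProduct, Fin.sum_univ_four, l, j2, j3]
  exact ⟨fun j => conj_back n X ▸ k (inv_mem hn) j, k hn⟩

theorem m1_conj (hn : n ∈ NS) : m1 (n ⋆ X) ↔ m1 X := by
  have k {n : G4} {X : Subgroup G4} (hn : n ∈ NS) : m1 X → m1 (n ⋆ X) := fun j => by
    obtain ⟨_, m, g, hg, rfl⟩ := m1_iff.1 j
    exact m1_iff.2 ⟨_, NK (l := ML) (by kdec) hn g m, _, cj_iff.1 hg, rfl⟩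
  exact ⟨fun j => conj_back n X ▸ k (inv_mem hn) j, k hn⟩

theorem nb_conj (hn : n ∈ NS) : nb (n ⋆ X) = nb X := by
  have k {n : G4} {X : Subgroup G4} (hn : n ∈ NS) : nb X ≤ nb (n ⋆ X) := Nat.card_le_card_of_injective
    (fun g => ⟨⟨n * g.1 * n⁻¹, cj_iff.1 g.1.2⟩, mul_mem (s := NS) (mul_mem (s := NS) hn g.2) (inv_mem hn)⟩) fun a b e => by
      have := congrArg (·.1.1) e
      exact Subtype.ext (Subtype.ext (by simpa using this))
  exact le_antisymm (by simpa only [conj_back] using k (X := n ⋆ X) (inv_mem hn)) (k hn)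

end Cfsg.Lib.SU4.G3
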