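import Cfsg.Agent.Lib.SU4.G3b

/-! # S5210, `q = 3`: the subgroups of `GSp₄(3)` with a given set of cells (see `SU4/G3`) -/

set_option autoImplicit false

namespace Cfsg.Lib.SU4.G3

open Matrix Subgroup MK Cfsg.Lib.BG
open scoped Cfsg.Lib.Transfer

variable {X Y : Subgroup G4} {g n : G4} {c : ℕ} {C J S E F : List ℕ} {HW JW XW : List (List ℕ)}

attribute [local irreducible] ml3 enc PL DL W0L RL PR TR RC iv

/-- the representative number `i` -/
def rl (i : ℕ) : ℕ := RL.getD i one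
/-- the generators -/
def gs (C : List ℕ) : List ℕ := tc :: kc :: C.map r
/-- evaluates the list first -/
def forceL : List ℕ → (List ℕ → Bool) → Bool
  | [], f => f []
  | a :: l, f => force a fun x => forceL l fun m => f (x :: m)
/-- conjugates of `τ`, `τ²` -/
def OmL (H : List ℕ) : List ℕ := H.flatMap fun a => [ml3 (ml3 a tc) (iv a), ml3 (ml3 a tc2) (iv a)]
/-- the data for a set of cells: the stabilizer `S` in `N / W₀` and words for representatives of `X / B` -/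
def chkD (C S : List ℕ) (HW : List (List ℕ)) : Bool :=
  forceL (HW.map (ev (gs C))) fun H => forceL (OmL H) fun Ω => (W0L ++ S.map rl ++ C.map r).all (chkS Ω) && has Ω tc &&
    (H.all fun a => ml3 a (iv a) == one) && (C.all fun k => decide (k < 9)) &&
    RL.all fun n => !(C.all fun k => C.contains (act n k)) || has (S.map rl) n
/-- all products have order dividing `24` -/
def chk5 (C S : List ℕ) (HW : List (List ℕ)) : Bool :=
  forceL (HW.map (ev (gs C))) fun H => H.all fun a => W0L.all fun w => S.all fun m =>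
    force (ml3 a (ml3 w (rl m))) fun c => ml3 c (iv c) == one
/-- standard position -/
def Std (X : Subgroup G4) (C J : List ℕ) : Prop := cells X C ∧ ∀ c, c ∈ J.map rl ↔ c ∈ RL ∧ In X c
/-- the codes of `B` -/
def prodL (J : List ℕ) : List ℕ := (J.map rl).flatMap fun m => W0L.map (ml3 · m)
/-- the data for `B` -/
def chkM (C S E F J : List ℕ) (JW XW : List (List ℕ)) : Bool :=
  J.map rl == JW.map (ev (gs C ++ E.map rl)) && (J.map rl).all (has RL) && (S.map rl).all fun s => has (J.map rl) s ||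
    XW.any fun w => force (ev (s :: (gs C ++ E.map rl)) w) fun c => bad c || has (F.map rl) c

theorem forceL_eq (l : List ℕ) (f : List ℕ → Bool) : forceL l f = f l := by
  induction l generalizing f with
  | nil => rfl
  | cons a l ih => rw [forceL, force_eq, ih]

theorem chkD_iff (k : chkD C S HW = true) : (∀ s ∈ W0L ++ S.map rl ++ C.map r, chkS (OmL (HW.map (ev (gs C)))) s = true) ∧
    tc ∈ OmL (HW.map (ev (gs C))) ∧ (∀ w ∈ HW, ml3 (ev (gs C) w) (iv (ev (gs C) w)) = one) ∧ (∀ k ∈ C, k < 9) ∧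
    ∀ n ∈ RL, (∀ k ∈ C, act n k ∈ C) → n ∈ S.map rl := by
  simp only [chkD, forceL_eq, Bool.and_eq_true, List.all_eq_true, has_iff, beq_iff_eq, decide_eq_true_eq, Bool.or_eq_true,
    Bool.not_eq_true', ← Bool.not_eq_true, List.contains_iff_mem, List.forall_mem_map] at k
  exact ⟨k.1.1.1.1, k.1.1.1.2, k.1.1.2, k.1.2, fun n m j => (k.2 n m).resolve_left (not_not.2 j)⟩

theorem In.conj (m : In X c) (hn : ml3 (enc n.1) (iv (enc n.1)) = G3.one) : In (n ⋆ X) (ml3 (ml3 (enc n.1) c) (iv (enc n.1))) :=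
  let ⟨g, m, e⟩ := m; ⟨_, cj_iff.1 m, by rw [iv_inv hn, ← e, mulU, mulU]⟩

namespace H3

variable (h : H3 X)
include h

theorem inG (c : cells X C) (l : ∀ k ∈ C, k < 9) : ∀ a ∈ gs C, In X a := by
  simpa [gs, h.inT, h.inK] using fun k m => (c k (l k m)).2 m

theorem cells_conj (hn : n ∈ NS) (m : enc n.1 ∈ RL) (c : cells X C)
    (q : ∀ l < 9, ∃ k < 9, act (enc n.1) k = l ∧ (k ∈ C ↔ l ∈ C)) : cells (n ⋆ X) C := fun l hl => by
  obtain ⟨k, hk, rfl, j⟩ := q l hl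
  rw [← ((h.conj hn).tr m (fun _ => cj_iff) hk).2, c k hk, j]

variable (hc : cells X C) (k : chkD C S HW = true)
include hc k

theorem stab {a : ℕ} (m : a ∈ RL) (j : In X a) : a ∈ S.map rl := by
  obtain ⟨-, -, -, l, q⟩ := chkD_iff k
  obtain ⟨n, hn, rfl⟩ := j
  refine q _ m fun i hi => ?_
  have t := h.tr (X := X) m (fun g => by rw [mul_mem_cancel_right (inv_mem hn), mul_mem_cancel_left hn]) (l i hi)
  exact (hc _ t.1).1 (t.2.1 ((hc i (l i hi)).2 hi))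

theorem inW' (w : List ℕ) : In X (ev (gs C) w) := In.ev (h.inG hc (chkD_iff k).2.2.2.1) w

theorem dec (m : g ∈ X) : ∃ w ∈ HW, ∃ a ∈ X, enc a.1 = ev (gs C) w ∧ IsN (a⁻¹ * g).1 := by
  obtain ⟨q, t, u, -, -⟩ := chkD_iff k
  have le : X ≤ KL (OmL (HW.map (ev (gs C)))) := by
    refine h.gen' (fun g m n => ?_) fun g m i hi e => mem_KL (q _ (by
      rw [e]; exact List.mem_append_right _ (List.mem_map_of_mem ((hc i hi).1 ⟨g, m, e⟩))))
    obtain ⟨w, hw, s, hs, j, e⟩ := h.decB m n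
    have hs' := h.stab hc k hs j
    obtain ⟨a, -, rfl⟩ := h.inW hw
    obtain ⟨b, -, rfl⟩ := j
    rw [mulU] at e
    exact injU e ▸ mul_mem (mem_KL (q _ (by simp [hw]))) (mem_KL (q _ (List.mem_append_left _ (List.mem_append_right _ hs'))))
  obtain ⟨_, p, o⟩ := List.mem_flatMap.1 (le m τ (enc_τ ▸ t))
  obtain ⟨w, hw, rfl⟩ := List.mem_map.1 p
  obtain ⟨a, ha, e⟩ := h.inW' hc k w
  refine ⟨w, hw, a, ha, e, isN_of_T (h.sp _ (mul_mem (inv_mem ha) m)) ?_⟩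
  have u' := u w hw
  rw [← e] at u' o
  rw [iv_inv u', show tc2 = enc (τ * τ).1 by kdec, ← enc_τ, mulU, mulU, mulU, mulU] at o
  rw [show a⁻¹ * g * τ * (a⁻¹ * g)⁻¹ = a⁻¹ * (g * τ * g⁻¹) * a by group, ← mem_T]
  rcases List.mem_pair.1 o with o | o <;> rw [injU o] <;> simp [mul_assoc, mul_mem]

theorem not_o5 (e : chk5 C S HW = true) : ¬ o5 X := fun o => by
  simp only [chk5, forceL_eq, force_eq, List.all_eq_true, beq_iff_eq, List.forall_mem_map] at e
  obtain ⟨⟨g, m⟩, o⟩ := exists_prime_orderOf_dvd_card' (hp := ⟨by decide⟩) 5 o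
  obtain ⟨w, hw, a, ha, j, n⟩ := h.dec hc k m
  obtain ⟨v, hv, s, hs, i, q⟩ := h.decB (mul_mem (inv_mem ha) m) n
  obtain ⟨s, hs', rfl⟩ := List.mem_map.1 (h.stab hc k hs i)
  have p := e w hw v hv s hs'
  rw [← q, ← j, mulU, mul_inv_cancel_left, enc_iv, enc_mul3, ← enc_one, ← pow_succ'] at p
  have : orderOf g ∣ 24 := orderOf_dvd_of_pow_eq_one (Units.ext (by rw [Units.val_pow_eq_pow_val]; exact inj p))
  rw [← orderOf_mk (H := X) g m, o] at this
  exact absurd this (by decide)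

theorem o5_of (w : List ℕ) (e : force (ev (gs C) w) (fun a => ml3 (ml3 a a) (ml3 a (ml3 a a)) == one && !(a == one)) = true) : o5 X := by
  obtain ⟨a, m, j⟩ := h.inW' hc k w
  simp only [force_eq, Bool.and_eq_true, beq_iff_eq, ← j, mulU, ← Bool.not_eq_true, Bool.not_eq_true'] at e
  rw [← enc_one] at e
  haveI : Fact (Nat.Prime 5) := ⟨by decide⟩
  have : orderOf a = 5 := orderOf_eq_prime (by rw [← injU (h := 1) e.1]; simp only [pow_succ, pow_zero, one_mul, mul_assoc])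
    fun q => e.2 (by rw [q]; rfl)
  rw [o5, ← this]
  exact X.orderOf_dvd_natCard m

theorem not_no (e : ∀ a ∈ HW.map (ev (gs C)), enc (toM a) = a ∧ (a = one ∨ ∀ x y : ZMod 3,
    toM a 2 0 * x + toM a 2 1 * y = 0 → toM a 3 0 * x + toM a 3 1 * y = 0 → x = 0 ∧ y = 0)) : ¬ no X := by
  rintro ⟨g, m, n, v, h0, h2, h3, j2, j3⟩
  obtain ⟨w, hw, a, ha, j, b⟩ := h.dec hc k m
  obtain ⟨e, q⟩ := e _ (List.mem_map_of_mem hw)
  obtain ⟨p0, p2, p3⟩ := presU b h0 h2 h3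
  rw [← j] at e q
  rcases q with q | q
  · rw [injU (h := 1) (q.trans enc_one.symm), inv_one, one_mul] at b
    exact n b
  · rw [← mul_inv_cancel_left a g, Units.val_mul, ← mulVec_mulVec] at j2 j3
    generalize (a⁻¹ * g).1 *ᵥ v = u at *
    rw [inj e] at q
    obtain ⟨p0', p1⟩ := q (u 0) (u 1) (by simpa [mulVec, dotProduct, Fin.sum_univ_four, p2, p3] using j2)
      (by simpa [mulVec, dotProduct, Fin.sum_univ_four, p2, p3] using j3)
    exact p0 (funext fun i => by fin_cases i <;> simp [*])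

theorem no_of (w : List ℕ) (x y : ZMod 3) (e : ∀ a ∈ [ev (gs C) w], enc (toM a) = a ∧ (x ≠ 0 ∨ y ≠ 0) ∧ (toM a 2 0 ≠ 0 ∨ toM a 3 1 ≠ 0) ∧
    toM a 2 0 * x + toM a 2 1 * y = 0 ∧ toM a 3 0 * x + toM a 3 1 * y = 0) : no X := by
  obtain ⟨a, m, j⟩ := h.inW' hc k w
  obtain ⟨e, q0, q1, q2, q3⟩ := e _ (List.mem_singleton_self _)
  rw [← j] at e q1 q2 q3
  rw [inj e] at q1 q2 q3
  refine ⟨a, m, fun n => q1.elim (· n.low.1) (· n.low.2.2.2), ![x, y, 0, 0], fun z => q0.elim (· (congrFun z 0)) (· (congrFun z 1)),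
    rfl, rfl, ?_, ?_⟩ <;> simpa [mulVec, dotProduct, Fin.sum_univ_four]

theorem mkStd (hE : ∀ e ∈ E, In X (rl e)) (hF : ∀ f ∈ F, ¬ In X (rl f)) (q : chkM C S E F J JW XW = true) : Std X C J := by
  simp only [chkM, Bool.and_eq_true, beq_iff_eq, List.all_eq_true, has_iff, Bool.or_eq_true, List.any_eq_true, force_eq] at q
  have G : ∀ a ∈ gs C ++ E.map rl, In X a := List.forall_mem_append.2 ⟨h.inG hc (chkD_iff k).2.2.2.1, List.forall_mem_map.2 hE⟩
  refine ⟨hc, fun a => ⟨fun m => ⟨q.1.2 a m, ?_⟩, fun m => (q.2 a (h.stab hc k m.1 m.2)).resolve_right fun ⟨w, _, j⟩ => ?_⟩⟩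
  · obtain ⟨w, -, rfl⟩ := List.mem_map.1 (q.1.1 ▸ m)
    exact In.ev G w
  · have i := In.ev (List.forall_mem_cons.2 ⟨m.2, G⟩) w
    refine j.elim (fun j => Bool.false_ne_true ((h.nbad i).symm.trans j)) fun j => ?_
    obtain ⟨f, hf, e⟩ := List.mem_map.1 j
    exact hF f hf (e ▸ i)

end H3

theorem Std.le (h : H3 X) (h' : H3 Y) (s : Std X C J) (s' : Std Y C J) : X ≤ Y :=
  h.gen' (fun _ m n => let ⟨_, hw, _, hs, j, e⟩ := h.decB m n; In.mem (e ▸ (h'.inW hw).mul ((s'.2 _).1 ((s.2 _).2 ⟨hs, j⟩)).2))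
    fun g m i hi e => In.mem (e ▸ (s'.1 i hi).2 ((s.1 i hi).1 ⟨g, m, e⟩))

theorem Std.mem_prod (h : H3 X) (s : Std X C J) : c ∈ prodL J ↔ ∃ g ∈ X, IsN g.1 ∧ enc g.1 = c := by
  simp only [prodL, List.mem_flatMap, List.mem_map (l := W0L)]
  refine ⟨fun ⟨m, hm, w, hw, e⟩ => ?_, fun ⟨g, m, n, e⟩ => ?_⟩
  · obtain ⟨a, rfl, p⟩ := unitW hw
    obtain ⟨b, rfl, q⟩ := unitN ((s.2 _).1 hm).1
    exact ⟨a * b, mul_mem (h.inW hw).mem ((s.2 _).1 hm).2.mem, mul_mem (s := NS) p q, by rw [← e, mulU]⟩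
  · obtain ⟨w, hw, a, ha, j, q⟩ := h.decB m n
    exact ⟨a, (s.2 a).2 ⟨ha, j⟩, w, hw, by rw [← q, e]⟩

theorem Std.nb (h : H3 X) (s : Std X C J) (e : (prodL J).Nodup) : nb X = (prodL J).length := by
  rw [← List.toFinset_card_of_nodup e, ← Fintype.card_coe, ← Nat.card_eq_fintype_card]
  refine Nat.card_eq_of_bijective (fun g => ⟨enc g.1.1.1, List.mem_toFinset.2 ((s.mem_prod h).2 ⟨_, g.1.2, g.2, rfl⟩)⟩)
    ⟨fun a b e => Subtype.ext (Subtype.ext (injU (congrArg Subtype.val e))), fun ⟨c, m⟩ => ?_⟩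
  obtain ⟨g, hg, n, rfl⟩ := (s.mem_prod h).1 (List.mem_toFinset.1 m)
  exact ⟨⟨⟨g, hg⟩, n⟩, rfl⟩

theorem Std.m1 (h : H3 X) (s : Std X C J) : m1 X ↔ forceL ML (fun M => (prodL J).any (has M)) = true := by
  simp only [forceL_eq, List.any_eq_true, has_iff, s.mem_prod h, m1_iff]
  refine ⟨fun ⟨c, m, g, hg, e⟩ => ⟨c, ⟨g, hg, ?_, e⟩, m⟩, fun ⟨c, ⟨g, hg, _, e⟩, m⟩ => ⟨c, m, g, hg, e⟩⟩
  obtain ⟨b, e', n⟩ := of_cN (List.all_eq_true.1 (by kdec : ML.all cN = true) _ m)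
  exact injU (e'.trans e.symm) ▸ n

end Cfsg.Lib.SU4.G3
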