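import Mathlib.Analysis.Fourier.FiniteAbelian.PontryaginDuality
import Mathlib.Analysis.RCLike.Basic

/-!
# An anisotropic binary quadratic form over a finite field: counting solutions
-/

set_option autoImplicit false
set_option linter.unusedSectionVars false

namespace Cfsg.Lib.SU4J

open Finset

/-- An anisotropic quadratic form on a plane `K` over `F` (the norm form of a quadratic extension). -/
structure QF (F K : Type*) [Field F] [AddCommGroup K] [Module F K] where
  /-- the form -/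
  N : K → F
  /-- its polar form -/
  B : K →ₗ[F] K →ₗ[F] F
  N_add : ∀ a b, N (a + b) = N a + B a b + N b
  N_smul : ∀ (c : F) a, N (c • a) = c ^ 2 * N a
  aniso : ∀ a, N a = 0 → a = 0
  nd : ∀ b, (∀ a, B a b = 0) → b = 0
  card : Nat.card K = Nat.card F ^ 2

namespace QF

variable {F K : Type*} [Field F] [AddCommGroup K] [Module F K] (q : QF F K)

theorem N_zero : q.N 0 = 0 := by simpa using q.N_smul 0 0

theorem symm (a b : K) : q.B a b = q.B b a := by
  have h := q.N_add a b
  rw [add_comm a b, q.N_add] at h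
  linear_combination -h

theorem surj {b : K} (h : b ≠ 0) (c : F) : ∃ a, q.B a b = c := by
  obtain ⟨a, e⟩ := not_forall.1 (mt (q.nd b) h)
  exact ⟨(c / q.B a b) • a, by rw [map_smul, LinearMap.smul_apply, smul_eq_mul, div_mul_cancel₀ _ e]⟩

variable [Fintype F] [Fintype K] {A : Type*} [AddCommGroup A] [Fintype A]

theorem weyl (ψ : AddChar F ℂ) (hψ : ψ ≠ 0) (η : AddChar K ℂ) {w : F} (hw : w ≠ 0) :
    ‖∑ l, ψ (q.N l * w) * η l‖ = Fintype.card F := by
  classical
  obtain ⟨c, hc⟩ : ∃ c, ψ c ≠ 1 := by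
    by_contra! n
    exact hψ (DFunLike.ext _ _ n)
  have h1 : ∀ d : K, ∑ l, ψ (q.B l d * w) = if d = 0 then (Fintype.card K : ℂ) else 0 := fun d => by
    split_ifs with e
    · simp [e]
    · let χ : AddChar K ℂ := ⟨fun l => ψ (q.B l d * w), by simp, fun a b => by simp [add_mul, AddChar.map_add_eq_mul]⟩
      refine (AddChar.sum_eq_zero_iff_ne_zero (ψ := χ)).2 fun n => hc ?_
      obtain ⟨a, ha⟩ := q.surj e (c / w)
      have := DFunLike.congr_fun n a
      change ψ (q.B a d * w) = 1 at this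
      rwa [ha, div_mul_cancel₀ _ hw] at this
  have h2 : (∑ l, ψ (q.N l * w) * η l) * (starRingEnd ℂ) (∑ l, ψ (q.N l * w) * η l) = Fintype.card K := by
    rw [map_sum, sum_mul_sum, sum_comm]
    have h3 : ∀ l' : K, ∑ l, ψ (q.N l * w) * η l * (starRingEnd ℂ) (ψ (q.N l' * w) * η l') =
        ∑ d, ψ (q.N d * w) * η d * ψ (q.B l' d * w) := fun l' => by
      rw [← Equiv.sum_comp (Equiv.addLeft l')]
      refine sum_congr rfl fun d _ => ?_
      have a1 : ψ (q.N l' * w) * (starRingEnd ℂ) (ψ (q.N l' * w)) = 1 := by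
        rw [← AddChar.map_neg_eq_conj, ← AddChar.map_add_eq_mul, add_neg_cancel, AddChar.map_zero_eq_one]
      have a2 : η l' * (starRingEnd ℂ) (η l') = 1 := by
        rw [← AddChar.map_neg_eq_conj, ← AddChar.map_add_eq_mul, add_neg_cancel, AddChar.map_zero_eq_one]
      simp only [Equiv.coe_addLeft, q.N_add, add_mul, AddChar.map_add_eq_mul, map_mul]
      linear_combination (ψ (q.N d * w) * η d * ψ (q.B l' d * w)) * (η l' * (starRingEnd ℂ) (η l')) * a1 +
        (ψ (q.N d * w) * η d * ψ (q.B l' d * w)) * a2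
    simp only [h3]
    rw [sum_comm]
    simp only [← mul_sum, h1, mul_ite, mul_zero, sum_ite_eq', mem_univ, if_true, q.N_zero, zero_mul,
      AddChar.map_zero_eq_one, one_mul]
  rw [Complex.mul_conj, Complex.normSq_eq_norm_sq, ← Nat.card_eq_fintype_card, q.card, Nat.card_eq_fintype_card] at h2
  have h4 : ‖∑ l, ψ (q.N l * w) * η l‖ ^ 2 = (Fintype.card F : ℝ) ^ 2 := by exact_mod_cast h2
  exact (pow_left_inj₀ (norm_nonneg _) (Nat.cast_nonneg _) two_ne_zero).1 h4

/-- The character sums. -/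
theorem sums (π : F →+ A) (φ : K →+ A) {w : F} (hw : w ≠ 0) (χ : AddChar A ℂ) :
    (χ.compAddMonoidHom π ≠ 0 → ‖∑ l, χ (π (q.N l * w) + φ l)‖ = Fintype.card F) ∧
      (χ.compAddMonoidHom π = 0 → 0 ≤ (∑ l, χ (π (q.N l * w) + φ l)).re) := by
  classical
  simp only [AddChar.map_add_eq_mul]
  refine ⟨fun h => q.weyl _ h (χ.compAddMonoidHom φ) hw, fun h => ?_⟩
  have e : ∀ x, χ (π x) = 1 := fun x => DFunLike.congr_fun h x
  simp only [e, one_mul]
  have := AddChar.sum_eq_ite (χ.compAddMonoidHom φ)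
  simp only [AddChar.compAddMonoidHom_apply] at this
  rw [this]
  split_ifs <;> simp

theorem total (f : K → A) [DecidableEq A] :
    ∑ χ : AddChar A ℂ, ∑ l, χ (f l) = Fintype.card A * (univ.filter fun l => f l = 0).card := by
  rw [sum_comm]
  simp only [AddChar.sum_apply_eq_ite]
  rw [← sum_filter, sum_const, nsmul_eq_mul, mul_comm]

/-- `l ↦ π (N l * w) + φ l` is onto when `π` is injective. -/
theorem count1 (hA : Nat.card A = Nat.card F) (π : F →+ A) (hπ : Function.Injective π) (φ : K →+ A) {w : F}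
    (hw : w ≠ 0) (c : A) : ∃ l, c + (π (q.N l * w) + φ l) = 0 := by
  classical
  by_contra! n
  have h1 := total (fun l => c + (π (q.N l * w) + φ l))
  rw [filter_eq_empty_iff.2 (fun l _ => n l), card_empty, Nat.cast_zero, mul_zero,
    ← add_sum_erase _ _ (mem_univ 0)] at h1
  have hs : Function.Surjective π := (Nat.bijective_iff_injective_and_card π |>.2 ⟨hπ, hA.symm⟩).2
  have h2 : ‖∑ χ ∈ univ.erase (0 : AddChar A ℂ), ∑ l, χ (c + (π (q.N l * w) + φ l))‖ ≤
      (univ.erase (0 : AddChar A ℂ)).card • (Fintype.card F : ℝ) := by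
    refine (norm_sum_le _ _).trans (sum_le_card_nsmul _ _ _ fun χ hχ => ?_)
    have := (q.sums π φ hw χ).1 fun e => (mem_erase.1 hχ).1 (DFunLike.ext _ _ fun a => by
      obtain ⟨x, rfl⟩ := hs a
      exact DFunLike.congr_fun e x)
    simp only [χ.map_add_eq_mul c, ← mul_sum, norm_mul, AddChar.norm_apply, one_mul, this, le_refl]
  rw [← neg_eq_of_add_eq_zero_right h1, card_erase_of_mem (mem_univ _), card_univ, AddChar.card_eq] at h2
  simp only [AddChar.zero_apply, sum_const, card_univ, nsmul_eq_mul, mul_one, norm_neg, Complex.norm_natCast] at h2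
  rw [← Nat.card_eq_fintype_card, ← Nat.card_eq_fintype_card, ← Nat.card_eq_fintype_card, q.card, hA] at h2
  have h3 : 0 < Nat.card F := Nat.card_pos
  rw [Nat.cast_sub h3] at h2
  have h4 : (0 : ℝ) < Nat.card F := by exact_mod_cast h3
  push_cast at h2
  nlinarith

/-- A nonzero solution when `π` is not injective. -/
theorem count2 (hA : Nat.card A = Nat.card F) (π : F →+ A) (hπ : ¬ Function.Injective π) (φ : K →+ A) {w : F}
    (hw : w ≠ 0) : ∃ l ≠ 0, π (q.N l * w) + φ l = 0 := by
  classical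
  by_contra! n
  have h1 := total (fun l => π (q.N l * w) + φ l)
  have h0 : (univ.filter fun l => π (q.N l * w) + φ l = 0) = {0} := by
    ext l
    simp only [mem_filter, mem_univ, true_and, mem_singleton]
    exact ⟨fun e => by_contra fun k => n l k e, fun e => by simp [e, q.N_zero]⟩
  obtain ⟨a, ha⟩ : ∃ a, a ∉ π.range := by
    by_contra! k
    exact hπ (Nat.bijective_iff_surjective_and_card π |>.2 ⟨k, hA.symm⟩).1
  obtain ⟨χ, hχ⟩ := AddChar.exists_apply_ne_zero.2 (mt (QuotientAddGroup.eq_zero_iff a).1 ha)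
  set χ' : AddChar A ℂ := χ.compAddMonoidHom (QuotientAddGroup.mk' π.range) with hd
  have c1 : χ' ≠ 0 := fun e => hχ (DFunLike.congr_fun e a)
  have c2 : χ'.compAddMonoidHom π = 0 := DFunLike.ext _ _ fun x => by
    change χ (QuotientAddGroup.mk (π x)) = 1
    rw [(QuotientAddGroup.eq_zero_iff _).2 (AddMonoidHom.mem_range.2 ⟨x, rfl⟩), AddChar.map_zero_eq_one]
  have m : χ' ∈ univ.erase (0 : AddChar A ℂ) := mem_erase.2 ⟨c1, mem_univ _⟩
  rw [h0, card_singleton, Nat.cast_one, mul_one, ← add_sum_erase _ _ (mem_univ 0), ← add_sum_erase _ _ m] at h1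
  have h2 := card_nsmul_le_sum ((univ.erase (0 : AddChar A ℂ)).erase χ')
    (fun χ => (∑ l, χ (π (q.N l * w) + φ l)).re) (-(Fintype.card F : ℝ)) fun χ _ => by
      by_cases e : χ.compAddMonoidHom π = 0
      · exact (neg_nonpos.2 (Nat.cast_nonneg _)).trans ((q.sums π φ hw χ).2 e)
      · rw [← (q.sums π φ hw χ).1 e]
        exact neg_le_of_abs_le (Complex.abs_re_le_norm _)
  have h3 := congrArg Complex.re h1
  have h4 := (q.sums π φ hw χ').2 c2
  have h5 : 2 ≤ Fintype.card A := by
    rw [← AddChar.card_eq]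
    exact Fintype.one_lt_card_iff.2 ⟨_, _, c1⟩
  rw [card_erase_of_mem m, card_erase_of_mem (mem_univ _), card_univ, AddChar.card_eq, Nat.sub_sub, nsmul_eq_mul,
    Nat.cast_sub h5] at h2
  simp only [AddChar.zero_apply, sum_const, card_univ, nsmul_eq_mul, mul_one, Complex.add_re, Complex.natCast_re] at h3
  rw [Complex.re_sum (s := (univ.erase (0 : AddChar A ℂ)).erase χ')] at h3
  rw [← Nat.card_eq_fintype_card] at h2 h3 h5
  rw [← Nat.card_eq_fintype_card] at h2 h3
  rw [q.card] at h3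
  rw [hA] at h2 h3 h5
  have h6 : (2 : ℝ) ≤ Nat.card F := by exact_mod_cast h5
  push_cast at h2 h3
  nlinarith

end QF

end Cfsg.Lib.SU4J
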