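import Cfsg.Agent.Lib.SU4.JC
import Cfsg.Agent.Lib.Transfer.SylowIn

/-!
# Groups of automorphisms of the module `O₄⁻(q)` with a trivial-intersection root group

`J = F × K × F`, `t l` are the root elements fixing `Z = {(x, 0, 0)}`, `s l` the opposite ones.
-/

set_option autoImplicit false
set_option linter.unusedSectionVars false

namespace Cfsg.Lib.SU4J

/-- Additive automorphisms, as a multiplicative group. -/
abbrev Au (V : Type*) [AddCommGroup V] := V ≃ₗ[ℤ] V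

namespace QF

open Subgroup Cfsg.Lib.Transfer

attribute [-simp] LinearEquiv.coe_inv

variable {F K : Type*} [Field F] [AddCommGroup K] [Module F K] (q : QF F K)

theorem N_neg (a : K) : q.N (-a) = q.N a := by simpa using q.N_smul (-1) a

theorem B_self (a : K) : q.B a a = 2 * q.N a := by
  have h := q.N_add a (-a)
  rw [add_neg_cancel, q.N_zero, q.N_neg, map_neg] at h
  linear_combination h

/-- The root elements. -/
def t (l : K) : Au (F × K × F) := AddEquiv.toIntLinearEquiv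
  { toFun v := (v.1 + (q.N l * v.2.2 + q.B l v.2.1), v.2.1 + v.2.2 • l, v.2.2)
    invFun v := (v.1 + (q.N l * v.2.2 - q.B l v.2.1), v.2.1 - v.2.2 • l, v.2.2)
    left_inv v := by ext <;> simp [q.B_self]; ring
    right_inv v := by ext <;> simp [q.B_self]; ring
    map_add' u v := by ext <;> simp [add_smul] <;> [ring; abel] }

/-- The opposite root elements. -/
def s (l : K) : Au (F × K × F) := AddEquiv.toIntLinearEquiv
  { toFun v := (v.1, v.2.1 + v.1 • l, v.2.2 + (q.N l * v.1 + q.B l v.2.1))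
    invFun v := (v.1, v.2.1 - v.1 • l, v.2.2 + (q.N l * v.1 - q.B l v.2.1))
    left_inv v := by ext <;> simp [q.B_self]; ring
    right_inv v := by ext <;> simp [q.B_self]; ring
    map_add' u v := by ext <;> simp [add_smul] <;> [abel; ring] }

/-- The shear `(x, y, w) ↦ (x + ψ w, y, w)`. -/
def sh (K : Type*) [AddCommGroup K] (ψ : F →+ F) : Au (F × K × F) := AddEquiv.toIntLinearEquiv
  { toFun v := (v.1 + ψ v.2.2, v.2)
    invFun v := (v.1 - ψ v.2.2, v.2)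
    left_inv v := by ext <;> simp
    right_inv v := by ext <;> simp
    map_add' u v := by ext <;> simp; ring }

theorem t_apply (l : K) (v : F × K × F) :
    q.t l v = (v.1 + (q.N l * v.2.2 + q.B l v.2.1), v.2.1 + v.2.2 • l, v.2.2) := rfl

theorem s_apply (l : K) (v : F × K × F) :
    q.s l v = (v.1, v.2.1 + v.1 • l, v.2.2 + (q.N l * v.1 + q.B l v.2.1)) := rfl

theorem sh_apply (ψ : F →+ F) (v : F × K × F) : sh K ψ v = (v.1 + ψ v.2.2, v.2) := rfl

theorem sh_inv (ψ : F →+ F) (v : F × K × F) : (sh K ψ)⁻¹ v = (v.1 - ψ v.2.2, v.2) := rfl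

theorem t_add (l m : K) : q.t (l + m) = q.t l * q.t m := by
  ext v <;> simp [LinearEquiv.mul_apply, t_apply, q.N_add] <;> [ring; abel]

theorem t_zero : q.t 0 = 1 := by ext v <;> simp [t_apply, q.N_zero]

theorem t_neg (l : K) : q.t (-l) = (q.t l)⁻¹ := eq_inv_of_mul_eq_one_left (by rw [← t_add, neg_add_cancel, t_zero])

theorem t_inj {l m : K} (h : q.t l = q.t m) : l = m := by
  simpa [t_apply] using congrArg (fun g : Au (F × K × F) => (g (0, 0, 1)).2.1) h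

theorem sh_t (ψ : F →+ F) (l : K) : Commute (sh K ψ) (q.t l) := by
  ext v <;> simp [LinearEquiv.mul_apply, t_apply, sh_apply]; ring

/-- The root group. -/
def T : Subgroup (Au (F × K × F)) where
  carrier := Set.range q.t
  one_mem' := ⟨0, q.t_zero⟩
  mul_mem' := by rintro _ _ ⟨l, rfl⟩ ⟨m, rfl⟩; exact ⟨_, q.t_add l m⟩
  inv_mem' := by rintro _ ⟨l, rfl⟩; exact ⟨_, q.t_neg l⟩

/-- `g` normalises the root group. -/
def Nm (g : Au (F × K × F)) : Prop := ∀ l, ∃ m, g * q.t l * g⁻¹ = q.t m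

variable [Finite F] [Finite K]

variable {q} {g g' : Au (F × K × F)}

theorem Nm.mul (h : q.Nm g) (h' : q.Nm g') : q.Nm (g * g') := fun l => by
  obtain ⟨m, e⟩ := h' l
  obtain ⟨n, e'⟩ := h m
  exact ⟨n, by rw [← e', ← e]; group⟩

theorem Nm.inv (h : q.Nm g) : q.Nm g⁻¹ := fun l => by
  choose f hf using h
  obtain ⟨m, rfl⟩ := Finite.surjective_of_injective (f := f) (fun a b e => q.t_inj (by
    have := hf a
    rw [e, ← hf b] at this
    simpa using this)) l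
  exact ⟨m, by rw [← hf]; group⟩

theorem nm_t (l : K) : q.Nm (q.t l) := fun m => ⟨m, by rw [← t_neg, ← t_add, ← t_add]; simp⟩

theorem nm_iff : q.Nm g ↔ g ∈ normalizer (q.T : Set (Au (F × K × F))) :=
  ⟨fun h x => ⟨fun ⟨l, e⟩ => e ▸ (h l).imp fun _ => Eq.symm, fun ⟨l, e⟩ => (h.inv l).imp fun m k => by
    rw [← k, e]; group⟩, fun h l => ((h _).1 ⟨l, rfl⟩).imp fun _ => Eq.symm⟩

theorem ex_ne (q : QF F K) : ∃ l : K, l ≠ 0 := by
  have : 1 < Nat.card F := Finite.one_lt_card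
  have : Nontrivial K := Finite.one_lt_card_iff_nontrivial.1 (by rw [q.card]; nlinarith)
  exact exists_ne 0

theorem fix_Z {v : F × K × F} (h : ∀ l, q.t l v = v) : v.2 = 0 := by
  obtain ⟨l, hl⟩ := q.ex_ne
  have a : v.2.2 = 0 := by simpa [t_apply, hl] using congrArg (·.2.1) (h l)
  exact Prod.ext (q.nd _ fun m => by simpa [t_apply, a] using congrArg (·.1) (h m)) a

theorem Nm.Z (h : q.Nm g) {v : F × K × F} (hv : v.2 = 0) : (g v).2 = 0 := fix_Z (q := q) fun l => by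
  obtain ⟨m, e⟩ := h.inv l
  have : q.t m v = v := by ext <;> simp [t_apply, hv]
  rw [← LinearEquiv.mul_apply, show q.t l * g = g * q.t m by rw [← e]; group, LinearEquiv.mul_apply, this]

theorem Nm.H (h : q.Nm g) {v : F × K × F} (hv : v.2.2 = 0) : (g v).2.2 = 0 := by
  have k : ∀ l u, (g (q.t l u - u)).2.2 = 0 := fun l u => by
    obtain ⟨m, e⟩ := h l
    rw [map_sub, ← LinearEquiv.mul_apply, show g * q.t l = q.t m * g by rw [← e]; group]
    simp [LinearEquiv.mul_apply, t_apply]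
  obtain ⟨y, hy⟩ := q.ex_ne
  obtain ⟨l, e⟩ := q.surj hy (v.1 - q.N v.2.1)
  have : v = (q.t v.2.1 (0, 0, 1) - (0, 0, 1)) + (q.t l (0, y, 0) - (0, y, 0)) := by ext <;> simp [t_apply, e, hv]
  rw [this, map_add, Prod.snd_add, Prod.snd_add, k, k, add_zero]

theorem ker_ne (q : QF F K) (φ : K →+ F) : ∃ l ≠ 0, φ l = 0 := by
  by_contra! n
  have := Nat.card_le_card_of_injective φ ((injective_iff_map_eq_zero φ).2 fun a e => by_contra fun k => n a k e)
  have : 1 < Nat.card F := Finite.one_lt_card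
  rw [q.card] at *
  nlinarith

theorem pow_fix {V : Type*} [AddCommGroup V] {γ : Au V} {a : V} (h : γ (γ a - a) = γ a - a) (n : ℕ) :
    (γ ^ n) a = a + n • (γ a - a) := by
  induction n with
  | zero => simp
  | succ n ih =>
    rw [pow_succ', LinearEquiv.mul_apply, ih, map_add, map_nsmul, h, succ_nsmul]
    abel

/-- The hypotheses: `T` is a trivial-intersection Sylow subgroup of `X`. -/
structure TI (q : QF F K) (p : ℕ) (X : Subgroup (Au (F × K × F))) : Prop where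
  mem : ∀ l, q.t l ∈ X
  syl : ¬ p ∣ q.T.relIndex X
  ti : ∀ g ∈ X, ∀ l ≠ 0, ∀ m, g * q.t l * g⁻¹ = q.t m → q.Nm g

instance finAu : Finite (Au (F × K × F)) := Finite.of_injective _ DFunLike.coe_injective

variable {p : ℕ} [hp : Fact p.Prime] [CharP F p] {X : Subgroup (Au (F × K × F))}

theorem p_smul (v : F × K × F) : p • v = 0 := by
  ext <;> simp
  rw [← Nat.cast_smul_eq_nsmul F, CharP.cast_eq_zero, zero_smul]

theorem t_pow (l : K) : q.t l ^ p = 1 := by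
  have : ∀ n : ℕ, q.t l ^ n = q.t (n • l) := fun n => by
    induction n with
    | zero => simp [t_zero]
    | succ n ih => rw [pow_succ, ih, succ_nsmul, t_add]
  rw [this, ← Nat.cast_smul_eq_nsmul F, CharP.cast_eq_zero, zero_smul, t_zero]

namespace TI

variable (h : TI q p X)
include h

theorem sy {Y : Subgroup (Au (F × K × F))} (hY : ∀ l, q.t l ∈ Y) (hg : g ∈ X) {l : K} (hl : l ≠ 0)
    (e : g * q.t l * g⁻¹ ∈ Y) (m : K) : g * q.t m * g⁻¹ ∈ Y := by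
  have a1 : q.T ≤ Y ⊓ X := by rintro _ ⟨l, rfl⟩; exact ⟨hY l, h.mem l⟩
  obtain ⟨c, c1, c2⟩ := exists_conj_le_of_not_dvd_relIndex' (p := p) (Q := zpowers (g * q.t l * g⁻¹)) (T := q.T)
    (H := Y ⊓ X) (fun k => h.syl (k.trans ⟨_, (relIndex_mul_relIndex _ _ _ a1 inf_le_right).symm⟩))
    (IsPGroup.of_card_dvd_pow (n := 1) (by
      rw [Nat.card_zpowers, pow_one, orderOf_dvd_iff_pow_eq_one, conj_pow, t_pow, mul_one, mul_inv_cancel]))
    (zpowers_le.2 ⟨e, X.mul_mem (X.mul_mem hg (h.mem l)) (X.inv_mem hg)⟩)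
  obtain ⟨n, e'⟩ := conj_le_iff.1 c2 _ (mem_zpowers _)
  obtain ⟨k, e''⟩ := h.ti (c * g) (mul_mem c1.2 hg) l hl n (by rw [e']; group) m
  rw [show g * q.t m * g⁻¹ = c⁻¹ * q.t k * c by rw [← e'']; group]
  exact mul_mem (mul_mem (inv_mem c1.1) (hY k)) c1.1

/-- A vector of `gZ ∩ H` lies in `Z`. -/
theorem zh (hg : g ∈ X) {z : F × K × F} (hz : z.2 = 0) (e : (g z).2.2 = 0) : (g z).2 = 0 := by
  obtain ⟨l, hl, e'⟩ := q.ker_ne ((q.B.flip (g z).2.1).toAddMonoidHom)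
  refine fix_Z (q := q) fun m => ?_
  have := h.sy (Y := MulAction.stabilizer _ z) (fun l => by ext <;> simp [t_apply, hz]) (inv_mem hg) hl (by
    have : q.t l (g z) = g z := by ext <;> simp [t_apply, e]; exact e'
    simp [MulAction.mem_stabilizer_iff, LinearEquiv.mul_apply, this, LinearEquiv.coe_inv]) m
  simpa [MulAction.mem_stabilizer_iff, LinearEquiv.mul_apply, LinearEquiv.coe_inv, LinearEquiv.symm_apply_eq] using this

omit h in
theorem inv_maps {S : Set (F × K × F)} (hS : ∀ v ∈ S, g v ∈ S) : ∀ v ∈ S, g⁻¹ v ∈ S := by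
  obtain ⟨n, e⟩ := mem_powers_iff_mem_zpowers.2 (inv_mem (mem_zpowers g))
  rw [← e]
  clear e
  induction n with
  | zero => exact fun _ a => a
  | succ n ih => exact fun v a => by simp only [pow_succ', LinearEquiv.mul_apply]; exact hS _ (ih v a)

omit h in
theorem ap_inv (g : Au (F × K × F)) (v : F × K × F) : g (g⁻¹ v) = v := g.apply_symm_apply v

omit h in
theorem inv_ap (g : Au (F × K × F)) (v : F × K × F) : g⁻¹ (g v) = v := g.symm_apply_apply v

omit h in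
theorem conj_sub (g : Au (F × K × F)) (l : K) (v : F × K × F) :
    (g * q.t l * g⁻¹) v - v = g (q.t l (g⁻¹ v) - g⁻¹ v) := by
  rw [map_sub, ap_inv]; rfl

theorem nm_of (hg : g ∈ X) (hZ : ∀ v : F × K × F, v.2 = 0 → (g v).2 = 0)
    (hH : ∀ v : F × K × F, v.2.2 = 0 → (g v).2.2 = 0) : q.Nm g := by
  let P : Subgroup (Au (F × K × F)) :=
    { carrier := {γ | (∀ v : F × K × F, v.2 = 0 → γ v = v) ∧ (∀ v : F × K × F, v.2.2 = 0 → (γ v).2 = v.2) ∧
        ∀ v, (γ v).2.2 = v.2.2}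
      one_mem' := ⟨fun _ _ => rfl, fun _ _ => rfl, fun _ => rfl⟩
      mul_mem' := fun {a b} c d => ⟨fun v e => by rw [LinearEquiv.mul_apply, d.1 v e, c.1 v e],
        fun v e => by rw [LinearEquiv.mul_apply, c.2.1 _ (by rw [d.2.2, e]), d.2.1 v e],
        fun v => by rw [LinearEquiv.mul_apply, c.2.2, d.2.2]⟩
      inv_mem' := fun {a} c => ⟨fun v e => by rw [← c.1 v e, inv_ap, c.1 v e],
        fun v e => by rw [← c.2.1 (a⁻¹ v) (by rw [← c.2.2, ap_inv, e]), ap_inv],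
        fun v => by rw [← c.2.2, ap_inv]⟩ }
  have pP : IsPGroup p P := fun ⟨γ, c⟩ => ⟨2, Subtype.ext (LinearEquiv.ext fun v => by
    have a : ∀ u : F × K × F, u.2.2 = 0 → (γ ^ p) u = u := fun u e => by
      rw [pow_fix (c.1 _ (by rw [Prod.snd_sub, c.2.1 u e, sub_self])), p_smul, add_zero]
    have b := (P.pow_mem c p).2.2 v
    change (γ ^ p ^ 2) v = v
    rw [sq, pow_mul, pow_fix (a _ (by rw [Prod.snd_sub, Prod.snd_sub, b, sub_self])), p_smul, add_zero])⟩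
  have e : q.T = P ⊓ X := eq_of_not_dvd_relIndex_of_le h.syl pP.to_inf_left inf_le_right (by
    rintro _ ⟨l, rfl⟩
    exact ⟨⟨fun v e => by ext <;> simp [t_apply, e], fun v e => by ext <;> simp [t_apply, e], fun _ => rfl⟩, h.mem l⟩)
  intro l
  refine (e.ge ⟨⟨fun v a => sub_eq_zero.1 ?_, fun v a => sub_eq_zero.1 ?_, fun v => sub_eq_zero.1 ?_⟩,
    X.mul_mem (X.mul_mem hg (h.mem l)) (X.inv_mem hg)⟩).imp fun _ => Eq.symm
  · have := inv_maps (S := {v | v.2 = 0}) hZ v a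
    rw [conj_sub, show q.t l (g⁻¹ v) = g⁻¹ v by ext <;> simp [t_apply, show (g⁻¹ v).2 = 0 from this], sub_self, map_zero]
  · have := inv_maps (S := {v | v.2.2 = 0}) hH v a
    rw [← Prod.snd_sub, conj_sub]
    exact hZ _ (by ext <;> simp [t_apply, show (g⁻¹ v).2.2 = 0 from this])
  · rw [← Prod.snd_sub, ← Prod.snd_sub, conj_sub]
    exact hH _ (by simp [t_apply])

theorem nm_of_Z (hg : g ∈ X) (hZ : ∀ v : F × K × F, v.2 = 0 → (g v).2 = 0) : q.Nm g := by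
  refine h.nm_of hg hZ ?_
  by_cases k : ∀ v : F × K × F, v.2.2 = 0 → (g⁻¹ v).2.2 = 0
  · simpa using inv_maps (S := {v | v.2.2 = 0}) k
  push Not at k
  obtain ⟨v, v1, v2⟩ := k
  let D : AddSubgroup (F × K × F) :=
    { carrier := {d | d.2.2 = 0 ∧ (g⁻¹ d).2.2 = 0}
      zero_mem' := by simp
      add_mem' := fun c d => by simp [c.1, c.2, d.1, d.2]
      neg_mem' := fun c => by simp [c.1, c.2] }
  have ZD : ∀ z : F × K × F, z.2 = 0 → z ∈ D := fun z e =>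
    ⟨by simp [e], by rw [show (g⁻¹ z).2 = 0 from inv_maps (S := {v | v.2 = 0}) hZ z e]; rfl⟩
  have sb : ∀ {γ : Au (F × K × F)} {d}, d ∈ D → (γ d - d).2 = 0 → γ d ∈ D := fun {γ d} a b => by
    simpa using D.add_mem (ZD _ b) a
  let Y : Subgroup (Au (F × K × F)) :=
    { carrier := {γ | (∀ d ∈ D, γ d ∈ D) ∧ γ v - v ∈ D}
      one_mem' := ⟨fun _ a => a, by simp⟩
      mul_mem' := fun {a b} c d => ⟨fun u e => c.1 _ (d.1 u e), by
        simpa [LinearEquiv.mul_apply] using D.add_mem (c.1 _ d.2) c.2⟩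
      inv_mem' := fun {a} c => ⟨inv_maps (g := a) (S := D) c.1, by
        simpa [inv_ap] using D.neg_mem (inv_maps (g := a) (S := D) c.1 _ c.2)⟩ }
  obtain ⟨l, hl, e⟩ := q.ker_ne (AddMonoidHom.mk' (fun l => (g (0, (g⁻¹ v).2.2 • l, 0)).2.2) fun a b => by
    rw [← Prod.snd_add, ← Prod.snd_add, ← map_add]; simp)
  have sp : ∀ (x : F) (y : K), (g (x, y, 0)).2.2 = (g (0, y, 0)).2.2 := fun x y => by
    rw [show ((x, y, 0) : F × K × F) = (x, 0, 0) + (0, y, 0) by simp, map_add, Prod.snd_add, hZ _ rfl, zero_add]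
  have ts : ∀ m, q.t m (g⁻¹ v) - g⁻¹ v = ((q.t m (g⁻¹ v) - g⁻¹ v).1, (g⁻¹ v).2.2 • m, 0) := fun m => by
    ext <;> simp [t_apply]
  have all := h.sy (Y := Y) (fun l => ⟨fun d a => sb a (by ext <;> simp [t_apply, a.1]),
    ZD _ (by ext <;> simp [t_apply, v1])⟩) hg hl ⟨fun d a => sb a (by
      rw [conj_sub]; exact hZ _ (by ext <;> simp [t_apply, a.2])), by
      rw [conj_sub, ts]
      exact ⟨(sp _ _).trans e, by rw [inv_ap]⟩⟩
  intro u hu
  have := (all (((g⁻¹ v).2.2)⁻¹ • u.2.1)).2.1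
  rw [conj_sub, ts, sp, smul_smul, mul_inv_cancel₀ v2, one_smul] at this
  rw [show u = (u.1, u.2.1, 0) by rw [← hu], sp, this]

omit h in
theorem f_t (g : Au (F × K × F)) (v : F × K × F) : ∃ (π : F →+ F) (φ : K →+ F), (∀ x, π x = (g⁻¹ (x, 0, 0)).2.2) ∧
    ∀ l, (g⁻¹ (q.t l v)).2.2 = (g⁻¹ v).2.2 + (π (q.N l * v.2.2) + φ l) :=
  ⟨AddMonoidHom.mk' (fun x => (g⁻¹ (x, 0, 0)).2.2) fun a b => by
      rw [← Prod.snd_add, ← Prod.snd_add, ← map_add]; simp,
    AddMonoidHom.mk' (fun l => (g⁻¹ (q.B l v.2.1, v.2.2 • l, 0)).2.2) fun a b => by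
      rw [← Prod.snd_add, ← Prod.snd_add, ← map_add]; simp, fun _ => rfl, fun l => by
    simp only [AddMonoidHom.mk'_apply, ← Prod.snd_add, ← map_add]
    congr 3
    ext <;> simp [t_apply]⟩

theorem back (hg : g ∈ X) {z : F × K × F} (hz : z.2 = 0) {l : K} (e : (g⁻¹ (q.t l (g z))).2.2 = 0) :
    (g z).2.2 • l = 0 := by
  have a := h.zh (X.mul_mem (X.mul_mem (X.inv_mem hg) (h.mem l)) hg) hz e
  have b := h.zh hg (z := (g⁻¹ * q.t l * g) z - z) (by rw [Prod.snd_sub, a, hz, sub_self]) (by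
    simp [LinearEquiv.mul_apply, ap_inv, t_apply])
  simpa [LinearEquiv.mul_apply, ap_inv, t_apply] using congrArg Prod.fst b

/-- Distinct points are opposite. -/
theorem opp (hg : g ∈ X) {z : F × K × F} (hz : z.2 = 0) (z0 : z ≠ 0) (e : (g z).2.2 = 0) : q.Nm g := by
  refine h.nm_of_Z hg fun v hv => h.zh hg hv (by_contra fun n => ?_)
  have := Fintype.ofFinite F
  have := Fintype.ofFinite K
  obtain ⟨π, φ, e1, e2⟩ := f_t (q := q) g (g v)
  have a : g z = ((g z).1, 0, 0) := Prod.ext rfl (h.zh hg hz e)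
  obtain ⟨l, hl, e3⟩ := q.count2 rfl π (fun i => z0 (g.injective (by
    rw [a, (injective_iff_map_eq_zero π).1 i (g z).1 (by rw [e1, ← a, inv_ap, hz]; rfl), map_zero]; rfl))) φ n
  exact smul_ne_zero n hl (h.back hg hv (by rw [e2, e3, inv_ap, hv]; simp))

theorem pi_inj (hg : g ∈ X) (n : ¬ q.Nm g) {x : F} (e : (g⁻¹ (x, 0, 0)).2.2 = 0) : x = 0 := by_contra fun k =>
  n (h.opp (X.inv_mem hg) rfl (by simpa using k) e).inv

/-- The root group is transitive on the other points. -/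
theorem reg (hg : g ∈ X) (n : ¬ q.Nm g) (hg' : g' ∈ X) (n' : ¬ q.Nm g') : ∃ l, q.Nm (g⁻¹ * q.t l * g') := by
  have := Fintype.ofFinite F
  have := Fintype.ofFinite K
  obtain ⟨π, φ, e1, e2⟩ := f_t (q := q) g (g' (1, 0, 0))
  obtain ⟨l, e3⟩ := q.count1 rfl π ((injective_iff_map_eq_zero π).2 fun x e => h.pi_inj hg n (e1 x ▸ e)) φ
    (fun e => n' (h.opp hg' (z := (1, 0, 0)) rfl (by simp) e)) (g⁻¹ (g' (1, 0, 0))).2.2
  exact ⟨l, h.opp (X.mul_mem (X.mul_mem (X.inv_mem hg) (h.mem l)) hg') (z := (1, 0, 0)) rfl (by simp)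
    ((e2 l).trans e3)⟩

section

variable (hg : g ∈ X) (n : ¬ q.Nm g) (hf : ∀ u : F × K × F, (g⁻¹ u).2.2 = 0 ↔ u.1 = 0)
include hg n hf

theorem gz {z : F × K × F} (hz : z.2 = 0) : g z = (0, 0, (g z).2.2) := by
  have a : (g z).1 = 0 := (hf _).1 (by rw [inv_ap, hz]; rfl)
  refine Prod.ext a (Prod.ext (by_contra fun k => ?_) rfl)
  have w0 : (g z).2.2 ≠ 0 := fun e => n (h.opp hg hz (fun e => k (by simp [e])) e)
  obtain ⟨m, e⟩ := q.surj k 1
  have m0 : m ≠ 0 := fun c => by simp [c] at e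
  have n0 := mt (q.aniso m) m0
  refine smul_ne_zero w0 (smul_ne_zero (r := -((g z).2.2 * q.N m)⁻¹) (by simp [w0, n0]) m0) (h.back hg hz ((hf _).2 ?_))
  simp only [t_apply, a, q.N_smul, map_smul, LinearMap.smul_apply, e, smul_eq_mul]
  field_simp
  ring

theorem gz' (w : F) : ∃ z : F × K × F, z.2 = 0 ∧ g z = (0, 0, w) := by
  obtain ⟨x, e⟩ := Finite.surjective_of_injective (f := fun x : F => (g (x, 0, 0)).2.2) (fun a b e => by
    have := h.gz hg n hf (z := (a, 0, 0)) rfl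
    rw [show (g (a, 0, 0)).2.2 = _ from e, ← h.gz hg n hf (z := (b, 0, 0)) rfl] at this
    simpa using this) w
  exact ⟨(x, 0, 0), rfl, by rw [h.gz hg n hf rfl, ← e]⟩

theorem sing (hg' : g' ∈ X) {v : F × K × F} (hv : v.1 * v.2.2 = q.N v.2.1) :
    (g' v).1 * (g' v).2.2 = q.N (g' v).2.1 := by
  have k : ∀ γ ∈ X, ∀ z : F × K × F, z.2 = 0 → (γ z).1 * (γ z).2.2 = q.N (γ z).2.1 := fun γ a z b => by
    by_cases c : q.Nm γ
    · simp [c.Z b, q.N_zero]
    obtain ⟨l, e⟩ := h.reg hg n a c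
    have := h.gz hg n hf (e.Z b)
    generalize (g ((g⁻¹ * q.t l * γ) z)).2.2 = w at this
    rw [show γ z = q.t (-l) (g ((g⁻¹ * q.t l * γ) z)) by
      rw [← LinearEquiv.mul_apply, ← LinearEquiv.mul_apply, t_neg]; congr 1; group, this]
    simp [t_apply, q.N_neg, q.N_smul]
    ring
  by_cases w0 : v.2.2 = 0
  · exact k _ hg' _ (Prod.ext (q.aniso _ (by rw [← hv, w0, mul_zero])) w0)
  obtain ⟨z, z1, z2⟩ := h.gz' hg n hf v.2.2
  have := k _ (X.mul_mem hg' (X.mul_mem (h.mem (v.2.2⁻¹ • v.2.1)) hg)) z z1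
  rwa [LinearEquiv.mul_apply, LinearEquiv.mul_apply, z2, show q.t (v.2.2⁻¹ • v.2.1) (0, 0, v.2.2) = v by
    ext <;> simp [t_apply, q.N_smul, w0, ← hv]; field_simp] at this

theorem is_s (m : K) : ∃ l, g * q.t m * g⁻¹ = q.s l := by
  have mem := X.mul_mem (X.mul_mem hg (h.mem m)) (X.inv_mem hg)
  have a1 : ∀ w, (g * q.t m * g⁻¹) (0, 0, w) = (0, 0, w) := fun w => by
    obtain ⟨z, z1, z2⟩ := h.gz' hg n hf w
    rw [← sub_eq_zero, conj_sub, ← z2, inv_ap, show q.t m z = z by ext <;> simp [t_apply, z1], sub_self, map_zero]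
  have a2 : ∀ y, (g * q.t m * g⁻¹) (0, y, 0) = (0, y, ((g * q.t m * g⁻¹) (0, y, 0)).2.2) := fun y => by
    have := h.gz hg n hf (z := q.t m (g⁻¹ (0, y, 0)) - g⁻¹ (0, y, 0)) (by
      ext <;> simp [t_apply, (hf (0, y, 0)).2 rfl])
    rw [← conj_sub, sub_eq_iff_eq_add] at this
    rw [this]; simp
  have a3 : ∀ x, ((g * q.t m * g⁻¹) (x, 0, 0)).1 = x := fun x => by
    have := (hf ((g * q.t m * g⁻¹) (x, 0, 0) - (x, 0, 0))).1 (by rw [conj_sub, inv_ap]; simp [t_apply])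
    simpa [sub_eq_zero] using this
  generalize g * q.t m * g⁻¹ = τ at mem a1 a2 a3
  have a4 : ∀ x y w, τ (x, y, w) = (x, y + (τ (x, 0, 0)).2.1, w + ((τ (x, 0, 0)).2.2 + (τ (0, y, 0)).2.2)) :=
    fun x y w => by
      rw [show ((x, y, w) : F × K × F) = (x, 0, 0) + (0, y, 0) + (0, 0, w) by simp, map_add, map_add, a1, a2]
      ext <;> simp [a3] <;> abel
  have a5 : ∀ x ≠ 0, ∀ y, x * ((τ (x, 0, 0)).2.2 + (τ (0, y, 0)).2.2) =
      q.B y (τ (x, 0, 0)).2.1 + q.N (τ (x, 0, 0)).2.1 := fun x x0 y => by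
    have := h.sing hg n hf mem (v := (x, y, q.N y / x)) (mul_div_cancel₀ _ x0)
    rw [a4, q.N_add, mul_add, mul_div_cancel₀ _ x0] at this
    linear_combination this
  have a6 : ∀ x ≠ 0, x * (τ (x, 0, 0)).2.2 = q.N (τ (x, 0, 0)).2.1 := fun x x0 => by
    simpa [show τ (0, 0, 0) = 0 from map_zero τ] using a5 x x0 0
  have a7 : ∀ x ≠ 0, ∀ y, x * (τ (0, y, 0)).2.2 = q.B y (τ (x, 0, 0)).2.1 := fun x x0 y => by
    linear_combination a5 x x0 y - a6 x x0
  have a8 : ∀ x, (τ (x, 0, 0)).2 = (x • (τ (1, 0, 0)).2.1, q.N (τ (1, 0, 0)).2.1 * x) := fun x => by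
    by_cases x0 : x = 0
    · simp [x0, show τ (0, 0, 0) = 0 from map_zero τ, Prod.ext_iff]
    have b : (τ (x, 0, 0)).2.1 = x • (τ (1, 0, 0)).2.1 := sub_eq_zero.1 (q.nd _ fun y => by
      rw [map_sub, map_smul, ← a7 x x0, ← a7 1 one_ne_zero]; simp)
    refine Prod.ext b (mul_left_cancel₀ x0 ?_)
    rw [a6 x x0, b, q.N_smul]; ring
  refine ⟨(τ (1, 0, 0)).2.1, LinearEquiv.ext fun ⟨x, y, w⟩ => ?_⟩
  rw [a4, a8 x, s_apply, q.symm, ← a7 1 one_ne_zero, one_mul]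

theorem s_mem (l : K) : q.s l ∈ X := by
  choose f e using h.is_s hg n hf
  obtain ⟨m, rfl⟩ := Finite.surjective_of_injective (f := f) (fun a b k => q.t_inj (by
    have := e a
    rw [k, ← e b] at this
    simpa using this)) l
  exact e m ▸ X.mul_mem (X.mul_mem hg (h.mem m)) (X.inv_mem hg)

end

theorem shear (ψ : F →+ F) : TI q p (X.comap (MulAut.conj (sh K ψ)).toMonoidHom) where
  mem l := by
    change sh K ψ * q.t l * (sh K ψ)⁻¹ ∈ X
    rw [(q.sh_t ψ l).eq, mul_inv_cancel_right]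
    exact h.mem l
  syl := by
    have : q.T.comap (MulAut.conj (sh K ψ)).toMonoidHom = q.T := by
      ext γ
      change (∃ l, _ = sh K ψ * γ * (sh K ψ)⁻¹) ↔ ∃ l, _
      refine exists_congr fun l => ?_
      rw [eq_mul_inv_iff_mul_eq, ← (q.sh_t ψ l).eq, mul_right_inj]
    rw [← this, relIndex_comap, map_comap_eq_self_of_surjective (MulAut.conj _).surjective]
    exact h.syl
  ti γ a l l0 m e := by
    have c : q.Nm (sh K ψ) := fun l => ⟨l, by rw [(q.sh_t ψ l).eq, mul_inv_cancel_right]⟩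
    have := h.ti _ a l l0 m (by
      change sh K ψ * γ * (sh K ψ)⁻¹ * _ * (sh K ψ * γ * (sh K ψ)⁻¹)⁻¹ = _
      rw [show ∀ c : Au (F × K × F), c * γ * c⁻¹ * q.t l * (c * γ * c⁻¹)⁻¹ = c * (γ * (c⁻¹ * q.t l * c) * γ⁻¹) * c⁻¹ from
        fun c => by group, mul_assoc _ (q.t l), ← (q.sh_t ψ l).eq, inv_mul_cancel_left, e, (q.sh_t ψ m).eq,
        mul_inv_cancel_right])
    simpa [mul_assoc] using (c.inv.mul this).mul c

/-- The conclusion: up to a shear, `X` contains the opposite root group, and has two double cosets. -/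
def Std (q : QF F K) (X : Subgroup (Au (F × K × F))) (ψ : F →+ F) : Prop :=
  (∀ l, sh K ψ * q.s l * (sh K ψ)⁻¹ ∈ X) ∧
    ∀ γ ∈ X, q.Nm γ ∨ ∀ l ≠ 0, ∃ m, q.Nm (γ⁻¹ * q.t m * (sh K ψ * q.s l * (sh K ψ)⁻¹))

theorem std (hg : g ∈ X) (n : ¬ q.Nm g) (hy : ∀ y, (g⁻¹ (0, y, 0)).2.2 = 0) :
    ∃ ψ : F →+ F, (∀ u : F × K × F, (g⁻¹ u).2.2 = 0 ↔ u.1 = ψ u.2.2) ∧ Std q X ψ := by
  let π : F →+ F := AddMonoidHom.mk' (fun x => (g⁻¹ (x, 0, 0)).2.2) fun a b => by
    rw [← Prod.snd_add, ← Prod.snd_add, ← map_add]; simp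
  let ρ : F →+ F := AddMonoidHom.mk' (fun x => (g⁻¹ (0, 0, x)).2.2) fun a b => by
    rw [← Prod.snd_add, ← Prod.snd_add, ← map_add]; simp
  let E := AddEquiv.ofBijective π (Finite.injective_iff_bijective.1
    ((injective_iff_map_eq_zero π).2 fun x e => h.pi_inj hg n e))
  have k : ∀ u : F × K × F, (g⁻¹ u).2.2 = 0 ↔ u.1 = (E.symm.toAddMonoidHom.comp (-ρ)) u.2.2 := fun ⟨x, y, w⟩ => by
    rw [show ((x, y, w) : F × K × F) = (x, 0, 0) + (0, y, 0) + (0, 0, w) by simp, map_add, map_add, Prod.snd_add,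
      Prod.snd_add, Prod.snd_add, Prod.snd_add, hy, add_zero, add_eq_zero_iff_eq_neg]
    simp only [Prod.mk_add_mk, add_zero, zero_add]
    exact (E.eq_symm_apply (x := -ρ w) (y := x)).symm
  refine ⟨_, k, ?_⟩
  generalize E.symm.toAddMonoidHom.comp (-ρ) = ψ at k
  have c : q.Nm (sh K ψ) := fun l => ⟨l, by rw [(q.sh_t ψ l).eq, mul_inv_cancel_right]⟩
  have a : ∀ l, sh K ψ * q.s l * (sh K ψ)⁻¹ ∈ X := (h.shear ψ).s_mem (g := (sh K ψ)⁻¹ * g * sh K ψ)
    (by simpa [mul_assoc] using hg) (fun e => n (by simpa [mul_assoc] using (c.mul e).mul c.inv)) fun u => by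
      have := k (sh K ψ u)
      simpa [LinearEquiv.mul_apply, sh_inv, sh_apply] using this
  refine ⟨a, fun γ b => or_iff_not_imp_left.2 fun d l l0 => h.reg b d (a l) fun e => l0 ?_⟩
  simpa [LinearEquiv.mul_apply, sh_inv, sh_apply, s_apply] using congrArg Prod.fst (e.Z (v := (1, 0, 0)) rfl)

/-- **Main theorem**, with a torus element. -/
theorem main {h0 : Au (F × K × F)} (hh : h0 ∈ X) {a : F} (a0 : a ≠ 0) (a1 : a ≠ 1)
    (e : ∀ v, h0 v = (v.1, a • v.2.1, a ^ 2 * v.2.2)) (hg : g ∈ X) (n : ¬ q.Nm g) :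
    ∃ ψ : F →+ F, (∀ w, ψ (a ^ 2 * w) = ψ w) ∧ Std q X ψ := by
  have e1 : ∀ l, h0 * q.t l = q.t (a⁻¹ • l) * h0 := fun l => LinearEquiv.ext fun v => by
    ext <;> simp [LinearEquiv.mul_apply, e, t_apply, q.N_smul, smul_smul] <;> field_simp
  have c : q.Nm h0 := fun l => ⟨_, by rw [e1, mul_inv_cancel_right]⟩
  obtain ⟨m, e2⟩ := h.reg hg n (X.mul_mem hh hg) fun k => n (by simpa using c.inv.mul k)
  have a2 : a⁻¹ - 1 ≠ 0 := sub_ne_zero.2 (mt inv_eq_one.1 a1)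
  set l := (a⁻¹ - 1)⁻¹ • m with hl
  have e3 : q.Nm ((q.t l * g)⁻¹ * h0 * (q.t l * g)) := by
    rwa [mul_inv_rev, mul_assoc, ← mul_assoc h0, e1, mul_assoc, mul_assoc, ← mul_assoc (q.t l)⁻¹, ← t_neg, ← t_add,
      show -l + a⁻¹ • l = m by rw [neg_add_eq_sub, ← one_smul F l, smul_smul, ← sub_smul, mul_one, hl, smul_smul,
        mul_inv_cancel₀ a2, one_smul], ← mul_assoc]
  have m1 := X.mul_mem (h.mem l) hg
  have n1 : ¬ q.Nm (q.t l * g) := fun k => n (by simpa using (nm_t l).inv.mul k)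
  generalize q.t l * g = g1 at e3 m1 n1
  have e4 : ∀ u : F × K × F, (g1⁻¹ u).2.2 = 0 → (g1⁻¹ (h0 u)).2.2 = 0 := fun u k => by
    simpa [LinearEquiv.mul_apply, ap_inv] using e3.H k
  obtain ⟨ψ, k1, k2⟩ := h.std m1 n1 fun y => by
    obtain ⟨x, k⟩ := Finite.surjective_of_injective (f := fun x : F => (g1⁻¹ (x, 0, 0)).2.2) (fun a b e =>
      sub_eq_zero.1 (h.pi_inj m1 n1 (by
        rw [show ((a - b, 0, 0) : F × K × F) = (a, 0, 0) - (b, 0, 0) by simp, map_sub, Prod.snd_sub, Prod.snd_sub]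
        exact sub_eq_zero.2 e))) (-(g1⁻¹ (0, (a - 1)⁻¹ • y, 0)).2.2)
    have k3 : (g1⁻¹ (x, (a - 1)⁻¹ • y, 0)).2.2 = 0 := by
      rw [show ((x, (a - 1)⁻¹ • y, 0) : F × K × F) = (x, 0, 0) + (0, (a - 1)⁻¹ • y, 0) by simp, map_add, Prod.snd_add,
        Prod.snd_add, show (g1⁻¹ (x, 0, 0)).2.2 = _ from k, neg_add_cancel]
    rw [show ((0, y, 0) : F × K × F) = h0 (x, (a - 1)⁻¹ • y, 0) - (x, (a - 1)⁻¹ • y, 0) by
      ext <;> simp [e, smul_smul, ← sub_smul, ← sub_one_mul, mul_inv_cancel₀ (sub_ne_zero.2 a1)],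
      map_sub, Prod.snd_sub, Prod.snd_sub, e4 _ k3, k3, sub_self]
  exact ⟨ψ, fun w => by simpa [e, eq_comm] using (k1 _).1 (e4 (ψ w, 0, w) ((k1 _).2 rfl)), k2⟩

/-- If `a ^ 2 ≠ 1` there is no shear. -/
theorem main' {h0 : Au (F × K × F)} (hh : h0 ∈ X) {a : F} (a0 : a ≠ 0) (a1 : a ^ 2 ≠ 1)
    (e : ∀ v, h0 v = (v.1, a • v.2.1, a ^ 2 * v.2.2)) (hg : g ∈ X) (n : ¬ q.Nm g) :
    (∀ l, q.s l ∈ X) ∧ ∀ γ ∈ X, q.Nm γ ∨ ∀ l ≠ 0, ∃ m, q.Nm (γ⁻¹ * q.t m * q.s l) := by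
  obtain ⟨ψ, k1, k2⟩ := h.main hh a0 (fun c => a1 (by rw [c, one_pow])) e hg n
  have : sh K ψ = 1 := LinearEquiv.ext fun v => by
    have := k1 ((a ^ 2 - 1)⁻¹ * v.2.2)
    rw [← sub_eq_zero, ← map_sub, ← sub_one_mul, mul_inv_cancel_left₀ (sub_ne_zero.2 a1)] at this
    simp [sh_apply, this]
  simpa only [Std, this, one_mul, inv_one, mul_one] using k2

/-- **Main theorem** over a prime field (every additive functional is linear); no torus element is needed. -/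
theorem main_prime (hl : ∀ χ : K →+ F, ∃ l, ∀ y, χ y = q.B l y) (hF : ∀ (π : F →+ F) x, π x = π 1 * x)
    (hg : g ∈ X) (n : ¬ q.Nm g) : ∃ ψ : F →+ F, Std q X ψ := by
  obtain ⟨l, e⟩ := hl (AddMonoidHom.mk' (fun y => (g⁻¹ (0, y, 0)).2.2) fun a b => by
    rw [← Prod.snd_add, ← Prod.snd_add, ← map_add]; simp)
  obtain ⟨π, -, e1, -⟩ := f_t (q := q) g 0
  have p0 : π 1 ≠ 0 := fun c => one_ne_zero (h.pi_inj hg n (e1 1 ▸ c))
  refine (h.std (g := q.t ((π 1)⁻¹ • l) * g) (X.mul_mem (h.mem _) hg)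
    (fun k => n (by simpa using (nm_t ((π 1)⁻¹ • l)).inv.mul k)) fun y => ?_).imp fun _ => And.right
  rw [mul_inv_rev, LinearEquiv.mul_apply, ← t_neg, show q.t (-((π 1)⁻¹ • l)) (0, y, 0) =
    (-((π 1)⁻¹ * q.B l y), 0, 0) + (0, y, 0) by ext <;> simp [t_apply], map_add, Prod.snd_add, Prod.snd_add, ← e1, hF,
    show (g⁻¹ (0, y, 0)).2.2 = _ from e y]
  field_simp
  ring

end TI

end QF

end Cfsg.Lib.SU4J
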