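import Cfsg.Agent.Lib.SU4.JSa
import Mathlib.LinearAlgebra.Dual.Lemmas

/-!
# Variants of the main theorem of `JSa`
-/

set_option autoImplicit false
set_option linter.unusedSectionVars false

namespace Cfsg.Lib.SU4J.QF.TI

open Subgroup

attribute [-simp] LinearEquiv.coe_inv

variable {F K : Type*} [Field F] [AddCommGroup K] [Module F K] {q : QF F K} [Finite F] [Finite K]
  {p : ℕ} [hp : Fact p.Prime] [CharP F p] {X : Subgroup (Au (F × K × F))} {g : Au (F × K × F)} (h : TI q p X)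
include h

theorem main1 {h0 : Au (F × K × F)} (hh : h0 ∈ X) {a : F} (a1 : a ≠ 1) (e1 : ∀ l, h0 * q.t l = q.t (a⁻¹ • l) * h0)
    (e : ∀ x y, h0 (x, y, 0) = (x, a • y, 0)) (hg : g ∈ X) (n : ¬ q.Nm g) : ∃ ψ : F →+ F, Std q X ψ := by
  have c : q.Nm h0 := fun l => ⟨_, by rw [e1, mul_inv_cancel_right]⟩
  obtain ⟨m, e2⟩ := h.reg hg n (X.mul_mem hh hg) fun k => n (by simpa using c.inv.mul k)
  have a2 : a⁻¹ - 1 ≠ 0 := sub_ne_zero.2 (mt inv_eq_one.1 a1)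
  set l := (a⁻¹ - 1)⁻¹ • m with hl
  have e3 : q.Nm ((q.t l * g)⁻¹ * h0 * (q.t l * g)) := by
    rwa [mul_inv_rev, mul_assoc, ← mul_assoc h0, e1, mul_assoc, mul_assoc, ← mul_assoc (q.t l)⁻¹, ← t_neg, ← t_add,
      show -l + a⁻¹ • l = m by rw [neg_add_eq_sub, ← one_smul F l, smul_smul, ← sub_smul, mul_one, hl, smul_smul,
        mul_inv_cancel₀ a2, one_smul], ← mul_assoc]
  have m1 := X.mul_mem (h.mem l) hg
  have n1 : ¬ q.Nm (q.t l * g) := fun k => n (by simpa using (nm_t l).inv.mul k)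
  generalize q.t l * g = g1 at e3 m1 n1
  have e4 : ∀ u : F × K × F, (g1⁻¹ u).2.2 = 0 → (g1⁻¹ (h0 u)).2.2 = 0 := fun u k => by
    simpa [LinearEquiv.mul_apply, ap_inv] using e3.H k
  refine (h.std m1 n1 fun y => ?_).imp fun _ => And.right
  obtain ⟨x, k⟩ := Finite.surjective_of_injective (f := fun x : F => (g1⁻¹ (x, 0, 0)).2.2) (fun a b e =>
    sub_eq_zero.1 (h.pi_inj m1 n1 (by
      rw [show ((a - b, 0, 0) : F × K × F) = (a, 0, 0) - (b, 0, 0) by simp, map_sub, Prod.snd_sub, Prod.snd_sub]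
      exact sub_eq_zero.2 e))) (-(g1⁻¹ (0, (a - 1)⁻¹ • y, 0)).2.2)
  have k3 : (g1⁻¹ (x, (a - 1)⁻¹ • y, 0)).2.2 = 0 := by
    rw [show ((x, (a - 1)⁻¹ • y, 0) : F × K × F) = (x, 0, 0) + (0, (a - 1)⁻¹ • y, 0) by simp, map_add, Prod.snd_add,
      Prod.snd_add, show (g1⁻¹ (x, 0, 0)).2.2 = _ from k, neg_add_cancel]
  rw [show ((0, y, 0) : F × K × F) = h0 (x, (a - 1)⁻¹ • y, 0) - (x, (a - 1)⁻¹ • y, 0) by
    ext <;> simp [e, smul_smul, ← sub_smul, ← sub_one_mul, mul_inv_cancel₀ (sub_ne_zero.2 a1)],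
    map_sub, Prod.snd_sub, Prod.snd_sub, e4 _ k3, k3, sub_self]

/-- The torus element is only given on the sections. -/
theorem main2 {h0 : Au (F × K × F)} (hh : h0 ∈ X) (c : q.Nm h0) {a : F} (a0 : a ≠ 0) (a1 : a ≠ 1)
    (eZ : ∀ x, h0 (x, 0, 0) = (x, 0, 0)) (eH : ∀ y, (h0 (0, y, 0)).2.1 = a • y) (eV : (h0 (0, 0, 1)).2.2 = a ^ 2)
    (hg : g ∈ X) (n : ¬ q.Nm g) : ∃ ψ : F →+ F, Std q X ψ := by
  have m1 := X.mul_mem (h.mem (-((a ^ 2)⁻¹ • (h0 (0, 0, 1)).2.1))) hh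
  have c1 := (nm_t (-((a ^ 2)⁻¹ • (h0 (0, 0, 1)).2.1))).mul c
  have b1 : ∀ x, (q.t (-((a ^ 2)⁻¹ • (h0 (0, 0, 1)).2.1)) * h0) (x, 0, 0) = (x, 0, 0) := fun x => by
    simp [LinearEquiv.mul_apply, eZ, t_apply]
  have b2 : ∀ y, ((q.t (-((a ^ 2)⁻¹ • (h0 (0, 0, 1)).2.1)) * h0) (0, y, 0)).2 = (a • y, 0) := fun y => by
    simp [LinearEquiv.mul_apply, eH, t_apply, c.H (v := (0, y, 0)) rfl]
  have b3 : ((q.t (-((a ^ 2)⁻¹ • (h0 (0, 0, 1)).2.1)) * h0) (0, 0, 1)).2 = (0, a ^ 2) := by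
    simp [LinearEquiv.mul_apply, eV, t_apply, a0]
  generalize q.t (-((a ^ 2)⁻¹ • (h0 (0, 0, 1)).2.1)) * h0 = h1 at m1 c1 b1 b2 b3
  have k : ∀ l, h1 * q.t l = q.t (a⁻¹ • l) * h1 ∧ (h1 (0, l, 0)).1 = 0 := fun l => by
    obtain ⟨m, e⟩ := c1 l
    rw [mul_inv_eq_iff_eq_mul] at e
    have e' := congrArg (fun γ : Au (F × K × F) => γ (0, 0, 1)) e
    simp only [LinearEquiv.mul_apply] at e'
    rw [show q.t l (0, 0, 1) = (q.N l, 0, 0) + (0, l, 0) + (0, 0, 1) by simp [t_apply], map_add, map_add, b1] at e'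
    have e1 := congrArg (·.2.1) e'
    have e2 := congrArg (·.1) e'
    simp only [t_apply, Prod.fst_add, Prod.snd_add, b2, b3, zero_add, add_zero, map_zero] at e1 e2
    obtain rfl : m = a⁻¹ • l := by
      rw [← inv_smul_smul₀ a0 l, e1, smul_smul, smul_smul, show a⁻¹ * a⁻¹ * a ^ 2 = 1 by field_simp, one_smul]
    rw [q.N_smul, mul_right_comm, ← mul_pow, inv_mul_cancel₀ a0] at e2
    exact ⟨e, by linear_combination e2⟩
  refine h.main1 m1 a1 (fun l => (k l).1) (fun x y => ?_) hg n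
  rw [show ((x, y, 0) : F × K × F) = (x, 0, 0) + (0, y, 0) by simp, map_add, b1]
  ext <;> simp [(k y).2, b2]

theorem main3 (hF : (Nat.card F).Prime) (hg : g ∈ X) (n : ¬ q.Nm g) : ∃ ψ : F →+ F, Std q X ψ := by
  have := Fact.mk hF
  have z : ∀ x : F, ∃ k : ℤ, k • (1 : F) = x := fun x => (zmultiples_eq_top_of_prime_card rfl one_ne_zero).ge trivial
  have := Module.Finite.of_finite (R := F) (M := K)
  refine h.main_prime (fun χ => ?_) (fun π x => ?_) hg n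
  · obtain ⟨l, e⟩ := (LinearMap.injective_iff_surjective_of_finrank_eq_finrank (f := q.B)
      Subspace.dual_finrank_eq.symm).1 ((injective_iff_map_eq_zero _).2 fun l e => q.nd l fun a => by
        rw [q.symm, e]; rfl) ⟨⟨χ, χ.map_add⟩, fun c y => by
      obtain ⟨k, rfl⟩ := z c
      simp [Int.cast_smul_eq_zsmul]⟩
    exact ⟨l, fun y => by rw [e]; rfl⟩
  · obtain ⟨k, rfl⟩ := z x
    rw [map_zsmul]; simp [mul_comm]

end Cfsg.Lib.SU4J.QF.TI
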