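import Mathlib

/-! # Fast kernel arithmetic for `4 × 4` matrices over `ZMod 2` and `ZMod 3` (S5210) -/

set_option autoImplicit false

namespace Cfsg.Lib.SU4.MK

open Matrix

/-- digits in base `256` -/
def pk : List ℕ → ℕ
  | [] => 0
  | a :: l => a + 256 * pk l

theorem land_cons {a b : ℕ} (x y : ℕ) (ha : a < 256) (hb : b < 256) :
    (a + 256 * x) &&& (b + 256 * y) = (a &&& b) + 256 * (x &&& y) := by
  have hc : a &&& b < 2 ^ 8 := lt_of_le_of_lt Nat.and_le_left ha
  refine Nat.eq_of_testBit_eq fun j => ?_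
  rw [Nat.testBit_and, add_comm a, add_comm b, add_comm (a &&& b), show 256 = 2 ^ 8 from rfl, Nat.testBit_two_pow_mul_add x ha,
    Nat.testBit_two_pow_mul_add y hb, Nat.testBit_two_pow_mul_add _ hc]
  split <;> simp

theorem land_pk : ∀ l m : List ℕ, (∀ x ∈ l, x < 256) → (∀ x ∈ m, x < 256) → pk l &&& pk m = pk (List.zipWith (· &&& ·) l m)
  | [], _, _, _ => by simp [pk]
  | _ :: _, [], _, _ => by simp [pk]
  | a :: l, b :: m, h, k => by
    rw [List.zipWith_cons_cons, pk, pk, pk, land_cons _ _ (h a (by simp)) (k b (by simp)),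
      land_pk l m (fun x e => h x (by simp [e])) fun x e => k x (by simp [e])]

theorem pk_inj : ∀ l m : List ℕ, l.length = m.length → (∀ x ∈ l, x < 256) → (∀ x ∈ m, x < 256) → pk l = pk m → l = m
  | [], [], _, _, _, _ => rfl
  | [], _ :: _, e, _, _, _ => by simp at e
  | _ :: _, [], e, _, _, _ => by simp at e
  | a :: l, b :: m, e, h, k, q => by
    have h1 := h a (by simp)
    have h2 := k b (by simp)
    rw [pk, pk] at q
    rw [show a = b by omega, pk_inj l m (by simpa using e) (fun x e => h x (by simp [e])) (fun x e => k x (by simp [e])) (by omega)]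

/-- the product over `ℕ` -/
def pre (c d : ℕ) : ℕ :=
  Nat.add (Nat.add (Nat.mul (Nat.land c 0x000000ff000000ff000000ff000000ff) (Nat.land d 0xffffffff))
    (Nat.shiftRight (Nat.mul (Nat.land c 0x0000ff000000ff000000ff000000ff00) (Nat.land d 0xffffffff00000000)) 40))
  (Nat.add (Nat.shiftRight (Nat.mul (Nat.land c 0x00ff000000ff000000ff000000ff0000) (Nat.land d 0xffffffff0000000000000000)) 80)
    (Nat.shiftRight (Nat.mul (Nat.land c 0xff000000ff000000ff000000ff000000) (Nat.land d 0xffffffff000000000000000000000000)) 120))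

/-- the list of entries -/
def ls (A : Fin 4 → Fin 4 → ℕ) : List ℕ :=
  [A 0 0, A 0 1, A 0 2, A 0 3, A 1 0, A 1 1, A 1 2, A 1 3, A 2 0, A 2 1, A 2 2, A 2 3, A 3 0, A 3 1, A 3 2, A 3 3]

theorem ls_all {A : Fin 4 → Fin 4 → ℕ} {P : ℕ → Prop} (h : ∀ i j, P (A i j)) : ∀ x ∈ ls A, P x := by simp [ls, h]

theorem and255 {a : ℕ} (h : a < 256) : a &&& 255 = a := (Nat.and_two_pow_sub_one_eq_mod a 8).trans (Nat.mod_eq_of_lt h)

theorem pre_pk {A B : Fin 4 → Fin 4 → ℕ} (hA : ∀ i j, A i j < 256) (hB : ∀ i j, B i j < 256) :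
    pre (pk (ls A)) (pk (ls B)) = pk (ls fun i j => A i 0 * B 0 j + A i 1 * B 1 j + A i 2 * B 2 j + A i 3 * B 3 j) := by
  have q {C : Fin 4 → Fin 4 → ℕ} (h : ∀ i j, C i j < 256) (m : List ℕ) (n : ℕ) (e : n = pk m) (k : ∀ x ∈ m, x < 256) :
      Nat.land (pk (ls C)) n = pk (List.zipWith (· &&& ·) (ls C) m) := by
    rw [e]; exact land_pk (ls C) m (ls_all h) k
  have s (x y n : ℕ) (e : x = 2 ^ n * y) : Nat.shiftRight x n = y := by
    rw [e]; exact (Nat.shiftRight_eq_div_pow _ n).trans (Nat.mul_div_cancel_left y (by positivity))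
  rw [pre, q hA [255, 0, 0, 0, 255, 0, 0, 0, 255, 0, 0, 0, 255, 0, 0, 0] 20203181445841325826244859658495 (by decide +kernel) (by decide),
    q hA [0, 255, 0, 0, 0, 255, 0, 0, 0, 255, 0, 0, 0, 255, 0, 0] 5172014450135379411518684072574720 (by decide +kernel) (by decide),
    q hA [0, 0, 255, 0, 0, 0, 255, 0, 0, 0, 255, 0, 0, 0, 255, 0] 1324035699234657129348783122579128320 (by decide +kernel) (by decide),
    q hA [0, 0, 0, 255, 0, 0, 0, 255, 0, 0, 0, 255, 0, 0, 0, 255] 338953139004072225113288479380256849920 (by decide +kernel) (by decide),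
    q hB [255, 255, 255, 255] 4294967295 (by decide +kernel) (by decide), q hB [0, 0, 0, 0, 255, 255, 255, 255] 18446744069414584320 (by decide +kernel) (by decide),
    q hB [0, 0, 0, 0, 0, 0, 0, 0, 255, 255, 255, 255] 79228162495817593519834398720 (by decide +kernel) (by decide),
    q hB [0, 0, 0, 0, 0, 0, 0, 0, 0, 0, 0, 0, 255, 255, 255, 255] 340282366841710300949110269838224261120 (by decide +kernel) (by decide)]
  simp only [ls, List.zipWith_cons_cons, List.zipWith_nil_right, Nat.and_zero, and255 (hA _ _), and255 (hB _ _)]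
  rw [s _ (pk [A 0 1, 0, 0, 0, A 1 1, 0, 0, 0, A 2 1, 0, 0, 0, A 3 1] * pk [B 1 0, B 1 1, B 1 2, B 1 3]) 40
      (by simp only [pk, Nat.mul_eq]; ring),
    s _ (pk [A 0 2, 0, 0, 0, A 1 2, 0, 0, 0, A 2 2, 0, 0, 0, A 3 2] * pk [B 2 0, B 2 1, B 2 2, B 2 3]) 80
      (by simp only [pk, Nat.mul_eq]; ring),
    s _ (pk [A 0 3, 0, 0, 0, A 1 3, 0, 0, 0, A 2 3, 0, 0, 0, A 3 3] * pk [B 3 0, B 3 1, B 3 2, B 3 3]) 120
      (by simp only [pk, Nat.mul_eq]; ring)]
  simp only [pk, Nat.mul_eq, Nat.add_eq]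
  ring

/-- reduction modulo `3` -/
def red3 (x : ℕ) : ℕ := Nat.sub x (Nat.mul 3 (Nat.shiftRight (Nat.land (Nat.mul x 11) 0xe0e0e0e0e0e0e0e0e0e0e0e0e0e0e0e0) 5))

theorem red3_aux : ∀ (l : List ℕ) (n : ℕ), l.length ≤ n → (∀ x ∈ l, x ≤ 16) →
    (pk l * 11) &&& pk (List.replicate n 224) = 32 * pk (l.map (· / 3)) ∧ pk l = pk (l.map (· % 3)) + 3 * pk (l.map (· / 3))
  | [], _, _, _ => by simp [pk]
  | _ :: _, 0, e, _ => by simp at e
  | a :: l, n + 1, e, h => by
    obtain ⟨h1, h2⟩ := red3_aux l n (by simpa using e) fun x e => h x (by simp [e])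
    have ha := h a (by simp)
    have q : ∀ a ≤ 16, (a * 11) &&& 224 = 32 * (a / 3) := by decide
    simp only [List.replicate_succ, List.map_cons, pk]
    rw [show (a + 256 * pk l) * 11 = a * 11 + 256 * (pk l * 11) by ring, land_cons _ _ (by omega) (by omega), h1, q a ha]
    omega

theorem red3_pk {l : List ℕ} (e : l.length ≤ 16) (h : ∀ x ∈ l, x ≤ 16) : red3 (pk l) = pk (l.map (· % 3)) := by
  obtain ⟨h1, h2⟩ := red3_aux l 16 e h
  have : Nat.land (Nat.mul (pk l) 11) 0xe0e0e0e0e0e0e0e0e0e0e0e0e0e0e0e0 = 32 * pk (l.map (· / 3)) := h1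
  rw [red3, this, show Nat.shiftRight (32 * pk (l.map (· / 3))) 5 = pk (l.map (· / 3)) from
    (Nat.shiftRight_eq_div_pow _ 5).trans (Nat.mul_div_cancel_left _ (by decide))]
  simp only [Nat.sub_eq, Nat.mul_eq]
  omega

/-- reduction modulo `2` -/
def red2 (x : ℕ) : ℕ := Nat.land x 0x01010101010101010101010101010101

theorem red2_pk {A : Fin 4 → Fin 4 → ℕ} (h : ∀ i j, A i j < 256) : red2 (pk (ls A)) = pk (ls fun i j => A i j % 2) :=
  (land_pk _ (List.replicate 16 1) (ls_all h) (by simp)).trans (by simp [ls, List.replicate, Nat.and_one_is_mod])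

/-- the code of a matrix -/
def enc {n : ℕ} (A : Matrix (Fin 4) (Fin 4) (ZMod (n + 1))) : ℕ := pk (ls fun i j => (A i j).val)

theorem enc_inj {n : ℕ} (hn : n < 256) {A B : Matrix (Fin 4) (Fin 4) (ZMod (n + 1))} (h : enc A = enc B) : A = B := by
  have q := pk_inj (ls fun i j => (A i j).val) (ls fun i j => (B i j).val) rfl (ls_all fun i j => (ZMod.val_lt (A i j)).trans_le hn)
    (ls_all fun i j => (ZMod.val_lt (B i j)).trans_le hn) h
  simp only [ls, List.cons.injEq, (ZMod.val_injective _).eq_iff] at q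
  ext i j
  fin_cases i <;> fin_cases j <;> simp [q]

theorem val_mul {n : ℕ} (A B : Matrix (Fin 4) (Fin 4) (ZMod (n + 1))) (i j : Fin 4) : ((A * B) i j).val =
    ((A i 0).val * (B 0 j).val + (A i 1).val * (B 1 j).val + (A i 2).val * (B 2 j).val + (A i 3).val * (B 3 j).val) % (n + 1) := by
  rw [← ZMod.val_natCast, Matrix.mul_apply, Fin.sum_univ_four]
  simp

/-- the product modulo `3` -/
def ml3 (c d : ℕ) : ℕ := red3 (pre c d)

/-- the product modulo `2` -/
def ml2 (c d : ℕ) : ℕ := red2 (pre c d)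

theorem enc_mul3 (A B : Matrix (Fin 4) (Fin 4) (ZMod 3)) : ml3 (enc A) (enc B) = enc (A * B) := by
  have l (C : Matrix (Fin 4) (Fin 4) (ZMod 3)) (i j) : (C i j).val ≤ 2 := Nat.le_of_lt_succ (ZMod.val_lt (C i j))
  have m (i j k) : (A i k).val * (B k j).val ≤ 4 := Nat.mul_le_mul (l A i k) (l B k j)
  rw [ml3, enc, enc, pre_pk (fun i j => by have := l A i j; omega) (fun i j => by have := l B i j; omega),
    red3_pk (by simp [ls]) (ls_all fun i j => by have := m i j 0; have := m i j 1; have := m i j 2; have := m i j 3; omega)]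
  simp only [enc, val_mul]
  rfl

theorem enc_mul2 (A B : Matrix (Fin 4) (Fin 4) (ZMod 2)) : ml2 (enc A) (enc B) = enc (A * B) := by
  have l (C : Matrix (Fin 4) (Fin 4) (ZMod 2)) (i j) : (C i j).val ≤ 1 := Nat.le_of_lt_succ (ZMod.val_lt (C i j))
  have m (i j k) : (A i k).val * (B k j).val ≤ 1 := Nat.mul_le_mul (l A i k) (l B k j)
  rw [ml2, enc, enc, pre_pk (fun i j => by have := l A i j; omega) (fun i j => by have := l B i j; omega),
    red2_pk fun i j => by have := m i j 0; have := m i j 1; have := m i j 2; have := m i j 3; omega]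
  simp only [enc, val_mul]

end Cfsg.Lib.SU4.MK
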