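import Cfsg.Agent.Lib.SU4.JSa
import Mathlib.LinearAlgebra.Center

/-!
# Groups of semi-similitudes of `K × K` with a trivial-intersection group `{1 + c n}` (step 0 and 1 of `SU4/QS`)
-/

set_option autoImplicit false
set_option linter.unusedSectionVars false

namespace Cfsg.Lib.SU4J

namespace QF

open Subgroup Cfsg.Lib.Transfer

attribute [-simp] LinearEquiv.coe_inv

variable {F K : Type*} [Field F] [AddCommGroup K] [Module F K] (q : QF F K)

/-- The symplectic form. -/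
def om : (K × K) →ₗ[F] (K × K) →ₗ[F] F := LinearMap.mk₂ F (fun x y => q.B y.2 x.1 - q.B x.2 y.1)
  (fun _ _ _ => by simp; ring) (fun _ _ _ => by simp; ring) (fun _ _ _ => by simp; ring)
  (fun _ _ _ => by simp; ring)

theorem om_apply (x y : K × K) : q.om x y = q.B y.2 x.1 - q.B x.2 y.1 := rfl

theorem om_self (x : K × K) : q.om x x = 0 := by simp [om_apply]

theorem om_swap (x y : K × K) : q.om x y = -q.om y x := by simp [om_apply]

theorem om_nd {x : K × K} (h : ∀ y, q.om x y = 0) : x = 0 :=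
  Prod.ext (q.nd _ fun a => by simpa [om_apply] using h (0, a))
    (q.nd _ fun a => by simpa [om_apply, q.symm a] using h (a, 0))

/-- `n (b, t) = (t, 0)` -/
def nl (F K : Type*) [Field F] [AddCommGroup K] [Module F K] : (K × K) →ₗ[F] (K × K) :=
  (LinearMap.inl F K K).comp (LinearMap.snd F K K)

@[simp] theorem nl_apply (w : K × K) : nl F K w = (w.2, 0) := rfl

/-- `1 + s A` -/
def el (A : (K × K) →ₗ[F] (K × K)) (hA : ∀ w, A (A w) = 0) (s : F) : Au (K × K) := AddEquiv.toIntLinearEquiv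
  { toFun w := w + s • A w
    invFun w := w - s • A w
    left_inv w := by simp [hA]
    right_inv w := by simp [hA]
    map_add' u v := by simp; abel }

section
variable {A : (K × K) →ₗ[F] (K × K)} {hA : ∀ w, A (A w) = 0} {s : F}
theorem el_apply (w : K × K) : el A hA s w = w + s • A w := rfl
theorem el_inv (w : K × K) : (el A hA s)⁻¹ w = w - s • A w := rfl
end

/-- The elements of `T`. -/
def up (K : Type*) [AddCommGroup K] [Module F K] (c : F) : Au (K × K) := el (nl F K) (fun _ => rfl) c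

theorem up_apply (c : F) (w : K × K) : up K c w = w + c • nl F K w := rfl
theorem up_inv (c : F) (w : K × K) : (up K c)⁻¹ w = w - c • nl F K w := rfl

theorem ap_iv (g : Au (K × K)) (v : K × K) : g (g⁻¹ v) = v := g.apply_symm_apply v
theorem iv_ap (g : Au (K × K)) (v : K × K) : g⁻¹ (g v) = v := g.symm_apply_apply v

/-- `g` normalizes `T` -/
def Nq (F : Type*) [Field F] [Module F K] (g : Au (K × K)) : Prop := ∀ c : F, ∃ d : F, g * up K c * g⁻¹ = up K d

theorem Nq.lam {g : Au (K × K)} (h : Nq F g) : ∃ l : F, l ≠ 0 ∧ ∀ w, g (nl F K w) = l • nl F K (g w) := by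
  obtain ⟨d, e⟩ := h 1
  have k : ∀ w, g (nl F K w) = d • nl F K (g w) := fun w => by
    have := DFunLike.congr_fun e (g w)
    rw [LinearEquiv.mul_apply, LinearEquiv.mul_apply, iv_ap, up_apply, up_apply, map_add, one_smul] at this
    exact add_left_cancel this
  by_cases d0 : d = 0
  · refine ⟨1, one_ne_zero, fun w => ?_⟩
    have z : ∀ w : K × K, nl F K w = 0 := fun w => g.injective (by rw [k, d0, zero_smul, map_zero])
    rw [z, z, map_zero, smul_zero]
  · exact ⟨d, d0, k⟩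

theorem Nq.U {g : Au (K × K)} (h : Nq F g) {w : K × K} (hw : w.2 = 0) : (g w).2 = 0 := by
  obtain ⟨l, -, e⟩ := h.lam
  have := e (0, w.1)
  rw [nl_apply, show ((0, w.1).2, (0 : K)) = w from Prod.ext rfl hw.symm] at this
  simp [this]

/-- The linear elements. -/
def Lin (F K : Type*) [Field F] [AddCommGroup K] [Module F K] : Subgroup (Au (K × K)) where
  carrier := {k | ∀ (c : F) w, k (c • w) = c • k w}
  mul_mem' ha hb c w := by rw [LinearEquiv.mul_apply, hb, ha]; rfl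
  one_mem' _ _ := rfl
  inv_mem' {k} h c w := k.injective (by rw [h, ap_iv, ap_iv])

theorem el_lin {A : (K × K) →ₗ[F] (K × K)} {hA : ∀ w, A (A w) = 0} {s : F} : el A hA s ∈ Lin F K :=
  fun c w => by rw [el_apply, el_apply, map_smul, smul_add, smul_comm]

/-- The stability group of `W ≥ L ≥ M ≥ 0`. -/
def st (L M : Submodule F (K × K)) : Subgroup (Au (K × K)) where
  carrier := {k | (∀ w, k w - w ∈ L) ∧ (∀ w ∈ L, k w - w ∈ M) ∧ ∀ w ∈ M, k w = w}
  mul_mem' := fun {a b} ha hb => ⟨fun w => by simpa using add_mem (ha.1 (b w)) (hb.1 w),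
    fun w hw => by simpa using add_mem (ha.2.1 (b w) (by simpa using add_mem (hb.1 w) hw)) (hb.2.1 w hw),
    fun w hw => by rw [LinearEquiv.mul_apply, hb.2.2 w hw, ha.2.2 w hw]⟩
  one_mem' := ⟨fun w => by simp, fun w _ => by simp, fun _ _ => rfl⟩
  inv_mem' := fun {a} ha => by
    have h1 : ∀ w, a⁻¹ w - w ∈ L := fun w => by simpa [ap_iv] using neg_mem (ha.1 (a⁻¹ w))
    exact ⟨h1, fun w hw => by
      simpa [ap_iv] using neg_mem (ha.2.1 (a⁻¹ w) (by simpa using add_mem (h1 w) hw)),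
      fun w hw => a.injective (by rw [ap_iv, ha.2.2 w hw])⟩

theorem el_st {A : (K × K) →ₗ[F] (K × K)} {hA : ∀ w, A (A w) = 0} {s : F} {L M : Submodule F (K × K)}
    (h1 : ∀ w, A w ∈ L) (h2 : ∀ w ∈ L, A w ∈ M) (h3 : ∀ w ∈ M, A w = 0) : el A hA s ∈ st L M :=
  ⟨fun w => by simpa [el_apply] using L.smul_mem s (h1 w),
    fun w hw => by simpa [el_apply] using M.smul_mem s (h2 w hw), fun w hw => by simp [el_apply, h3 w hw]⟩

theorem st_p {p : ℕ} [CharP F p] (L M : Submodule F (K × K)) : IsPGroup p (st L M) := fun k => ⟨2, by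
  have z : ∀ w : K × K, p • w = 0 := fun w => by
    rw [← Nat.cast_smul_eq_nsmul F, CharP.cast_eq_zero, zero_smul]
  have h1 : ∀ w ∈ L, (k.1 ^ p) w = w := fun w hw => by
    rw [pow_fix (k.2.2.2 _ (k.2.2.1 w hw)), z, add_zero]
  refine Subtype.ext (LinearEquiv.ext fun w => ?_)
  rw [sq, pow_mul, coe_pow, coe_pow, pow_fix (h1 _ ((pow_mem k.2 p).1 w)), z, add_zero]
  rfl⟩

/-- Two Weyl-type elements. -/
theorem exists_w {A : (K × K) →ₗ[F] (K × K)} {hA : ∀ w, A (A w) = 0} {Y : Subgroup (Au (K × K))}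
    (h1 : ∀ c : F, up K c ∈ Y) (h2 : ∀ s, el A hA s ∈ Y) {d r : F} (d0 : d ≠ 0) (r0 : r ≠ 0) :
    ∃ k ∈ Y, ∀ e f, nl F K e = 0 → nl F K f = e → A f = 0 → A e = d • f → k e = -(r⁻¹ • f) ∧ k f = r • e := by
  refine ⟨up K r * el A hA (-(d * r)⁻¹) * up K r, mul_mem (mul_mem (h1 _) (h2 _)) (h1 _),
    fun e f a1 a2 a3 a4 => ?_⟩
  simp only [LinearEquiv.mul_apply, up_apply, el_apply, a1, a2, a3, a4, map_add, map_smul, smul_zero, add_zero,
    zero_add]
  constructor <;> match_scalars <;> field_simp <;> ring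

theorem exists_h {A : (K × K) →ₗ[F] (K × K)} {hA : ∀ w, A (A w) = 0} {Y : Subgroup (Au (K × K))}
    (h1 : ∀ c : F, up K c ∈ Y) (h2 : ∀ s, el A hA s ∈ Y) {d r : F} (d0 : d ≠ 0) (r0 : r ≠ 0) :
    ∃ k ∈ Y, ∀ e f, nl F K e = 0 → nl F K f = e → A f = 0 → A e = d • f → k e = r • e ∧ k f = r⁻¹ • f := by
  obtain ⟨k, hk, e1⟩ := exists_w h1 h2 d0 r0
  obtain ⟨k', hk', e2⟩ := exists_w h1 h2 d0 (one_ne_zero (α := F))
  refine ⟨k * k'⁻¹, mul_mem hk (inv_mem hk'), fun e f a1 a2 a3 a4 => ?_⟩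
  obtain ⟨b1, b2⟩ := e1 e f a1 a2 a3 a4
  obtain ⟨b3, b4⟩ := e2 e f a1 a2 a3 a4
  rw [inv_one, one_smul] at b3
  rw [one_smul] at b4
  have c1 : k'⁻¹ e = f := by rw [← b4, iv_ap]
  have c2 : k'⁻¹ f = -e := k'.injective (by rw [ap_iv, map_neg, b3, neg_neg])
  rw [LinearEquiv.mul_apply, LinearEquiv.mul_apply, c1, c2, map_neg, b1, neg_neg]
  exact ⟨b2, rfl⟩

/-- The properties of the nilpotent map of a conjugate of `T`. -/
structure Rt (A : (K × K) →ₗ[F] (K × K)) : Prop where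
  sq : ∀ w, A (A w) = 0
  skew : ∀ x y, q.om (A x) y = -q.om x (A y)
  iso : ∀ x y, A x = 0 → A y = 0 → q.om x y = 0
  dep : ∀ x y z, A x = 0 → A y = 0 → A z = 0 →
    ∃ a b c : F, (a ≠ 0 ∨ b ≠ 0 ∨ c ≠ 0) ∧ a • x + b • y + c • z = 0
  an : ∀ x, q.om (A x) x = 0 → (2 : F) = 0 ∨ A x = 0
  alt : (2 : F) = 0 → ∀ x, q.om (A x) x = 0

variable [Finite F] [Finite K]

include q in
theorem dep3 (x y z : K) : ∃ a b c : F, (a ≠ 0 ∨ b ≠ 0 ∨ c ≠ 0) ∧ a • x + b • y + c • z = 0 := by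
  by_contra! H
  have h1 : 1 < Nat.card F := Finite.one_lt_card
  have := Nat.card_le_card_of_injective (fun v : F × F × F => v.1 • x + v.2.1 • y + v.2.2 • z) fun u v e => by
    by_contra n
    refine H (u.1 - v.1) (u.2.1 - v.2.1) (u.2.2 - v.2.2) (by
      by_contra! m
      exact n (Prod.ext (sub_eq_zero.1 m.1) (Prod.ext (sub_eq_zero.1 m.2.1) (sub_eq_zero.1 m.2.2)))) ?_
    simp only at e
    linear_combination (norm := module) e
  rw [q.card, Nat.card_prod, Nat.card_prod, ← sq, ← pow_succ'] at this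
  exact (Nat.pow_lt_pow_right h1 (by norm_num : 2 < 2 + 1)).not_ge this

theorem rt_nl : q.Rt (nl F K) where
  sq _ := rfl
  skew x y := by simp [om_apply, q.symm x.2]
  iso x y hx hy := by
    simp only [nl_apply, Prod.mk_eq_zero, and_true] at hx hy
    simp [om_apply, hx, hy]
  dep x y z hx hy hz := by
    simp only [nl_apply, Prod.mk_eq_zero, and_true] at hx hy hz
    obtain ⟨a, b, c, h1, h2⟩ := q.dep3 x.1 y.1 z.1
    exact ⟨a, b, c, h1, Prod.ext h2 (by simp [hx, hy, hz])⟩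
  an x h := by
    simp only [om_apply, nl_apply, map_zero, LinearMap.zero_apply, sub_zero, B_self, mul_eq_zero] at h
    exact h.imp_right fun h => by simp [q.aniso _ h]
  alt h x := by simp [om_apply, B_self, h]

variable {q}

theorem Rt.perp {A : (K × K) →ₗ[F] (K × K)} (h : q.Rt A) {x : K × K} (e : ∀ w, q.om x (A w) = 0) : A x = 0 :=
  q.om_nd fun w => by rw [h.skew, e, neg_zero]

theorem Rt.two {A A' : (K × K) →ₗ[F] (K × K)} (h : q.Rt A) (h' : q.Rt A') (two : (2 : F) = 0) {v y : K × K}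
    (v0 : v ≠ 0) (a : A v = 0) (a' : A' v = 0) (hy : A' y = 0) : A' (A y) = 0 := h'.perp fun w => by
  obtain ⟨r, s, t, n, e⟩ := h'.dep y (A' w) v hy (h'.sq w) a'
  by_cases s0 : s = 0
  · by_cases r0 : r = 0
    · simp_all
    · have := congrArg A e
      simp only [s0, zero_smul, add_zero, map_add, map_smul, a, smul_zero, map_zero, smul_eq_zero, r0,
        false_or] at this
      simp [this]
  · have := congrArg (q.om (A y)) e
    simpa [h.alt two, h.skew y v, a, s0] using this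

/-- The hypotheses. -/
structure QI (q : QF F K) (p : ℕ) (X : Subgroup (Au (K × K))) : Prop where
  mem : ∀ c : F, up K c ∈ X
  mx : ∀ P : Subgroup (Au (K × K)), IsPGroup p P → (∀ c : F, up K c ∈ P) → ∀ k ∈ X, k ∈ P → ∃ c : F, k = up K c
  ti : ∀ g ∈ X, ∀ d : F, g * up K (1 : F) * g⁻¹ = up K d → Nq F g
  sim : ∀ g ∈ X, ∃ ζ : F →+ F, ∀ x y, q.om (g x) (g y) = ζ (q.om x y)
  sg : (2 : F) = 0 → ∀ g ∈ X, ∀ x : K × K, q.B x.2 x.1 = 0 → q.B (g x).2 (g x).1 = 0

variable {p : ℕ} [CharP F p] {X : Subgroup (Au (K × K))} {g : Au (K × K)} {A : (K × K) →ₗ[F] (K × K)}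

namespace QI

variable (h : QI q p X)
include h

theorem sim0 (hg : g ∈ X) {x y : K × K} : q.om (g x) (g y) = 0 ↔ q.om x y = 0 := by
  obtain ⟨ζ, e⟩ := h.sim g hg
  obtain ⟨ζ', e'⟩ := h.sim _ (inv_mem hg)
  exact ⟨fun a => by rw [← iv_ap g x, ← iv_ap g y, e', a, map_zero], fun a => by rw [e, a, map_zero]⟩

theorem semi (hg : g ∈ X) (c : F) : ∃ c' : F, ∀ w, g (c • w) = c' • g w := by
  obtain ⟨ζ, e⟩ := h.sim g hg
  obtain ⟨ζ', e'⟩ := h.sim _ (inv_mem hg)
  obtain ⟨l, hl⟩ := q.ex_ne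
  obtain ⟨m, hm⟩ := q.surj hl 1
  have k : ∀ x y, q.om (g (c • g⁻¹ x)) y = ζ (c * ζ' (q.om x y)) := fun x y => by
    rw [← ap_iv g y, e, map_smul, LinearMap.smul_apply, e', ap_iv, smul_eq_mul]
  have o : q.om (l, 0) (0, m) = 1 := by simp [om_apply, hm]
  have k2 : ∀ a, ζ (c * ζ' a) = a * ζ (c * ζ' 1) := fun a => by
    have := k (l, 0) (a • (0, m))
    rw [LinearMap.map_smul, LinearMap.map_smul, k, o, smul_eq_mul, smul_eq_mul, mul_one] at this
    exact this.symm
  refine ⟨ζ (c * ζ' 1), fun w => sub_eq_zero.1 (q.om_nd fun y => ?_)⟩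
  have := k (g w) y
  rw [iv_ap, k2] at this
  simp [this, mul_comm]

theorem semi' (hg : g ∈ X) (c' : F) : ∃ c : F, ∀ w, g (c • w) = c' • g w := by
  obtain ⟨c, e⟩ := h.semi (inv_mem hg) c'
  exact ⟨c, fun w => by rw [← iv_ap g w, ← e, ap_iv, ap_iv]⟩

theorem exists_rt (hg : g ∈ X) : ∃ (A : (K × K) →ₗ[F] (K × K)) (r : q.Rt A),
    (∀ w, A (g w) = g (nl F K w)) ∧ ∀ s, el A r.sq s ∈ X := by
  let A : (K × K) →ₗ[F] (K × K) :=
    { toFun w := g (nl F K (g⁻¹ w))
      map_add' := fun x y => by rw [map_add, map_add, map_add]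
      map_smul' := fun c' w => by
        obtain ⟨c, e⟩ := h.semi' hg c'
        rw [RingHom.id_apply, ← ap_iv g w, ← e, iv_ap, iv_ap, map_smul, e] }
  have a : ∀ w, A (g w) = g (nl F K w) := fun w => by change g (nl F K (g⁻¹ (g w))) = _; rw [iv_ap]
  have z : ∀ w, A (g w) = 0 ↔ nl F K w = 0 := fun w => by rw [a, g.map_eq_zero_iff]
  have s := g.surjective
  obtain ⟨ζ, e⟩ := h.sim g hg
  refine ⟨A, ⟨s.forall.2 fun w => by rw [a, a, q.rt_nl.sq, map_zero], s.forall₂.2 fun x y => by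
    rw [a, a, e, e, q.rt_nl.skew, map_neg], s.forall₂.2 fun x y => by
    rw [z, z, h.sim0 hg]; exact q.rt_nl.iso x y, s.forall₃.2 fun x y w => ?_, s.forall.2 fun x => by
    rw [z, a, h.sim0 hg]; exact q.rt_nl.an x, fun two => s.forall.2 fun x => by
    rw [a, h.sim0 hg]; exact q.rt_nl.alt two x⟩, a, fun t => ?_⟩
  · rw [z, z, z]
    intro h1 h2 h3
    by_cases x0 : x = 0
    · exact ⟨1, 0, 0, by simp, by simp [x0]⟩
    obtain ⟨r, s, t, n, e⟩ := q.rt_nl.dep x y w h1 h2 h3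
    obtain ⟨r', er⟩ := h.semi hg r
    obtain ⟨s', es⟩ := h.semi hg s
    obtain ⟨t', et⟩ := h.semi hg t
    have k : ∀ c c' : F, (∀ w, g (c • w) = c' • g w) → c ≠ 0 → c' ≠ 0 := fun c c' e c0 c1 => by
      have := e x
      rw [c1, zero_smul, g.map_eq_zero_iff] at this
      simp [c0, x0] at this
    exact ⟨r', s', t', n.imp (k _ _ er) (Or.imp (k _ _ es) (k _ _ et)), by
      rw [← er, ← es, ← et, ← map_add, ← map_add, e, map_zero]⟩
  · obtain ⟨c, e⟩ := h.semi' hg t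
    rw [show el A _ t = g * up K c * g⁻¹ from LinearEquiv.ext (s.forall.2 fun w => by
      rw [LinearEquiv.mul_apply, LinearEquiv.mul_apply, iv_ap, el_apply, up_apply, map_add, e, a])]
    exact mul_mem (mul_mem hg (h.mem c)) (inv_mem hg)

theorem chain (hg : g ∈ X) (r : q.Rt A) (a : ∀ w, A (g w) = g (nl F K w)) {L M : Submodule F (K × K)}
    (h1 : ∀ w, nl F K w ∈ L) (h2 : ∀ w ∈ L, nl F K w ∈ M) (h3 : ∀ w ∈ M, nl F K w = 0)
    (k1 : ∀ w, A w ∈ L) (k2 : ∀ w ∈ L, A w ∈ M) (k3 : ∀ w ∈ M, A w = 0) : Nq F g := by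
  have e : g * up K (1 : F) * g⁻¹ = el A r.sq 1 := LinearEquiv.ext (g.surjective.forall.2 fun w => by
    rw [LinearEquiv.mul_apply, LinearEquiv.mul_apply, iv_ap, el_apply, up_apply, map_add, a, one_smul, one_smul])
  obtain ⟨c, hc⟩ := h.mx _ (st_p L M) (fun _ => el_st h1 h2 h3) _
    (mul_mem (mul_mem hg (h.mem 1)) (inv_mem hg)) (e ▸ el_st k1 k2 k3)
  exact h.ti g hg c hc

/-- An element trivial on `U` and `W / U` lies in `T`. -/
theorem mem_T {k : Au (K × K)} (hk : k ∈ X) (h1 : ∀ w, (k w).2 = w.2) (h2 : ∀ w : K × K, w.2 = 0 → k w = w) :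
    ∃ c : F, k = up K c :=
  h.mx _ (st_p (LinearMap.ker (nl F K)) ⊥) (fun _ => el_st (fun _ => rfl) (fun _ h => h) fun w hw => by
    simp [(Submodule.mem_bot F).1 hw]) k hk ⟨fun w => by simp [h1], fun w hw => by
      simp [h2 w (by simpa using hw)], fun w hw => by simp [(Submodule.mem_bot F).1 hw]⟩

/-- Step 1. -/
theorem opp (hq : (2 : F) = 0 ∨ ∃ r : F, r ≠ 0 ∧ r ^ 2 ≠ 1) (hg : g ∈ X) {v0 : K × K} (v1 : v0 ≠ 0)
    (v2 : v0.2 = 0) (v3 : (g v0).2 = 0) : Nq F g := by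
  obtain ⟨A, r, a, hX⟩ := h.exists_rt hg
  have n := q.rt_nl
  obtain ⟨v, hv⟩ : ∃ v, v = g v0 := ⟨_, rfl⟩
  have v0' : v ≠ 0 := by rwa [hv, Ne, g.map_eq_zero_iff]
  have nv : nl F K v = 0 := by simp [hv, v3]
  have av : A v = 0 := by rw [hv, a]; simp [v2]
  by_cases two : (2 : F) = 0
  · refine h.chain hg r a (L := LinearMap.ker (nl F K) ⊔ LinearMap.ker A)
      (M := LinearMap.ker (nl F K) ⊓ LinearMap.ker A) (fun w => Submodule.mem_sup_left (n.sq w)) (fun w hw => ?_)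
      (fun w hw => hw.1) (fun w => Submodule.mem_sup_right (r.sq w)) (fun w hw => ?_) fun w hw => hw.2
    · obtain ⟨x, hx, y, hy, rfl⟩ := Submodule.mem_sup.1 hw
      rw [map_add, LinearMap.mem_ker.1 hx, zero_add]
      exact ⟨n.sq y, n.two r two v0' nv av hy⟩
    · obtain ⟨x, hx, y, hy, rfl⟩ := Submodule.mem_sup.1 hw
      rw [map_add, LinearMap.mem_ker.1 hy, add_zero]
      exact ⟨r.two n two v0' av nv hx, r.sq x⟩
  obtain ⟨ρ, r0, r1⟩ := hq.resolve_left two
  by_cases hU : ∀ y, A y = 0 → nl F K y = 0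
  · exact h.chain hg r a (L := LinearMap.ker (nl F K)) (M := ⊥) n.sq (fun _ h => h)
      (fun w hw => by simp [(Submodule.mem_bot F).1 hw]) (fun w => hU _ (r.sq w))
      (fun w hw => r.perp fun y => n.iso _ _ hw (hU _ (r.sq y))) fun w hw => by simp [(Submodule.mem_bot F).1 hw]
  exfalso
  push Not at hU
  obtain ⟨f0, af0, e0⟩ := hU
  obtain ⟨e, he⟩ : ∃ e, e = nl F K f0 := ⟨_, rfl⟩
  have ne : nl F K e = 0 := he ▸ n.sq f0
  have k0 : q.om e f0 ≠ 0 := fun k => (n.an f0 (he ▸ k)).elim two e0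
  obtain ⟨d, d', hd⟩ : ∃ d d' : F, A e = d • f0 + d' • v := by
    obtain ⟨x, y, z, m, e'⟩ := r.dep _ _ _ (r.sq e) af0 av
    have x0 : x ≠ 0 := fun x0 => by
      have := congrArg (nl F K) e'
      simp only [x0, zero_smul, zero_add, map_add, map_smul, nv, smul_zero, add_zero, map_zero, smul_eq_zero,
        e0, or_false] at this
      simp_all
    exact ⟨-(y / x), -(z / x), smul_right_injective _ x0 (by
      simp only [smul_add, smul_smul, mul_neg, mul_div_cancel₀ _ x0]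
      linear_combination (norm := module) e')⟩
  have d0 : d ≠ 0 := fun d0 => k0 (r.iso _ _ ((r.an e (by simp [hd, d0, n.iso _ _ nv ne])).resolve_left two) af0)
  obtain ⟨f, hf⟩ : ∃ f, f = f0 + (d' / d) • v := ⟨_, rfl⟩
  have nf : nl F K f = e := by rw [hf, map_add, map_smul, nv, smul_zero, add_zero, he]
  have af : A f = 0 := by simp [hf, af0, av]
  have ae : A e = d • f := by rw [hd, hf, smul_add, smul_smul, mul_div_cancel₀ _ d0]
  have ve : q.om v e = 0 := n.iso _ _ nv ne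
  have vf : q.om v f = 0 := r.iso _ _ av af
  have k1 : q.om e f ≠ 0 := by rwa [hf, map_add, map_smul, q.om_swap e v, ve, neg_zero, smul_zero, add_zero]
  have k2 : q.om f e ≠ 0 := by rwa [q.om_swap, neg_ne_zero]
  have line : ∀ {B : (K × K) →ₗ[F] (K × K)} {x y z : K × K}, q.Rt B → B v = 0 → B y = 0 → q.om (B x) z = 0 →
      q.om v z = 0 → q.om y z ≠ 0 → ∃ l : F, B x = l • v := fun {B x y z} rB b1 b2 b3 b4 b5 => by
    obtain ⟨s, t, u, m, e'⟩ := rB.dep _ _ _ (rB.sq x) b1 b2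
    have u0 : u = 0 := by simpa [b3, b4, b5] using congrArg (fun w => q.om w z) e'
    have s0 : s ≠ 0 := fun s0 => by simp_all
    exact ⟨-(t / s), smul_right_injective _ s0 (by
      simp only [smul_smul, mul_neg, mul_div_cancel₀ _ s0]
      rw [u0] at e'
      linear_combination (norm := module) e')⟩
  have l1 : ∀ x, q.om x e = 0 → ∃ l : F, nl F K x = l • v := fun x h1 =>
    line n nv ne (by rw [n.skew, nf, h1, neg_zero]) vf k1
  have l2 : ∀ x, q.om x f = 0 → ∃ l : F, A x = l • v := fun x h1 =>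
    line r av af (by rw [r.skew, ae, map_smul, h1, smul_zero, neg_zero]) ve k2
  let Y : Subgroup (Au (K × K)) :=
    { carrier := {k | k ∈ Lin F K ∧ k v = v ∧ ∀ x, q.om x e = 0 → q.om x f = 0 → ∃ l : F, k x = x + l • v}
      mul_mem' := fun {s t} hs ht => ⟨mul_mem hs.1 ht.1, by rw [LinearEquiv.mul_apply, ht.2.1, hs.2.1],
        fun x h1 h2 => by
          obtain ⟨l, e1⟩ := hs.2.2 x h1 h2
          obtain ⟨l', e2⟩ := ht.2.2 x h1 h2
          exact ⟨l + l', by rw [LinearEquiv.mul_apply, e2, map_add, hs.1, hs.2.1, e1, add_smul, add_assoc]⟩⟩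
      one_mem' := ⟨one_mem _, rfl, fun x _ _ => ⟨0, by simp⟩⟩
      inv_mem' := fun {s} hs => ⟨inv_mem hs.1, s.injective (by rw [ap_iv, hs.2.1]), fun x h1 h2 => by
        obtain ⟨l, e1⟩ := hs.2.2 x h1 h2
        exact ⟨-l, s.injective (by rw [ap_iv, map_add, hs.1, hs.2.1, e1]; simp)⟩⟩ }
  obtain ⟨k, ⟨hk, kl, kv, kx⟩, hkef⟩ := exists_h (Y := X ⊓ Y) (hA := r.sq) (fun c => ⟨h.mem c, el_lin, by
    rw [up_apply, nv, smul_zero, add_zero], fun x h1 _ => (l1 x h1).elim fun l e =>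
      ⟨c * l, by rw [up_apply, e, smul_smul]⟩⟩) (fun s => ⟨hX s, el_lin, by
    rw [el_apply, av, smul_zero, add_zero], fun x _ h1 => (l2 x h1).elim fun l e =>
      ⟨s * l, by rw [el_apply, e, smul_smul]⟩⟩) d0 r0
  obtain ⟨ke, kf⟩ := hkef e f ne nf af ae
  have dec : ∀ w, ∃ (x : K × K) (s t : F), q.om x e = 0 ∧ q.om x f = 0 ∧ w = x + s • e + t • f := fun w =>
    ⟨w - (q.om w f / q.om e f) • e - (q.om w e / q.om f e) • f, q.om w f / q.om e f, q.om w e / q.om f e,
      by simp [om_self, k2], by simp [om_self, k1], by abel⟩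
  have key : ∀ (x : K × K) (s t : F), q.om x e = 0 → q.om x f = 0 →
      (k * up K (1 : F) * k⁻¹) (x + s • e + t • f) = x + s • e + t • f + (nl F K x + (t * ρ ^ 2) • e) := by
    intro x s t h1 h2
    obtain ⟨l, e1⟩ := kx x h1 h2
    obtain ⟨m, e2⟩ := l1 x h1
    have : k⁻¹ (x + s • e + t • f) = x - l • v + (s * ρ⁻¹) • e + (t * ρ) • f := k.injective (by
      rw [ap_iv, map_add, map_add, map_sub, kl, kl, kl, kv, ke, kf, e1, smul_smul, smul_smul,
        inv_mul_cancel_right₀ r0, mul_inv_cancel_right₀ r0]; abel)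
    rw [LinearEquiv.mul_apply, LinearEquiv.mul_apply, up_apply, map_add k, ap_iv, one_smul, this]
    simp only [map_add, map_sub, map_smul, nv, ne, nf, e2, smul_zero, sub_zero, add_zero]
    rw [kl, kl, kv, ke, smul_smul, sq, mul_assoc]
  obtain ⟨c, hc⟩ := h.mem_T (mul_mem (mul_mem hk (h.mem 1)) (inv_mem hk)) (fun w => by
    obtain ⟨x, s, t, h1, h2, rfl⟩ := dec w
    rw [key x s t h1 h2]; simp [he]) fun w hw => by
    obtain ⟨x, s, t, h1, h2, rfl⟩ := dec w
    have w0 : nl F K (x + s • e + t • f) = 0 := by rw [nl_apply, hw]; rfl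
    have t0 : t = 0 := by simpa [h1, om_self, k2] using n.iso _ _ w0 ne
    rw [key x s t h1 h2]
    simp only [t0, map_add, map_smul, ne, smul_zero, zero_smul, add_zero] at w0
    simp [w0, t0]
  have e0' : e ≠ 0 := he ▸ e0
  have c1 : c = ρ ^ 2 := by
    have := key 0 0 1 (by simp) (by simp)
    simp only [hc, up_apply, zero_smul, add_zero, zero_add, one_smul, nf, map_zero, one_mul, add_right_inj] at this
    exact smul_left_injective F e0' this
  obtain ⟨x, s, t, h1, h2, e3⟩ := dec (0, v.1)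
  have x0 : nl F K x = 0 := by
    have := key x 0 0 h1 h2
    simp only [hc, up_apply, zero_smul, add_zero, zero_mul, add_right_inj, c1] at this
    have h3 : (ρ ^ 2 - 1) • nl F K x = 0 := by rw [sub_smul, this, one_smul, sub_self]
    exact (smul_eq_zero.1 h3).resolve_left (sub_ne_zero.2 r1)
  have e4 := congrArg (nl F K) e3
  rw [map_add, map_add, map_smul, map_smul, x0, ne, nf, smul_zero, add_zero, zero_add, nl_apply,
    show (((0 : K), v.1).2, (0 : K)) = v from Prod.ext rfl (by simp [hv, v3])] at e4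
  have t0 : t = 0 := by simpa [e4, k1] using vf
  exact v0' (by simp [e4, t0])

end QI

end QF

end Cfsg.Lib.SU4J
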