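import Cfsg.Agent.Lib.SU4.QSa

/-!
# Groups of semi-similitudes of `K × K` with a trivial-intersection group `{1 + c n}` (step 2 and 3 of `SU4/QS`)
-/

set_option autoImplicit false
set_option linter.unusedSectionVars false

namespace Cfsg.Lib.SU4J

namespace QF

open Subgroup Cfsg.Lib.Transfer

attribute [-simp] LinearEquiv.coe_inv

variable {F K : Type*} [Field F] [AddCommGroup K] [Module F K] {q : QF F K} [Finite F] [Finite K]

theorem perp2 (q : QF F K) (two : (2 : F) = 0) {x y : K} (y0 : y ≠ 0) (e : q.B y x = 0) : ∃ c : F, x = c • y := by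
  obtain ⟨w, hw⟩ := q.surj y0 1
  obtain ⟨a, b, c, m, e'⟩ := q.dep3 x y w
  have c0 : c = 0 := by simpa [e, B_self, two, q.symm y w, hw] using congrArg (q.B y) e'
  have a0 : a ≠ 0 := fun a0 => by simp_all
  exact ⟨-(b / a), smul_right_injective _ a0 (by
    simp only [smul_smul, mul_neg, mul_div_cancel₀ _ a0]
    rw [c0] at e'
    linear_combination (norm := module) e')⟩

variable {p : ℕ} [CharP F p] {X : Subgroup (Au (K × K))} {g g' : Au (K × K)} {A : (K × K) →ₗ[F] (K × K)}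

namespace QI

variable (h : QI q p X) (hq : (2 : F) = 0 ∨ ∃ r : F, r ≠ 0 ∧ r ^ 2 ≠ 1) (hg : g ∈ X) (n : ¬ Nq F g)
include h hq hg n

theorem exists_sg (a : ∀ w, A (g w) = g (nl F K w)) : ∃ σ : K →ₗ[F] K × K,
    (∀ t, A (σ t) = 0) ∧ (∀ t, (σ t).2 = t) ∧ ∀ y, A y = 0 → y = σ y.2 := by
  have i0 : ∀ y, A y = 0 → y.2 = 0 → y = 0 := g.surjective.forall.2 fun v h1 h2 => by
    rw [a, g.map_eq_zero_iff] at h1
    by_contra v0
    exact n (h.opp hq hg (fun e => v0 (by rw [e, map_zero])) (congrArg Prod.fst h1) h2)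
  have i1 : ∀ y y', A y = 0 → A y' = 0 → y.2 = y'.2 → y = y' := fun y y' h1 h2 h3 =>
    sub_eq_zero.1 (i0 _ (by rw [map_sub, h1, h2, sub_self]) (by simp [h3]))
  have z : ∀ b : K, A (g (b, 0)) = 0 := fun b => by rw [a]; exact map_zero g
  choose s hs using Finite.surjective_of_injective (f := fun b : K => (g (b, 0)).2) fun b b' e =>
    congrArg Prod.fst (g.injective (i1 _ _ (z b) (z b') e))
  exact ⟨⟨⟨fun t => g (s t, 0), fun x y => i1 _ _ (z _) (by rw [map_add, z, z, add_zero]) (by simp [hs])⟩,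
    fun c x => i1 _ _ (z _) (by rw [LinearMap.map_smul, z, smul_zero]) (by simp [hs])⟩,
    fun t => z _, hs, fun y hy => i1 _ _ hy (z _) (hs _).symm⟩

/-- Step 2. -/
theorem scalar (r : q.Rt A) (a : ∀ w, A (g w) = g (nl F K w)) (hX : ∀ s, el A r.sq s ∈ X) {σ : K →ₗ[F] K × K}
    (s1 : ∀ t, A (σ t) = 0) (s2 : ∀ t, (σ t).2 = t) (s3 : ∀ y, A y = 0 → y = σ y.2) :
    ∃ m : F, m ≠ 0 ∧ ∀ x, A (x, 0) = m • σ x := by
  obtain ⟨ι, hι⟩ : ∃ ι : K →ₗ[F] K × K, ∀ x, ι x = (x, 0) := ⟨LinearMap.inl F K K, fun _ => rfl⟩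
  obtain ⟨M, hM⟩ : ∃ M : K →ₗ[F] K, ∀ x, A (ι x) = σ (M x) :=
    ⟨(LinearMap.snd F K K).comp (A.comp ι), fun x => s3 _ (r.sq _)⟩
  have n1 : ∀ t, nl F K (σ t) = ι t := fun t => by rw [nl_apply, s2, hι]
  have n2 : ∀ t, nl F K (ι t) = 0 := fun t => by rw [hι]; rfl
  have i2 : ∀ t, (ι t).2 = 0 := fun t => by rw [hι]
  have Mi : ∀ x, M x = 0 → x = 0 := fun x e => by
    have := s3 (ι x) (by rw [hM, e, map_zero])
    rw [i2, map_zero, hι] at this
    exact congrArg Prod.fst this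
  have v2 : ∀ t, (g⁻¹ (σ t)).2 = 0 := fun t => by
    have := a (g⁻¹ (σ t))
    rw [ap_iv, s1, eq_comm, g.map_eq_zero_iff] at this
    exact congrArg Prod.fst this
  have v1 : ∀ t, t ≠ 0 → g⁻¹ (σ t) ≠ 0 := fun t t0 e => t0 (by rw [← s2 t, g⁻¹.map_eq_zero_iff.1 e]; rfl)
  have k1 : ∀ s t, (el A r.sq s * up K (1 : F) * g) (g⁻¹ (σ t)) = ι t + σ (t + s • M t) := fun s t => by
    simp only [LinearEquiv.mul_apply, ap_iv, up_apply, el_apply, n1, one_smul, map_add, map_smul, s1, hM]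
    module
  have m1 : ∀ s, el A r.sq s * up K (1 : F) * g ∈ X := fun s => mul_mem (mul_mem (hX s) (h.mem 1)) hg
  obtain ⟨y0, hy⟩ := q.ex_ne
  suffices ∃ (s : F) (y : K), y ≠ 0 ∧ y + s • M y = 0 by
    obtain ⟨s, y, y1, e⟩ := this
    have N := h.opp hq (m1 s) (v1 y y1) (v2 y) (by rw [k1, e, map_zero, add_zero, i2])
    have k : ∀ x, x + s • M x = 0 := fun x => by
      have := N.U (v2 x)
      rwa [k1, Prod.snd_add, i2, s2, zero_add] at this
    have s0 : s ≠ 0 := fun s0 => y1 (by simpa [s0] using e)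
    refine ⟨-s⁻¹, by simpa using s0, fun x => ?_⟩
    rw [← hι, hM, ← map_smul]
    congr 1
    refine smul_right_injective _ s0 ?_
    simp only [smul_smul, mul_neg, mul_inv_cancel₀ s0]
    linear_combination (norm := module) k x
  by_cases two : (2 : F) = 0
  · obtain ⟨c, e⟩ := q.perp2 two (x := y0) (mt (Mi _) hy) (by
      have := r.alt two (ι y0)
      rw [hM, om_apply, i2, s2, hι] at this
      simpa using this)
    exact ⟨-c, y0, hy, by linear_combination (norm := module) e⟩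
  obtain ⟨ρ, r0, r1⟩ := hq.resolve_left two
  by_contra! H
  have ind : ∀ b c : F, b • M y0 + c • y0 = 0 → b = 0 ∧ c = 0 := fun b c e => by
    have c0 : c = 0 := by
      by_contra c0
      refine H (b / c) y0 hy (smul_right_injective _ c0 ?_)
      simp only [smul_add, smul_smul, mul_div_cancel₀ _ c0]
      linear_combination (norm := module) e
    exact ⟨by simpa [c0, mt (Mi _) hy] using e, c0⟩
  obtain ⟨τ, δ, hτ⟩ : ∃ τ δ : F, M (M y0) = τ • M y0 - δ • y0 := by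
    obtain ⟨x, y, z, m, e⟩ := q.dep3 (M (M y0)) (M y0) y0
    have x0 : x ≠ 0 := fun x0 => by
      have := ind y z (by simpa [x0] using e)
      simp [x0, this] at m
    exact ⟨-(y / x), z / x, smul_right_injective _ x0 (by
      simp only [smul_sub, smul_smul, mul_neg, mul_div_cancel₀ _ x0]
      linear_combination (norm := module) e)⟩
  have d0 : δ ≠ 0 := fun d0 => one_ne_zero (ind 1 (-τ) (Mi _ (by simp [hτ, d0]))).1
  have key : ∀ s : F, s ≠ 0 → s ^ 2 * δ = 1 := fun s s0 => by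
    have D0 : 1 + s * τ + s ^ 2 * δ ≠ 0 := fun D0 => by
      by_cases y1 : (-s) • M y0 + (1 + s * τ) • y0 = 0
      · exact s0 (neg_eq_zero.1 (ind _ _ y1).1)
      · refine H s _ y1 ?_
        simp only [map_add, map_smul, hτ]
        linear_combination (norm := module) D0 • y0
    obtain ⟨c, hc⟩ : ∃ c, c = (1 + s * τ + s ^ 2 * δ)⁻¹ := ⟨_, rfl⟩
    obtain ⟨s', hs'⟩ : ∃ s', s' = (1 + s * τ + s ^ 2 * δ) / (s * δ) := ⟨_, rfl⟩
    have e1 : s' • M (y0 - c • (y0 + s • M y0)) = y0 + s • M y0 := by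
      simp only [map_add, map_sub, map_smul, hτ, hc, hs']
      match_scalars <;> field_simp <;> ring
    have e2 : (up K c * el A r.sq s') (ι (y0 - c • (y0 + s • M y0))) = ι y0 + σ (y0 + s • M y0) := by
      rw [LinearEquiv.mul_apply, el_apply, hM, ← σ.map_smul, e1, up_apply, map_add (nl F K), n1, n2, map_sub,
        map_smul]
      module
    obtain ⟨l, -, e3⟩ := (h.opp hq (mul_mem (inv_mem (mul_mem (h.mem c) (hX s'))) (m1 s)) (v1 y0 hy) (v2 y0) (by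
      rw [LinearEquiv.mul_apply, k1, ← e2, iv_ap, i2])).lam
    have e4 := congrArg (up K c * el A r.sq s') (e3 ((el A r.sq s * up K (1 : F) * g)⁻¹ (ι y0)))
    rw [LinearEquiv.mul_apply (_ * _)⁻¹, LinearEquiv.mul_apply (_ * _)⁻¹, ap_iv, ap_iv,
      (Lin F K).mul_mem (show up K c ∈ _ from el_lin) el_lin l] at e4
    have e5 := congrArg Prod.snd e4
    simp only [mul_inv_rev, LinearEquiv.mul_apply, ← a, ap_iv, up_apply, up_inv, el_apply, el_inv, map_add, map_sub,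
      map_smul, map_zero, hM, s1, n1, n2, Prod.snd_add, Prod.snd_sub, Prod.smul_snd, s2, i2, Prod.snd_zero] at e5
    have e6 := ind (2 * s + s ^ 2 * τ + l * s' ^ 2) (1 - s ^ 2 * δ) (Mi _ (by
      have e7 := congrArg M hτ
      simp only [map_add, map_sub, map_smul] at e7 ⊢
      linear_combination (norm := module) e5 - s ^ 2 • e7))
    linear_combination -e6.2
  have := key ρ r0
  rw [show δ = 1 by simpa using key 1 one_ne_zero, mul_one] at this
  exact r1 this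

theorem sl2 : ∃ σ : K →ₗ[F] K × K, (∀ t, (σ t).2 = t) ∧ (∀ t, (g⁻¹ (σ t)).2 = 0) ∧
    (∀ r : F, r ≠ 0 → ∃ k ∈ X, (∀ w : K × K, w.2 = 0 → k w = r • w) ∧ (∀ x, k (σ x) = r⁻¹ • σ x) ∧
      ∀ w, (k w).2 = r⁻¹ • w.2) ∧
    (∃ k ∈ X, ∀ x, k (x, 0) = σ x ∧ k (σ x) = -(x, 0)) ∧ ((2 : F) = 0 → ∀ t, q.B t (σ t).1 = 0) := by
  obtain ⟨A, r, a, hX⟩ := h.exists_rt hg
  obtain ⟨σ, s1, s2, s3⟩ := h.exists_sg hq hg n a
  obtain ⟨m, m0, hm⟩ := h.scalar hq hg n r a hX s1 s2 s3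
  have v2 : ∀ t, (g⁻¹ (σ t)).2 = 0 := fun t => by
    have := a (g⁻¹ (σ t))
    rw [ap_iv, s1, eq_comm, g.map_eq_zero_iff] at this
    exact congrArg Prod.fst this
  have n1 : ∀ t, nl F K (σ t) = (t, 0) := fun t => by rw [nl_apply, s2]
  refine ⟨σ, s2, v2, fun ρ r0 => ?_, ?_, fun two t => ?_⟩
  · obtain ⟨k, hk, e⟩ := exists_h h.mem hX m0 r0
    have e' := fun x => e (x, 0) (σ x) rfl (n1 x) (s1 x) (hm x)
    refine ⟨k, hk, fun w hw => by rw [show w = (w.1, 0) from Prod.ext rfl hw, (e' _).1], fun x => (e' x).2,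
      fun w => ?_⟩
    nth_rewrite 1 [show w = (w.1 - (σ w.2).1, 0) + σ w.2 from Prod.ext (by simp) (by simp [s2])]
    rw [map_add, (e' _).1, (e' _).2]
    simp [s2]
  · obtain ⟨k, hk, e⟩ := exists_w h.mem hX m0 (neg_ne_zero.2 (one_ne_zero (α := F)))
    exact ⟨k, hk, fun x => by simpa using e (x, 0) (σ x) rfl (n1 x) (s1 x) (hm x)⟩
  · have := h.sg two g hg (g⁻¹ (σ t)) (by simp [v2])
    rwa [ap_iv, s2] at this

omit hq hg n in
theorem eig {σ : K →ₗ[F] K × K} (s2 : ∀ t, (σ t).2 = t) {r : F} (r0 : r ≠ 0) (r1 : r ^ 2 ≠ 1)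
    {k k' : Au (K × K)} (hk : k ∈ X) (a1 : ∀ w : K × K, w.2 = 0 → k w = r • w) (a2 : ∀ x, k (σ x) = r⁻¹ • σ x)
    (a3 : ∀ w, (k w).2 = r⁻¹ • w.2) (hk' : k' ∈ X) (b1 : ∀ w : K × K, w.2 = 0 → k' w = r • w)
    (b3 : ∀ w, (k' w).2 = r⁻¹ • w.2) : ∃ c : F, ∀ y, k' y = r⁻¹ • y → up K c y = σ y.2 := by
  obtain ⟨d, hd⟩ := h.mem_T (mul_mem (inv_mem hk) hk') (fun w => smul_right_injective K (inv_ne_zero r0) (by
    simp only; rw [← a3, ← b3, LinearEquiv.mul_apply, ap_iv])) fun w hw => by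
    rw [LinearEquiv.mul_apply, b1 w hw, ← a1 w hw, iv_ap]
  have r2 : r - r⁻¹ ≠ 0 := fun e => r1 (by rw [sq]; nth_rewrite 1 [sub_eq_zero.1 e]; exact inv_mul_cancel₀ r0)
  refine ⟨r * d / (r - r⁻¹), fun y e => Prod.ext ?_ (by simp [up_apply, s2])⟩
  have e1 : k (up K d y) = r⁻¹ • y := by rw [← hd, LinearEquiv.mul_apply, ap_iv, e]
  rw [show up K d y = (y.1 - (σ y.2).1 + d • y.2, 0) + σ y.2 from
    Prod.ext (by simp [up_apply]; abel) (by simp [up_apply, s2]), map_add, a1 _ rfl, a2] at e1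
  have e2 := congrArg Prod.fst e1
  refine smul_right_injective K r2 ?_
  simp only [up_apply, nl_apply, Prod.fst_add, Prod.smul_fst, smul_add, smul_smul, mul_div_cancel₀ _ r2] at e2 ⊢
  linear_combination (norm := module) e2

theorem br (hg' : g' ∈ X) (n' : ¬ Nq F g') : ∃ c : F, Nq F (g⁻¹ * up K c * g') := by
  obtain ⟨σ, s2, v2, hr, -, h2⟩ := h.sl2 hq hg n
  obtain ⟨σ', s2', v2', hr', -, h2'⟩ := h.sl2 hq hg' n'
  obtain ⟨t, t0⟩ := q.ex_ne
  obtain ⟨c, e⟩ : ∃ c : F, up K c (σ' t) = σ t := by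
    by_cases two : (2 : F) = 0
    · obtain ⟨c, e⟩ := q.perp2 two t0 (x := (σ t).1 - (σ' t).1) (by rw [map_sub, h2 two, h2' two, sub_self])
      exact ⟨c, Prod.ext (by simp [up_apply, s2', ← e]) (by simp [up_apply, s2, s2'])⟩
    · obtain ⟨r, r0, r1⟩ := hq.resolve_left two
      obtain ⟨k, hk, a1, a2, a3⟩ := hr r r0
      obtain ⟨k', hk', b1, b2, b3⟩ := hr' r r0
      obtain ⟨c, e⟩ := h.eig s2 r0 r1 hk a1 a2 a3 hk' b1 b3
      exact ⟨c, by rw [e _ (b2 t), s2']⟩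
  exact ⟨c, h.opp hq (mul_mem (mul_mem (inv_mem hg) (h.mem c)) hg') (v0 := g'⁻¹ (σ' t))
    (fun e => t0 (by rw [← s2' t, g'⁻¹.map_eq_zero_iff.1 e]; rfl)) (v2' t) (by
    rw [LinearEquiv.mul_apply, LinearEquiv.mul_apply, ap_iv, e, v2])⟩

theorem hr {r : F} (r0 : r ≠ 0) : ∃ k ∈ X, Nq F k ∧ (∀ w : K × K, w.2 = 0 → k w = r • w) ∧
    ∀ w, (k w).2 = r⁻¹ • w.2 := by
  obtain ⟨σ, -, -, hr, -⟩ := h.sl2 hq hg n
  obtain ⟨k, hk, a1, -, a3⟩ := hr r r0
  refine ⟨k, hk, fun c => ⟨c * r ^ 2, LinearEquiv.ext (k.surjective.forall.2 fun w => ?_)⟩, a1, a3⟩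
  rw [LinearEquiv.mul_apply, LinearEquiv.mul_apply, iv_ap, up_apply, up_apply, map_add, a1 (c • _) (by simp),
    nl_apply, nl_apply, a3]
  congr 1
  refine Prod.ext ?_ (by simp)
  simp only [Prod.smul_fst, smul_smul]
  congr 1; field_simp

theorem weyl1 (hk : (2 : F) = 0 ∨ ∃ k ∈ X, ∃ r : F, r ≠ 0 ∧ r ^ 2 ≠ 1 ∧ ∀ w, k w = (r • w.1, r⁻¹ • w.2)) :
    ∃ k ∈ X, ∀ w, k w = (-w.2, w.1) := by
  obtain ⟨σ, s2, -, hr, ⟨k, hk', e⟩, h2⟩ := h.sl2 hq hg n
  obtain ⟨c, hc⟩ : ∃ c : F, ∀ t, up K c (0, t) = σ t := by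
    rcases hk with two | ⟨k', hk', r, r0, r1, e⟩
    · obtain ⟨c, hc⟩ := LinearMap.exists_eq_smul_id_of_forall_notLinearIndependent
        (f := (LinearMap.fst F K K).comp σ) fun t hi => by
        have t0 : t ≠ 0 := hi.ne_zero 0
        obtain ⟨c, e⟩ := q.perp2 two t0 (h2 two t)
        exact one_ne_zero ((LinearIndependent.pair_iff.1 hi (-c) 1 (by simp [e])).2)
      exact ⟨c, fun t => Prod.ext (by simpa [up_apply] using (DFunLike.congr_fun hc t).symm) (by simp [up_apply, s2])⟩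
    · obtain ⟨k, hk, a1, a2, a3⟩ := hr r r0
      obtain ⟨c, hc⟩ := h.eig s2 r0 r1 hk a1 a2 a3 hk' (fun w hw => by rw [e]; ext <;> simp [hw])
        fun w => by rw [e]
      exact ⟨c, fun t => hc (0, t) (by rw [e]; simp)⟩
  refine ⟨(up K c)⁻¹ * k * up K c, mul_mem (mul_mem (inv_mem (h.mem c)) hk') (h.mem c), fun w => ?_⟩
  nth_rewrite 1 [show w = (w.1, 0) + (0, w.2) by simp]
  rw [map_add, LinearEquiv.mul_apply, LinearEquiv.mul_apply, LinearEquiv.mul_apply, LinearEquiv.mul_apply, hc,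
    (e _).2, show up K c (w.1, 0) = (w.1, 0) by simp [up_apply], (e _).1, ← hc, iv_ap]
  simp [up_inv]

end QI

end QF

end Cfsg.Lib.SU4J
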