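import Cfsg.Agent.Lib.Uni.Basic
import Cfsg.Agent.Lib.Unitary.Aut

/-!
# S5210, `q = 3`: explicit elements of `U₆(2)` (matrices over the field with four elements, `ω³ = 1`)
-/

set_option autoImplicit false

namespace Cfsg.Lib.SU4

open Subgroup Cfsg.Lib.Unitary
open scoped commutatorElement

namespace WU

open Matrix

/-- the involution of the field with four elements -/
def s4 : K4 ≃+* K4 where
  toFun x := x * x
  invFun x := x * x
  left_inv := by decide +kernel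
  right_inv := by decide +kernel
  map_mul' := by decide +kernel
  map_add' := by decide +kernel

theorem bar4 : IsBar 2 (s4 : K4 →+* K4) := ⟨inferInstance, Nat.card_eq_fintype_card.trans card_K4, fun a => (sq a).symm⟩

theorem mk_eq {g h : SU 6 K4 2} : (g : PSU 6 K4 2) = h ↔ ∃ c : K4, g.1.1 = c • h.1.1 := by
  rw [eq_comm, QuotientGroup.eq, mem_center_SU (q := 2) card_K4 (by norm_num)]
  refine exists_congr fun c => ⟨fun e => ?_, fun e => ?_⟩
  · rw [show g.1.1 = h.1.1 * (h⁻¹ * g).1.1 from congrArg (fun x : SU 6 K4 2 => x.1.1) (mul_inv_cancel_left h g).symm, e,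
      Matrix.mul_smul, mul_one]
  · rw [show (h⁻¹ * g).1.1 = (h⁻¹).1.1 * g.1.1 from rfl, e, Matrix.mul_smul]
    exact congrArg (fun x : SU 6 K4 2 => c • x.1.1) (inv_mul_cancel h)

/-- `3 × 3` matrices -/
abbrev M3 : Type := Matrix (Fin 3) (Fin 3) K4

/-- the determinant -/
def d3 (A : M3) : K4 := A 0 0 * A 1 1 * A 2 2 - A 0 0 * A 1 2 * A 2 1 - A 0 1 * A 1 0 * A 2 2 + A 0 1 * A 1 2 * A 2 0 +
  A 0 2 * A 1 0 * A 2 1 - A 0 2 * A 1 1 * A 2 0

/-- unitary matrices -/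
def Un (A : M3) : Prop := (A.map (s4 : K4 →+* K4))ᵀ * A = 1

instance decUn (A : M3) : Decidable (Un A) := inferInstanceAs (Decidable (_ = _))

theorem Un.mul {A B : M3} (h : Un A) (h' : Un B) : Un (A * B) := by
  rw [Un, Matrix.map_mul, transpose_mul, mul_assoc, ← mul_assoc _ A, h, one_mul, h']

/-- pairs of unitary matrices with total determinant one -/
def TT : Submonoid (M3 × M3) where
  carrier := {p | Un p.1 ∧ Un p.2 ∧ d3 p.1 * d3 p.2 = 1}
  one_mem' := by decide +kernel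
  mul_mem' := fun {a b} ⟨h1, h2, h3⟩ ⟨k1, k2, k3⟩ => ⟨h1.mul k1, h2.mul k2, by
    simp only [show ∀ A, d3 A = A.det from fun A => (det_fin_three A).symm, Prod.fst_mul, Prod.snd_mul, det_mul] at *
    linear_combination (b.1.det * b.2.det) * h3 + k3⟩

instance decTT (p : M3 × M3) : Decidable (p ∈ TT) := inferInstanceAs (Decidable (_ ∧ _ ∧ _))

/-- block diagonal matrices -/
def bl (A B : M3) : Matrix (Fin 6) (Fin 6) K4 :=
  (fromBlocks A 0 0 B).submatrix (finSumFinEquiv (m := 3) (n := 3)).symm (finSumFinEquiv (m := 3) (n := 3)).symm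

theorem bl_mul (A B C D : M3) : bl (A * C) (B * D) = bl A B * bl C D := by
  simp only [bl, submatrix_mul_equiv, fromBlocks_multiply, Matrix.mul_zero, Matrix.zero_mul, add_zero, zero_add]

theorem bl_smul {A B C D : M3} {c : K4} : bl A B = c • bl C D ↔ A = c • C ∧ B = c • D := by
  rw [bl, bl, ← Pi.smul_apply, ← Pi.smul_apply, ← submatrix_smul, fromBlocks_smul, smul_zero]
  exact ((reindex _ _).injective.eq_iff.trans fromBlocks_inj).trans (by simp)

/-- the block diagonal elements of `SU₆(2)` -/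
def su : TT →* SU 6 K4 2 where
  toFun p := ⟨⟨bl p.1.1 p.1.2, by
    rw [bl, det_submatrix_equiv_self, det_fromBlocks_zero₂₁, det_fin_three, det_fin_three]; exact p.2.2.2⟩,
    bar4.mem_SU_iff.2 (by
      change ((bl p.1.1 p.1.2).map _)ᵀ * bl p.1.1 p.1.2 = 1
      rw [show ((bl p.1.1 p.1.2).map (s4 : K4 →+* K4))ᵀ = bl (p.1.1.map (s4 : K4 →+* K4))ᵀ (p.1.2.map (s4 : K4 →+* K4))ᵀ by
        simp [bl, fromBlocks_map, fromBlocks_transpose, ← submatrix_map], ← bl_mul, p.2.1, p.2.2.1]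
      simp [bl])⟩
  map_one' := Subtype.ext (Subtype.ext (by simp [bl]))
  map_mul' x y := Subtype.ext (Subtype.ext (bl_mul _ _ _ _))

/-- the block diagonal elements of `U₆(2)` -/
def pm : TT →* PSU 6 K4 2 := (QuotientGroup.mk' _).comp su

theorem pm_eq {x y : TT} : pm x = pm y ↔ ∃ c : K4, x.1.1 = c • y.1.1 ∧ x.1.2 = c • y.1.2 :=
  mk_eq.trans (exists_congr fun _ => bl_smul)

/-- powers of `ω` -/
def om (t : ZMod 3) : K4 := TF.of (t.val + 1)

/-- the elements of `3^{1+2}` -/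
def hs (a b c : ZMod 3) : M3 := of fun i j : ZMod 3 => if j = i + b then om (c + a * i) else 0

theorem hs_un : ∀ a b c, Un (hs a b c) ∧ d3 (hs a b c) = 1 := by decide +kernel
theorem hs_mul : ∀ a b c A B C, hs a b c * hs A B C = hs (a + A) (b + B) (c + C + A * b) := by decide +kernel
theorem hs_add : ∀ a b c t, hs a b (c + t) = om t • hs a b c := by decide +kernel
theorem hs_inj : ∀ (u : K4) a b c A B, hs a b c = u • hs A B 0 → a = A ∧ b = B ∧ u = om c := by decide +kernel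
theorem om_inj : ∀ a b, om a = om b → a = b := by decide +kernel

/-- the elements of `B` -/
def FB (a b c a' b' c' : ZMod 3) : PSU 6 K4 2 := pm ⟨(hs a b c, hs a' b' c'), (hs_un _ _ _).1, (hs_un _ _ _).1, by
  rw [(hs_un _ _ _).2, (hs_un _ _ _).2, mul_one]⟩

theorem FB_mul (a b c a' b' c' A B C A' B' C' : ZMod 3) : FB a b c a' b' c' * FB A B C A' B' C' =
    FB (a + A) (b + B) (c + C + A * b) (a' + A') (b' + B') (c' + C' + A' * b') := by
  rw [FB, FB, ← map_mul]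
  exact congrArg pm (Subtype.ext (Prod.ext (hs_mul ..) (hs_mul ..)))

theorem FB_eq {a b c a' b' c' A B C A' B' C' : ZMod 3} : FB a b c a' b' c' = FB A B C A' B' C' ↔
    a = A ∧ b = B ∧ a' = A' ∧ b' = B' ∧ c - c' = C - C' := by
  refine pm_eq.trans ⟨fun ⟨u, h1, h2⟩ => ?_, ?_⟩
  · dsimp only at h1 h2
    rw [← zero_add C, hs_add, smul_smul] at h1
    rw [← zero_add C', hs_add, smul_smul] at h2
    obtain ⟨e1, e2, e3⟩ := hs_inj _ _ _ _ _ _ h1
    obtain ⟨e4, e5, e6⟩ := hs_inj _ _ _ _ _ _ h2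
    exact ⟨e1, e2, e4, e5, (by decide +kernel : ∀ (u : K4) (c c' C C' : ZMod 3), u * om C = om c → u * om C' = om c' →
      c - c' = C - C') _ _ _ _ _ e3 e6⟩
  · rintro ⟨rfl, rfl, rfl, rfl, e⟩
    exact ⟨om (c - C), by rw [← hs_add, add_sub_cancel], by
      rw [← hs_add, show C' + (c - C) = c' by linear_combination e]⟩

theorem FB_one : FB 0 0 0 0 0 0 = 1 := by
  rw [← map_one pm]; exact congrArg pm (Subtype.ext (by decide +kernel))

/-- the subgroup `B` -/
def sB : Subgroup (PSU 6 K4 2) where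
  carrier := {g | ∃ a b c a' b' c', FB a b c a' b' c' = g}
  mul_mem' := by rintro _ _ ⟨_, _, _, _, _, _, rfl⟩ ⟨_, _, _, _, _, _, rfl⟩; exact ⟨_, _, _, _, _, _, (FB_mul ..).symm⟩
  one_mem' := ⟨_, _, _, _, _, _, FB_one⟩
  inv_mem' := by
    rintro _ ⟨a, b, c, a', b', c', rfl⟩
    refine ⟨-a, -b, a * b - c, -a', -b', a' * b' - c', eq_inv_of_mul_eq_one_right ?_⟩
    rw [FB_mul, ← FB_one, FB_eq]
    refine ⟨?_, ?_, ?_, ?_, ?_⟩ <;> ring

theorem card_sB : Nat.card sB = 243 := by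
  refine (Nat.card_eq_of_bijective (fun p : ZMod 3 × ZMod 3 × ZMod 3 × ZMod 3 × ZMod 3 =>
    (⟨FB p.1 p.2.1 p.2.2.1 p.2.2.2.1 p.2.2.2.2 0, _, _, _, _, _, _, rfl⟩ : sB)) ⟨?_, ?_⟩).symm.trans (by simp)
  · rintro ⟨a, b, c, d, e⟩ ⟨a', b', c', d', e'⟩ h
    obtain ⟨h1, h2, h3, h4, h5⟩ := FB_eq.1 (congrArg Subtype.val h)
    exact Prod.ext h1 (Prod.ext h2 (Prod.ext (sub_left_inj.1 h5) (Prod.ext h3 h4)))
  · rintro ⟨_, a, b, c, a', b', c', rfl⟩
    exact ⟨⟨a, b, c - c', a', b'⟩, Subtype.ext (FB_eq.2 ⟨rfl, rfl, rfl, rfl, sub_zero _⟩)⟩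

theorem mem_z (t : ZMod 3) : FB 0 0 t 0 0 0 ∈ zpowers (FB 0 0 1 0 0 0) := by
  have : t = 0 ∨ t = 1 ∨ t = 2 := by revert t; decide
  rcases this with rfl | rfl | rfl
  · rw [FB_one]; exact one_mem _
  · exact mem_zpowers _
  · rw [show FB 0 0 2 0 0 0 = FB 0 0 1 0 0 0 * FB 0 0 1 0 0 0 from by rw [FB_mul, FB_eq]; decide]
    exact mul_mem (mem_zpowers _) (mem_zpowers _)

theorem norm_of {x : TT} (h1 : ∀ a b c, ∃ A B C, x.1.1 * hs a b c = hs A B C * x.1.1)
    (h2 : ∀ a b c, ∃ A B C, x.1.2 * hs a b c = hs A B C * x.1.2) : pm x ∈ normalizer (sB : Set (PSU 6 K4 2)) := by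
  have : Finite (sB : Set (PSU 6 K4 2)) := Nat.finite_of_card_ne_zero (card_sB.trans_ne (by decide))
  refine mem_normalizer_fintype ?_
  rintro _ ⟨a, b, c, a', b', c', rfl⟩
  obtain ⟨A, B, C, e⟩ := h1 a b c
  obtain ⟨A', B', C', e'⟩ := h2 a' b' c'
  refine ⟨A, B, C, A', B', C', eq_mul_inv_of_mul_eq ?_⟩
  rw [FB, FB, ← map_mul, ← map_mul]
  exact congrArg pm (Subtype.ext (Prod.ext e.symm e'.symm))

/-- `(e, e⁻¹)` -/
def eS : TT := ⟨(!![1, 0, 0; 0, 1, 0; 0, 0, om 1], !![1, 0, 0; 0, 1, 0; 0, 0, om 2]), by decide +kernel⟩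
/-- `(1, f)` -/
def eK : TT := ⟨(1, !![1, 1, 1; 1, om 1, om 2; 1, om 2, om 1]), by decide +kernel⟩
/-- `(1, e f e⁻¹ f⁻¹)` -/
def eW : TT := ⟨(1, !![om 2, om 2, 1; 1, om 2, om 2; 1, om 1, 1]), by decide +kernel⟩

/-- diagonal elements -/
def dv (a : Fin 4 → ZMod 3) : Fin 6 → K4 := ![om (a 0), om (a 1), om (a 2), om (a 3), om (-(a 0 + a 1 + a 2 + a 3)), 1]

theorem om_add : ∀ a b, om (a + b) = om a * om b := by decide +kernel

theorem dv_add (a b : Fin 4 → ZMod 3) (i : Fin 6) : dv (a + b) i = dv a i * dv b i := by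
  fin_cases i <;> simp [dv, ← om_add]
  congr 1; ring

theorem dv_sq (a : Fin 4 → ZMod 3) (i : Fin 6) : s4 (dv a i) * dv a i = 1 := by
  have : ∀ t, s4 (om t) * om t = 1 := by decide +kernel
  fin_cases i <;> simp [dv, this]

/-- the diagonal subgroup -/
def dA : Multiplicative (Fin 4 → ZMod 3) →* SU 6 K4 2 := MonoidHom.mk' (fun a => ⟨⟨diagonal (dv a.toAdd), by
    have : om 0 = 1 := by decide +kernel
    simp [dv, Fin.prod_univ_succ, ← om_add, ← this]⟩, bar4.mem_SU_iff.2 (by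
      change ((diagonal _).map _)ᵀ * diagonal _ = 1
      rw [diagonal_map (map_zero _), diagonal_transpose, diagonal_mul_diagonal, ← diagonal_one]
      exact congrArg _ (funext (dv_sq _)))⟩) fun a b => Subtype.ext (Subtype.ext (by
        change diagonal _ = diagonal _ * diagonal _
        rw [diagonal_mul_diagonal]; exact congrArg _ (funext (dv_add _ _))))

theorem dA_coe (a : Multiplicative (Fin 4 → ZMod 3)) : (dA a).1.1 = diagonal (dv a.toAdd) := rfl

end WU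

open WU

/-- `B` is the image of `3^{1+2} × 3^{1+2} ≤ SU₃(2) × SU₃(2)` (each factor generated by `d = diag(1, ω, ω²)` and the cyclic permutation matrix `π`), `z` is the
image of `(ω, 1)`, `s` of `(e, e⁻¹)` with `e = diag(1, 1, ω)`, `k` of `(1, f)` with `f ∈ SU₃(2)` a multiple of the Fourier matrix `(ω^(i j))`, `x` of `(d, 1)`;
`s⁻¹ k s k⁻¹ = (1, e f e⁻¹ f⁻¹)` lies in a `Q₈` (adjust `f` by elements of `3^{1+2}` so that this element has order `4` modulo scalars). -/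
theorem wit_no : ∃ (B : Subgroup (PSU 6 K4 2)) (z s k x : PSU 6 K4 2) (n : ℕ), Nat.card B = 243 ∧ z ^ 3 = 1 ∧
    (∀ a ∈ B, ∀ b ∈ B, ⁅a, b⁆ ∈ zpowers z) ∧ s ∈ normalizer (B : Set (PSU 6 K4 2)) ∧ s ^ 3 = 1 ∧ s ∉ B ∧
    k ∈ normalizer (B : Set (PSU 6 K4 2)) ∧ x ∈ B ∧ x ∉ zpowers z ∧ ⁅x, s⁆ ∈ zpowers z ∧ ⁅x, k * s * k⁻¹⁆ ∈ zpowers z ∧
    (s⁻¹ * (k * s * k⁻¹)) ^ 2 ^ n = 1 ∧ s⁻¹ * (k * s * k⁻¹) ∉ centralizer (B : Set (PSU 6 K4 2)) := by
  have hw : (pm eS)⁻¹ * (pm eK * pm eS * (pm eK)⁻¹) = pm eW := by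
    rw [inv_mul_eq_iff_eq_mul, mul_inv_eq_iff_eq_mul, ← map_mul, ← map_mul, ← map_mul]
    exact congrArg pm (Subtype.ext (by decide +kernel))
  have c1 : Commute (FB 1 0 0 0 0 0) (pm eS) := by
    rw [Commute, SemiconjBy, FB, ← map_mul, ← map_mul]; exact congrArg pm (Subtype.ext (by decide +kernel))
  have c2 : Commute (FB 1 0 0 0 0 0) (pm eK) := by
    rw [Commute, SemiconjBy, FB, ← map_mul, ← map_mul]; exact congrArg pm (Subtype.ext (by decide +kernel))
  refine ⟨sB, FB 0 0 1 0 0 0, pm eS, pm eK, FB 1 0 0 0 0 0, 2, card_sB, ?_, ?_,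
    norm_of (by decide +kernel) (by decide +kernel), ?_, ?_, norm_of (by decide +kernel) (by decide +kernel),
    ⟨_, _, _, _, _, _, rfl⟩, fun h => ?_, ?_, ?_, ?_, fun h => ?_⟩
  · rw [pow_three, FB_mul, FB_mul, ← FB_one, FB_eq]; decide
  · rintro _ ⟨a, b, c, a', b', c', rfl⟩ _ ⟨A, B, C, A', B', C', rfl⟩
    convert mem_z (A * b - a * B - (A' * b' - a' * B')) using 1
    rw [commutatorElement_def, mul_inv_eq_iff_eq_mul, mul_inv_eq_iff_eq_mul, FB_mul, FB_mul, FB_mul, FB_eq]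
    refine ⟨?_, ?_, ?_, ?_, ?_⟩ <;> ring
  · rw [pow_three, ← map_mul, ← map_mul, ← map_one pm]; exact congrArg pm (Subtype.ext (by decide +kernel))
  · rintro ⟨a, b, c, a', b', c', h⟩
    obtain ⟨u, h, -⟩ := pm_eq.1 h
    exact (by decide +kernel : ∀ a b c (u : K4), hs a b c = u • eS.1.1 → False) _ _ _ _ h
  · obtain ⟨n, hn⟩ := mem_zpowers_iff.1 h
    have : Commute (FB 0 1 0 0 0 0) (FB 0 0 1 0 0 0) := by rw [Commute, SemiconjBy, FB_mul, FB_mul, FB_eq]; decide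
    have := (this.zpow_right n).eq
    rw [hn, FB_mul, FB_mul, FB_eq] at this
    exact absurd this (by decide)
  · rw [c1.commutator_eq]; exact one_mem _
  · rw [((c2.mul_right c1).mul_right c2.inv_right).commutator_eq]; exact one_mem _
  · rw [hw, show 2 ^ 2 = 2 + 2 from rfl, pow_add, pow_two, ← map_mul, ← map_mul, ← map_one pm]
    exact congrArg pm (Subtype.ext (by decide +kernel))
  · have := h _ ⟨0, 0, 0, 1, 0, 0, rfl⟩
    rw [hw, FB, ← map_mul, ← map_mul, pm_eq] at this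
    exact absurd this (by decide +kernel)

/-- `A` is the image of the diagonal matrices of `SU₆(2)` (order `3⁵`, scalars `3`), `φ` the field automorphism.  If `g` inverts `A` then
`g d g⁻¹ = c d⁻¹` for `d = d_(i j)` (`ω` at `i`, `ω²` at `j`), and traces give `c = 1`; so `g` maps the `ω`-eigenspace `⟨e_i⟩` of `d_(i j)` to `⟨e_j⟩`, for
two different `j`. -/
theorem wit_u6 : ∃ A : Subgroup (PSU 6 K4 2), Nat.card A = 81 ∧ (∀ a ∈ A, ∀ b ∈ A, a * b = b * a) ∧
    (¬ ∃ g, ∀ a ∈ A, g * a * g⁻¹ = a⁻¹) ∧ ∃ φ : MulAut (PSU 6 K4 2), φ * φ = 1 ∧ ∀ a ∈ A, φ a = a⁻¹ := by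
  let f : Multiplicative (Fin 4 → ZMod 3) →* PSU 6 K4 2 := (QuotientGroup.mk' _).comp dA
  have inj : Function.Injective f := fun a b h => by
    obtain ⟨c, h⟩ := mk_eq.1 h
    rw [dA_coe, dA_coe, ← Matrix.diagonal_smul, Matrix.diagonal_eq_diagonal_iff] at h
    have : c = 1 := by simpa [dv] using (h 5).symm
    rw [this, one_smul] at h
    refine funext fun i => om_inj _ _ ?_
    fin_cases i
    exacts [h 0, h 1, h 2, h 3]
  refine ⟨f.range, by rw [← Nat.card_congr (MonoidHom.ofInjective inj).toEquiv]; simp, ?_, ?_, fieldAut s4, ?_, ?_⟩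
  · rintro _ ⟨a, rfl⟩ _ ⟨b, rfl⟩
    rw [← map_mul, mul_comm, map_mul]
  · rintro ⟨g, h⟩
    obtain ⟨g, rfl⟩ := QuotientGroup.mk_surjective g
    have key : ∀ a : Fin 4 → ZMod 3, ∑ i, dv a i = 1 → ∑ i, dv (-a) i = 1 → ∀ k, dv a 0 ≠ dv (-a) k → g.1.1 k 0 = 0 :=
      fun a h1 h2 k n => by
        obtain ⟨c, e⟩ := (mk_eq (g := g * dA (.ofAdd a) * g⁻¹) (h := dA (.ofAdd (-a)))).1
          ((h _ ⟨.ofAdd a, rfl⟩).trans (map_inv f _).symm)
        have e1 : (g * dA (.ofAdd a) * g⁻¹).1.1 = g.1.1 * Matrix.diagonal (dv a) * (g⁻¹).1.1 := rfl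
        have e2 : (g⁻¹).1.1 * g.1.1 = 1 := congrArg (fun x : SU 6 K4 2 => x.1.1) (inv_mul_cancel g)
        rw [e1, dA_coe, toAdd_ofAdd] at e
        have t := congrArg Matrix.trace e
        rw [Matrix.trace_mul_cycle, e2, one_mul, Matrix.trace_smul, Matrix.trace_diagonal, Matrix.trace_diagonal, h1, h2,
          smul_eq_mul, mul_one] at t
        have := congrArg (· * g.1.1) e
        simp only [Matrix.mul_assoc _ _ g.1.1, e2, Matrix.mul_one, ← t, one_smul] at this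
        replace this := congrFun (congrFun this k) 0
        rw [Matrix.mul_diagonal, Matrix.diagonal_mul] at this
        exact (mul_eq_zero.1 (by linear_combination this : g.1.1 k 0 * (dv a 0 - dv (-a) k) = 0)).resolve_right
          (sub_ne_zero.2 n)
    refine one_ne_zero (g.1.2.symm.trans (Matrix.det_eq_zero_of_column_eq_zero 0 fun k => ?_))
    by_cases hk : k = 1
    · exact key ![1, 0, 2, 0] (by decide +kernel) (by decide +kernel) k (by subst hk; decide +kernel)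
    · exact key ![1, 2, 0, 0] (by decide +kernel) (by decide +kernel) k (by revert k; decide +kernel)
  · rw [← map_mul, show s4 * s4 = 1 from RingEquiv.ext s4.left_inv, map_one]
  · rintro _ ⟨a, rfl⟩
    refine eq_inv_of_mul_eq_one_left (congrArg (QuotientGroup.mk (s := center (SU 6 K4 2)))
      (show fieldSU s4 (dA a) * dA a = 1 from Subtype.ext (Subtype.ext ?_)))
    change (fieldSU s4 (dA a)).1.1 * (dA a).1.1 = 1
    rw [fieldSU_coe, dA_coe, Matrix.diagonal_map (map_zero _), Matrix.diagonal_mul_diagonal, ← Matrix.diagonal_one]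
    exact congrArg _ (funext (dv_sq _))

end Cfsg.Lib.SU4
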